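import Cfsg.Statements.S0992
import Cfsg.Agent.H8.PrimeSylow

set_option autoImplicit false
open Cfsg

namespace Cfsg.Agent.S0992

/-- Let G be a non-abelian finite simple group of even order not divisible by 8, and T a Sylow 2-subgroup. Then T is a Klein four-group and the centralizer of T has index 3 in the normalizer of T. -/
theorem result {G : Type*} [Group G] [Finite G] [IsSimpleGroup G] (hG : ¬ IsMulCommutative G) (h2 : Even (Nat.card G)) (h8 : ¬ 8 ∣ Nat.card G) (T : Sylow 2 G) : IsKleinFour ↥(T : Subgroup G) ∧ (Subgroup.centralizer ((T : Subgroup G) : Set G)).relIndex (Subgroup.normalizer ((T : Subgroup G) : Set G)) = 3 := by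
  have h2' : 2 ∣ Nat.card G := h2.two_dvd
  have hB := H8.not_normalizer_le_centralizer hG h2' T
  have hmin : (Nat.card G).minFac = 2 := (Nat.minFac_eq_two_iff _).mpr h2'
  have hncyc : ¬ IsCyclic (T : Subgroup G) := fun h => hB (h.normalizer_le_centralizer hmin)
  obtain ⟨k, hk⟩ := T.isPGroup'.exists_card_eq
  have hk3 : k < 3 := by
    by_contra hcon
    apply h8
    have : 2 ^ 3 ∣ 2 ^ k := pow_dvd_pow 2 (by omega)
    exact this.trans (hk ▸ (T : Subgroup G).card_subgroup_dvd_card)
  have hk2 : k = 2 := by
    by_contra hcon
    apply hncyc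
    apply isCyclic_of_card_dvd_prime (p := 2)
    rw [hk]
    have : k = 0 ∨ k = 1 := by omega
    rcases this with rfl | rfl <;> simp
  subst hk2
  have hab : IsMulCommutative (T : Subgroup G) := IsPGroup.isMulCommutative_of_card_eq_prime_sq hk
  refine ⟨⟨hk, ?_⟩, ?_⟩
  · exact (not_isCyclic_iff_exponent_eq_prime Nat.prime_two hk).mp hncyc
  · have h1 := H8.relIndex_centralizer_dvd_card_mulAut (T : Subgroup G)
    have h3 : Nat.card (MulAut (T : Subgroup G)) ∣ 24 := by
      have := Subgroup.card_dvd_of_injective (MulAut.toPerm (T : Subgroup G))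
        (fun a b h => MulEquiv.toEquiv_injective h)
      rw [Nat.card_perm, hk] at this
      exact this
    have h4 := h1.trans h3
    have h5 : ¬ 2 ∣ (Subgroup.centralizer ((T : Subgroup G) : Set G)).relIndex
        (Subgroup.normalizer ((T : Subgroup G) : Set G)) := by
      intro h
      apply T.not_dvd_index
      refine h.trans ((Subgroup.relIndex_dvd_of_le_left _
        (Subgroup.le_centralizer (T : Subgroup G))).trans ?_)
      exact Subgroup.relIndex_dvd_index_of_le Subgroup.le_normalizer
    rw [← Subgroup.relIndex_eq_one] at hB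
    generalize (Subgroup.centralizer ((T : Subgroup G) : Set G)).relIndex
        (Subgroup.normalizer ((T : Subgroup G) : Set G)) = n at h4 h5 hB
    have h6 := Nat.le_of_dvd (by norm_num) h4
    interval_cases n <;> omega

end Cfsg.Agent.S0992
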