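import Cfsg.Statements.S0981
import Cfsg.Agent.H9.Psl2Even
import Cfsg.Agent.H9.Tools3

set_option autoImplicit false
open Cfsg
open H9 Subgroup

namespace Cfsg.Agent.S0981

/-- A simple group of order 4080 is isomorphic to the projective special linear group of dimension 2 over the field with 16 elements. -/
theorem result {G : Type*} [Group G] [Finite G] [IsSimpleGroup G] (h : Nat.card G = 4080) {F : Type*} [Field F] [Fintype F] (hF : Fintype.card F = 16) : Nonempty (G ≃* Matrix.ProjectiveSpecialLinearGroup (Fin 2) F) := by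
  have : Fact (Nat.Prime 17) := ⟨by norm_num⟩
  have : Fact (Nat.Prime 5) := ⟨by norm_num⟩
  have : Fact (Nat.Prime 3) := ⟨by norm_num⟩
  have hperf : Group.IsPerfect G := perfect_of_simple (by rw [h]; norm_num)
  have g17 : Nat.card G = 17 * 240 := h
  have g5 : Nat.card G = 5 * 816 := h
  have g3 : Nat.card G = 3 * 1360 := h
  have d17 : 17 ∣ Nat.card G := by rw [h]; norm_num
  obtain ⟨x17, e, c, n, o17, a1, a2, a3, a4, a5, a6, a7, C17, -, I17⟩ :=
    exists_automizer' g17 (by norm_num) 17 (by norm_num) d17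
  obtain ⟨rfl, rfl⟩ : n = 120 ∧ c = 1 := by
    have : ∀ n ∈ Nat.divisors 240, n % 17 = 1 → 17 ≤ n → ∀ e ∈ Nat.divisors (17 - 1), e ≠ 1 →
        ∀ c ∈ Nat.divisors 240, 240 = n * e * c → n = 120 ∧ c = 1 := by decide
    exact this n a3 a5 a6 e a1 a4 c a2 a7
  clear a1 a2 a3 a4 a5 a6 a7 e
  have C17' : Nat.card (Cen x17) = 17 := C17
  have k17 : ∀ y : G, 17 ∣ Nat.card (Cen y) → orderOf y ∣ 17 := fun y hy =>
    C17' ▸ orderOf_dvd_of_dvd_card_Cen g17 (by norm_num) o17 hy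
  have l17 : ∀ y : G, 17 ∣ orderOf y → orderOf y ∣ 17 := fun y hy =>
    C17' ▸ orderOf_dvd_of_dvd_orderOf g17 (by norm_num) o17 hy
  have N17 := card_dvd_orderOf g17 (by norm_num) o17 C17
  rw [I17] at N17
  obtain ⟨x5, e5, c5, n5, o5, a1, a2, a3, a4, a5, a6, a7, C5, M5, I5⟩ :=
    exists_automizer' g5 (by norm_num) 17 (by norm_num) d17
  have h5 : (n5 = 51 ∧ (c5 = 8 ∨ c5 = 4)) ∨ (n5 = 136 ∧ e5 = 2 ∧ c5 = 3) := by
    have : ∀ n ∈ Nat.divisors 816, n % 5 = 1 → 17 ≤ n → ∀ e ∈ Nat.divisors (5 - 1), e ≠ 1 →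
        ∀ c ∈ Nat.divisors 816, 816 = n * e * c → ¬ 17 ∣ 5 * c →
        (n = 51 ∧ (c = 8 ∨ c = 4)) ∨ (n = 136 ∧ e = 2 ∧ c = 3) := by decide +kernel
    refine this n5 a3 a5 a6 e5 a1 a4 c5 a2 a7 fun hd => ?_
    have := k17 x5 (C5 ▸ hd)
    rw [o5] at this
    omega
  clear a1 a2 a3 a4 a5 a6 a7
  have k5 : ∀ y : G, 5 ∣ Nat.card (Cen y) → orderOf y ∣ 5 * c5 := fun y hy =>
    C5 ▸ orderOf_dvd_of_dvd_card_Cen g5 (by norm_num) o5 hy
  have l5 : ∀ y : G, 5 ∣ orderOf y → orderOf y ∣ 5 * c5 := fun y hy =>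
    C5 ▸ orderOf_dvd_of_dvd_orderOf g5 (by norm_num) o5 hy
  have N5 := card_dvd_orderOf g5 (by norm_num) o5 C5
  rw [I5] at N5
  obtain ⟨x3, e3, c3, n3, o3, a1, a2, a3, a4, a5, a6, a7, C3, -, I3⟩ :=
    exists_automizer' g3 (by norm_num) 17 (by norm_num) d17
  have h3 : n3 * c3 = 680 ∧ (5 ∣ 3 * c3 → c3 = 20 ∨ c3 = 5) := by
    have : ∀ n ∈ Nat.divisors 1360, n % 3 = 1 → 17 ≤ n → ∀ e ∈ Nat.divisors (3 - 1), e ≠ 1 →
        ∀ c ∈ Nat.divisors 1360, 1360 = n * e * c → ¬ 17 ∣ 3 * c →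
        n * c = 680 ∧ (5 ∣ 3 * c → c = 20 ∨ c = 5) := by decide +kernel
    refine this n3 a3 a5 a6 e3 a1 a4 c3 a2 a7 fun hd => ?_
    have := k17 x3 (C3 ▸ hd)
    rw [o3] at this
    omega
  clear a1 a2 a3 a4 a5 a6 a7
  have k3 : ∀ y : G, 3 ∣ Nat.card (Cen y) → orderOf y ∣ 3 * c3 := fun y hy =>
    C3 ▸ orderOf_dvd_of_dvd_card_Cen g3 (by norm_num) o3 hy
  have N3 := card_dvd_orderOf g3 (by norm_num) o3 C3
  rw [I3] at N3
  have dis17 : ∀ (r : ℕ) (y : G), r = 5 ∨ r = 3 → 17 ∣ orderOf y → r ∣ orderOf y → False := by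
    intro r y hr h1 h2
    have := h2.trans (l17 y h1)
    rcases hr with rfl | rfl <;> omega
  rcases h5 with ⟨rfl, h5⟩ | ⟨rfl, rfl, rfl⟩
  · exfalso
    have := card_add3_le (fun y : G => 17 ∣ orderOf y) (fun y => 5 ∣ orderOf y)
      (fun y => 3 ∣ orderOf y) (fun y => dis17 5 y (Or.inl rfl)) (fun y => dis17 3 y (Or.inr rfl))
      (fun y h1 h2 => by
        have := h2.trans (l5 y h1)
        rcases h5 with rfl | rfl <;> omega)
    rw [N17, N5, N3, h, mul_right_comm n3, h3.1] at this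
    rcases h5 with rfl | rfl <;> omega
  obtain ⟨y, hy, oy⟩ := exists_mem_orderOf (Cen x5) 3 (by rw [C5]; norm_num)
  have Cy : Nat.card (Cen y) = 3 * c3 := by rw [card_Cen_eq_of_orderOf g3 (by norm_num) o3 oy, C3]
  have hc3 : c3 = 5 := by
    refine (h3.2 ?_).resolve_left ?_
    · rw [← Cy, ← o5]
      exact orderOf_dvd_card_of_mem (mem_Cen_comm.1 hy)
    · rintro rfl
      obtain ⟨n, hn1, hn2⟩ := relIndex_normalizer_modEq (p := 5) (k := 1) (m := 12) (zpowers x5)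
        (Cen y) (zpowers_le.2 (mem_Cen_comm.1 hy)) (by rw [Cy]; norm_num) (by norm_num)
        (by rw [Nat.card_zpowers, o5]; norm_num)
      have b1 : Nat.card ↥(Nor x5 ⊓ Cen y) ∣ 30 :=
        (show Nat.card (Nor x5) = 30 from M5) ▸ card_dvd_of_le inf_le_left
      have b2 : 3 ∣ Nat.card ↥(Nor x5 ⊓ Cen y) :=
        oy ▸ orderOf_dvd_card_of_mem ⟨Cen_le_Nor _ hy, self_mem_Cen y⟩
      rw [Cy] at hn2
      change 60 = n * Nat.card ↥(Nor x5 ⊓ Cen y) at hn2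
      generalize Nat.card ↥(Nor x5 ⊓ Cen y) = d at hn2 b1 b2
      have : ∀ d ∈ Nat.divisors 30, 3 ∣ d → ∀ n ∈ Nat.divisors 60, 60 = n * d → n % 5 ≠ 1 := by
        decide
      exact this d (Nat.mem_divisors.2 ⟨b1, by norm_num⟩) b2 n
        (Nat.mem_divisors.2 ⟨hn2 ▸ dvd_mul_right _ _, by norm_num⟩) hn2 hn1
  subst hc3
  obtain rfl : n3 = 136 := by omega
  have N3' := card_orderOf_eq_prime g3 (by norm_num) o3
  rw [I3] at N3'
  apply iso_psl2_even_of_count (k := 4) (by norm_num) (by rw [Nat.card_eq_fintype_card, hF]; rfl)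
    (by rw [h]; norm_num)
  · intro t ht
    have b1 := h ▸ card_Cen_dvd t
    have b2 : ¬ 17 ∣ Nat.card (Cen t) := fun hd => by have := ht ▸ k17 t hd; omega
    have b3 : ¬ 5 ∣ Nat.card (Cen t) := fun hd => by have := ht ▸ k5 t hd; omega
    have b4 : ¬ 3 ∣ Nat.card (Cen t) := fun hd => by have := ht ▸ k3 t hd; omega
    have : ∀ d ∈ Nat.divisors 4080, ¬ 17 ∣ d → ¬ 5 ∣ d → ¬ 3 ∣ d → d ≤ 2 ^ 4 := by
      decide +kernel
    exact this _ (Nat.mem_divisors.2 ⟨b1, by norm_num⟩) b2 b3 b4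
  · have := card_add4_le (fun y : G => 17 ∣ orderOf y) (fun y => 5 ∣ orderOf y)
      (fun y => orderOf y = 3) (fun y => y ^ 2 ^ 4 = 1) (fun y => dis17 5 y (Or.inl rfl))
      (fun y h1 h2 => by omega) (fun y h1 h2 => by omega)
      (fun y h1 h2 => by have := h1.trans (orderOf_dvd_of_pow_eq_one h2); omega)
      (fun y h1 h2 => by have := h1.trans (orderOf_dvd_of_pow_eq_one h2); omega)
      (fun y h1 h2 => by have := h1 ▸ (orderOf_dvd_of_pow_eq_one h2); omega)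
    rw [N17, N5, N3', h] at this
    omega

end Cfsg.Agent.S0981
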