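import Cfsg.Statements.S0982
import Cfsg.Agent.H9.Psl2Prime

set_option autoImplicit false
open Cfsg

namespace Cfsg.Agent.S0982

/-- A simple group of order 6072 is isomorphic to the projective special linear group of dimension 2 over the field with 23 elements. -/
theorem result {G : Type*} [Group G] [Finite G] [IsSimpleGroup G] (h : Nat.card G = 6072) {F : Type*} [Field F] [Fintype F] (hF : Fintype.card F = 23) : Nonempty (G ≃* Matrix.ProjectiveSpecialLinearGroup (Fin 2) F) := by
  have : Fact (Nat.Prime 23) := ⟨by norm_num⟩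
  have hG : Nat.card G = 23 ^ 1 * 264 := by rw [h]; norm_num
  have h1 := H9.card_sylow_ne_one hG (by norm_num) (by norm_num) (by norm_num)
  have h2 := H9.card_sylow_dvd hG (by norm_num)
  have h3 := card_sylow_modEq_one 23 G
  have h4 : Nat.card (Sylow 23 G) = 23 + 1 := by
    have h5 : Nat.card (Sylow 23 G) ∈ Nat.divisors 264 := Nat.mem_divisors.2 ⟨h2, by norm_num⟩
    generalize Nat.card (Sylow 23 G) = n at h1 h3 h5
    revert n
    have : ∀ n ∈ Nat.divisors 264, n ≠ 1 → n % 23 = 1 % 23 → n = 23 + 1 := by decide
    intro n a b c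
    exact this n c a b
  exact H9.iso_psl2_prime (p := 23) (m := 264) (by norm_num)
    (by rw [Nat.card_eq_fintype_card, hF]) (by rw [h]) (by norm_num) h4

end Cfsg.Agent.S0982
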