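import Cfsg.Statements.S0983
import Cfsg.Agent.H8.SieveA
import Cfsg.Agent.H8.N5400

set_option autoImplicit false
open Cfsg

namespace Cfsg.Agent.S0983

/-- A non-abelian finite simple group of order greater than 3640 and at most 6232 has order 4080, 5616, 6048 or 6072. -/
theorem result {G : Type*} [Group G] [Finite G] [IsSimpleGroup G] (hG : ¬ IsMulCommutative G) (h1 : 3640 < Nat.card G) (h2 : Nat.card G ≤ 6232) : Nat.card G = 4080 ∨ Nat.card G = 5616 ∨ Nat.card G = 6048 ∨ Nat.card G = 6072 := by
  have h := H8.mem_of_card_between hG h1 h2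
  have h3 := H8.card_ne_5400 (G := G)
  simp only [List.mem_cons, List.not_mem_nil, or_false] at h
  omega

end Cfsg.Agent.S0983
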