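import Cfsg.Statements.S0998
import Cfsg.Agent.H8.Few7

set_option autoImplicit false
open Cfsg

namespace Cfsg.Agent.S0998

/-- A non-cyclic finite simple group whose order has the form p * r * q^b for distinct primes p, q, r is isomorphic to the projective special linear group of dimension 2 over the field with 5 or with 7 elements. -/
theorem result {G : Type*} [Group G] [Finite G] [IsSimpleGroup G] (hG : ¬ IsCyclic G) (p q r b : ℕ) (hp : p.Prime) (hq : q.Prime) (hr : r.Prime) (hpq : p ≠ q) (hpr : p ≠ r) (hqr : q ≠ r) (hG' : Nat.card G = p * r * q ^ b) : (∃ (F : Type) (_ : Field F) (_ : Fintype F), Fintype.card F = 5 ∧ Nonempty (G ≃* Matrix.ProjectiveSpecialLinearGroup (Fin 2) F)) ∨ (∃ (F : Type) (_ : Field F) (_ : Fintype F), Fintype.card F = 7 ∧ Nonempty (G ≃* Matrix.ProjectiveSpecialLinearGroup (Fin 2) F)) := by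
  haveI := Fintype.ofFinite G
  have h0 : ¬ IsMulCommutative G := fun h => hG (by
    haveI := h
    exact isCyclic_of_prime_card (p := Nat.card G) (hp := ⟨by_contra fun c =>
      H8.not_comm_of_card_not_prime c h⟩) rfl)
  wlog h : r < p generalizing p r
  · exact this r p hr hp hqr.symm hpr.symm hpq.symm (by rw [hG']; ring) (by omega)
  haveI := Fact.mk hp
  obtain ⟨rfl | rfl, c⟩ := H8.simple_p_r_qb (s := b) h0 hq hr hpq.symm hqr h (by rw [hG']; ring)
  · exact Or.inl ⟨ZMod 5, inferInstance, inferInstance, ZMod.card 5, c⟩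
  · exact Or.inr ⟨ZMod 7, inferInstance, inferInstance, ZMod.card 7, c⟩

end Cfsg.Agent.S0998
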