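import Cfsg.Statements.S1001
import Cfsg.Agent.H8.Blk

set_option autoImplicit false
open Cfsg

namespace Cfsg.Agent.S1001

/-- In a finite simple group whose order has the form p * 3^a * 2^b with p prime, the centralizer of any element of order p is the cyclic group it generates. -/
theorem result {G : Type*} [Group G] [Finite G] [IsSimpleGroup G] (p a b : ℕ) (hp : p.Prime) (hG : Nat.card G = p * 3 ^ a * 2 ^ b) (x : G) (hx : orderOf x = p) : Subgroup.centralizer ({x} : Set G) = Subgroup.zpowers x := by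
  classical
  haveI := Fact.mk hp
  haveI := Fintype.ofFinite G
  refine le_antisymm ?_ (Subgroup.zpowers_le.2 H8.self_mem_Cx)
  by_cases hc : IsMulCommutative G
  · rcases (Subgroup.normal_of_isMulCommutative (Subgroup.zpowers x)).eq_bot_or_eq_top with h | h
    · rw [Subgroup.zpowers_eq_bot] at h
      rw [h, orderOf_one] at hx
      exact absurd hx hp.one_lt.ne
    · rw [h]; exact le_top
  have hB := H8.card_ne_prime_pow_mul_prime_pow hc Nat.prime_three Nat.prime_two
  have h2 : p ≠ 2 := by
    rintro rfl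
    exact hB a (b + 1) (by rw [hG]; exact Dvd.intro 1 (by ring))
  have h3 : p ≠ 3 := by
    rintro rfl
    exact hB (a + 1) b (by rw [hG]; exact Dvd.intro 1 (by ring))
  have hdv : ∀ s : ℕ, s.Prime → s ∣ 3 ^ a * 2 ^ b → s = 3 ∨ s = 2 := by
    intro s hs h
    rcases (Nat.Prime.dvd_mul hs).1 h with h | h
    · exact Or.inl ((Nat.prime_dvd_prime_iff_eq hs Nat.prime_three).1 (hs.dvd_of_dvd_pow h))
    · exact Or.inr ((Nat.prime_dvd_prime_iff_eq hs Nat.prime_two).1 (hs.dvd_of_dvd_pow h))
  have h : H8.DefOne p x := ⟨hx, by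
    rw [hG, pow_two, mul_assoc, Nat.mul_dvd_mul_iff_left hp.pos]
    intro h
    rcases hdv p hp h with h | h <;> contradiction⟩
  have hV : h.V = ⊥ := by
    by_contra hV
    have h1 : Nat.card h.V ≠ 1 := fun h1 => hV (Subgroup.card_eq_one.1 h1)
    obtain ⟨s, hs, hsV⟩ := Nat.exists_prime_and_dvd h1
    haveI := Fact.mk hs
    obtain ⟨⟨v, hv⟩, hvs⟩ := exists_prime_orderOf_dvd_card' (G := h.V) s hsV
    rw [Subgroup.orderOf_mk] at hvs
    have hsp : s ≠ p := by
      rintro rfl
      exact h.not_dvd_card_V hsV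
    have hsG : s ∣ 3 ^ a * 2 ^ b := by
      have := orderOf_dvd_natCard v
      rw [hvs, hG, mul_assoc] at this
      exact ((Nat.coprime_primes hs hp).2 hsp).dvd_of_dvd_mul_left this
    have hcomm : Commute v x := H8.mem_Cx.1 (h.V_le hv)
    rcases hdv s hs hsG with rfl | rfl
    · exact H8.not_commute_of_three_primes hc Nat.prime_three Nat.prime_two h3 h2 hG hx hvs hcomm
    · exact H8.not_commute_of_three_primes hc Nat.prime_two Nat.prime_three h2 h3
        (a := b) (b := a) (by rw [hG]; ring) hx hvs hcomm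
  intro g hg
  obtain ⟨i, rfl⟩ := h.mem_zpowers_of_V_eq_bot hV hg
  exact h.mem_zpowers_iff.2 ⟨i, rfl⟩

end Cfsg.Agent.S1001
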