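import Cfsg.Statements.S1011
import Cfsg.Agent.H9.Psl2Even
import Cfsg.Agent.H9.Tools4

set_option autoImplicit false
open Cfsg
open H9 Subgroup

namespace Cfsg.Agent.S1011

/-- A simple group of order 504 is isomorphic to the projective special linear group of dimension 2 over the field with 8 elements. -/
theorem result {G : Type*} [Group G] [Finite G] [IsSimpleGroup G] (h : Nat.card G = 504) {F : Type*} [Field F] [Fintype F] (hF : Fintype.card F = 8) : Nonempty (G ≃* Matrix.ProjectiveSpecialLinearGroup (Fin 2) F) := by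
  have : Fact (Nat.Prime 7) := ⟨by norm_num⟩
  have : Fact (Nat.Prime 3) := ⟨by norm_num⟩
  have : Fact (Nat.Prime 2) := ⟨by norm_num⟩
  have hperf : Group.IsPerfect G := perfect_of_simple (by rw [h]; norm_num)
  have g7 : Nat.card G = 7 * 72 := h
  have g3 : Nat.card G = 3 ^ 2 * 56 := h
  have d7 : 7 ∣ Nat.card G := by rw [h]; norm_num
  have hidx : ∀ H : Subgroup G, H ≠ ⊤ → 8 ≤ H.index := by
    intro H hH
    have h1 := prime_le_index hH (by norm_num) d7
    by_contra h2
    have := card_mul_le_of_index (H := H) (n := 7) (by omega) (by norm_num)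
      (by rw [h]; decide)
    rw [h] at this
    revert this; decide
  obtain ⟨x7, e, c, n, o7, a1, a2, a3, a4, a5, a6, a7, C7, -, I7⟩ :=
    exists_automizer' g7 (by norm_num) 7 (by norm_num) d7
  obtain ⟨rfl, rfl⟩ : n = 36 ∧ c = 1 := by
    have : ∀ n ∈ Nat.divisors 72, n % 7 = 1 → 7 ≤ n → ∀ e ∈ Nat.divisors (7 - 1), e ≠ 1 →
        ∀ c ∈ Nat.divisors 72, 72 = n * e * c → (n = 8 ∧ c = 3) ∨ (n = 36 ∧ c = 1) := by decide
    refine (this n a3 a5 a6 e a1 a4 c a2 a7).resolve_left ?_
    rintro ⟨rfl, rfl⟩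
    obtain ⟨y, hy, oy⟩ := exists_mem_orderOf (Cen x7) 3 (by rw [C7]; norm_num)
    have b1 := card_fixedBy_modEq_one g7 (by norm_num) o7 hy
    have b2 := card_fixedBy_lt (Nor_ne_top (ne_one_of_orderOf o7 (by norm_num)))
      (ne_one_of_orderOf oy (by norm_num))
    have b3 := card_modEq_fixedBy (α := G ⧸ Nor x7) (p := 3) (k := 1) y (pow_eq_one_of_orderOf oy)
    rw [← index, I7] at b3
    rw [I7] at b2
    unfold Nat.ModEq at b1 b3
    omega
  clear a1 a2 a3 a4 a5 a6 a7 e
  have C7' : Nat.card (Cen x7) = 7 := C7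
  have k7 : ∀ y : G, 7 ∣ Nat.card (Cen y) → orderOf y ∣ 7 := fun y hy =>
    C7' ▸ orderOf_dvd_of_dvd_card_Cen g7 (by norm_num) o7 hy
  have N7 := card_orderOf_eq_prime g7 (by norm_num) o7
  rw [I7] at N7
  have n3 : Nat.card (Sylow 3 G) = 28 := by
    have b1 := card_sylow_dvd g3 (by norm_num)
    have b2 := card_sylow_modEq_one 3 G
    have b3 := card_sylow_ne_one g3 (by norm_num) (by norm_num) (by norm_num)
    obtain ⟨P⟩ : Nonempty (Sylow 3 G) := inferInstance
    have b4 : 8 ≤ Nat.card (Sylow 3 G) := by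
      rw [P.card_eq_index_normalizer] at b3 ⊢
      exact hidx _ (fun e => b3 (index_eq_one.2 e))
    have : ∀ n ∈ Nat.divisors 56, n % 3 = 1 % 3 → 8 ≤ n → n = 28 := by decide
    exact this _ (Nat.mem_divisors.2 ⟨b1, by norm_num⟩) b2 b4
  have C3 : ∀ (P : Sylow 3 G) (x : G), x ∈ (P : Subgroup G) → orderOf x = 3 →
      Cen x = (P : Subgroup G) := by
    intro P x hx ox
    have hP := card_sylow_eq P g3 (by norm_num)
    have hc := sylow_comm_of_sq hP
    have hN := card_sylow_mul_card_normalizer P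
    rw [n3, h] at hN
    have hN' : Nat.card (normalizer ((P : Subgroup G) : Set G)) = 18 := by omega
    obtain ⟨t, ht, ot⟩ := exists_mem_orderOf _ 2 (by rw [hN']; norm_num)
    have htP : t ∉ (P : Subgroup G) := fun e => by
      have := orderOf_dvd_card_of_mem e
      rw [hP, ot] at this
      omega
    have hf : ∀ a ∈ (P : Subgroup G), t ∈ Cen a → a = 1 := by
      intro a ha hta
      by_contra h1
      exact not_normalizer_le_Cen P hc ha h1
        (le_of_index_two le_normalizer (by rw [hN', hP]; norm_num) ht htP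
          (le_Cen_of_comm hc ha) hta)
    have hx1 := ne_one_of_orderOf ox (by norm_num)
    have hinv := conj_eq_inv hc ht (fun a _ => by rw [pow_eq_one_of_orderOf ot]; simp) hf hx
    have htN : t ∈ Nor x := mem_Nor.2 (hinv ▸ inv_mem (mem_zpowers x))
    have hNN : normalizer ((P : Subgroup G) : Set G) ≤ Nor x :=
      le_of_index_two le_normalizer (by rw [hN', hP]; norm_num) ht htP
        ((le_Cen_of_comm hc hx).trans (Cen_le_Nor x)) htN
    obtain ⟨e, he, hNe⟩ := exists_card_Nor x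
    rw [ox] at he
    have he2 : e = 2 := by
      rcases (Nat.dvd_prime Nat.prime_two).1 he with rfl | rfl
      · exfalso
        apply hx1
        apply hf x hx
        rw [eq_of_le_of_card_ge (Cen_le_Nor x) (by omega)]
        exact htN
      · rfl
    subst he2
    have b1 : ¬ 7 ∣ Nat.card (Cen x) := fun hd => by have := ox ▸ k7 x hd; omega
    have b2 := hidx _ (Nor_ne_top hx1)
    have b3 := (Nor x).index_mul_card
    have b4 := hP ▸ card_dvd_of_le (le_Cen_of_comm hc hx)
    rw [hNe, h] at b3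
    have b5 : Nat.card (Cen x) = 9 ∨ Nat.card (Cen x) = 18 := by
      have : ∀ c ∈ Nat.divisors 504, 3 ^ 2 ∣ c → ¬ 7 ∣ c → 8 * (2 * c) ≤ 504 → c = 9 ∨ c = 18 := by
        decide +kernel
      exact this _ (Nat.mem_divisors.2 ⟨h ▸ card_Cen_dvd x, by norm_num⟩) b4 b1 (by nlinarith)
    rcases b5 with b5 | b5
    · exact (eq_of_le_of_card_ge (le_Cen_of_comm hc hx) (by rw [b5, hP]; norm_num)).symm
    · exfalso
      obtain ⟨n, hn1, hn2⟩ := relIndex_normalizer_modEq (p := 3) (k := 2) (m := 4) (P : Subgroup G)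
        (Nor x) (le_normalizer.trans hNN) (by rw [hNe, b5]; norm_num) (by norm_num) hP
      rw [inf_eq_left.2 hNN, hN', hNe, b5] at hn2
      unfold Nat.ModEq at hn1
      omega
  have N3 := card_pelements_TI g3 (by norm_num) (by
    intro P Q x hx hP hQ
    have h1 := orderOf_dvd_card_of_mem hP
    rw [card_sylow_eq P g3 (by norm_num)] at h1
    have h2 : 3 ∣ orderOf x := by
      have h3 : orderOf x ≠ 1 := fun e => hx (orderOf_eq_one_iff.1 e)
      have : ∀ n ∈ Nat.divisors (3 ^ 2), n ≠ 1 → 3 ∣ n := by decide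
      exact this _ (Nat.mem_divisors.2 ⟨h1, by norm_num⟩) h3
    obtain ⟨j, hj⟩ := exists_pow_orderOf_eq x h2
    exact Sylow.ext ((C3 P _ (pow_mem hP j) hj).symm.trans (C3 Q _ (pow_mem hQ j) hj)))
  rw [n3] at N3
  apply iso_psl2_even_of_count (k := 3) (by norm_num) (by rw [Nat.card_eq_fintype_card, hF]; rfl)
    (by rw [h]; norm_num)
  · intro t ht
    have b1 := h ▸ card_Cen_dvd t
    have b2 : ¬ 7 ∣ Nat.card (Cen t) := fun hd => by have := ht ▸ k7 t hd; omega
    have b4 : ¬ 3 ∣ Nat.card (Cen t) := fun hd => by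
      obtain ⟨y, hy, oy⟩ := exists_mem_orderOf _ 3 hd
      obtain ⟨P, hP⟩ := exists_sylow_mem (p := 3) (k := 1) (pow_eq_one_of_orderOf oy)
      have h1 := mem_Cen_comm.1 hy
      rw [C3 P y hP oy] at h1
      have := orderOf_dvd_card_of_mem h1
      rw [card_sylow_eq P g3 (by norm_num), ht] at this
      omega
    have : ∀ d ∈ Nat.divisors 504, ¬ 7 ∣ d → ¬ 3 ∣ d → d ≤ 2 ^ 3 := by
      decide +kernel
    exact this _ (Nat.mem_divisors.2 ⟨b1, by norm_num⟩) b2 b4
  · have := card_add3_le (fun y : G => orderOf y = 7) (fun y => y ^ 3 ^ 2 = 1 ∧ y ≠ 1)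
      (fun y => y ^ 2 ^ 3 = 1)
      (fun y h1 h2 => by have := h1 ▸ (orderOf_dvd_of_pow_eq_one h2.1); omega)
      (fun y h1 h2 => by have := h1 ▸ (orderOf_dvd_of_pow_eq_one h2); omega)
      (fun y h1 h2 => h1.2 (orderOf_eq_one_iff.1 (Nat.eq_one_of_dvd_coprimes (by norm_num)
        (orderOf_dvd_of_pow_eq_one h1.1) (orderOf_dvd_of_pow_eq_one h2))))
    rw [N7, N3, h] at this
    omega

end Cfsg.Agent.S1011
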