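import Cfsg.Statements.S1313
import Cfsg.Agent.H4.Layer

set_option autoImplicit false
open Cfsg

namespace Cfsg.Agent.S1313

theorem card_mulAut_le (F : Type*) [Group F] [Finite F] :
    Nat.card (MulAut F) ≤ (Nat.card F - 1).factorial := by
  classical
  have := Fintype.ofFinite F
  let f : MulAut F → Equiv.Perm {x : F // x ≠ 1} := fun e =>
    (e : F ≃ F).subtypeEquiv (fun x => by simp)
  have hf : Function.Injective f := by
    intro a b hab
    ext x
    by_cases hx : x = 1
    · simp [hx]
    · exact congrArg Subtype.val (congrArg (fun e => e ⟨x, hx⟩) hab)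
  refine (Nat.card_le_card_of_injective f hf).trans ?_
  rw [Nat.card_perm, Nat.card_eq_fintype_card, Nat.card_eq_fintype_card, Fintype.card_subtype_compl,
    Fintype.card_subtype_eq]

/-- For a finite group H, |H| ≤ |F*(H)|!. -/
theorem result {H : Type*} [Group H] [Finite H] : Nat.card H ≤ Nat.factorial (Nat.card ↥(Cfsg.generalizedFittingSubgroup H)) := by
  open H4 Subgroup in
  set F := generalizedFittingSubgroup H
  let φ : H →* MulAut F := MulAut.conjNormal
  have h1 : φ.ker ≤ F := by
    refine le_trans (fun g hg => ?_) centralizer_gfit_le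
    intro x hx
    have := congrArg Subtype.val (DFunLike.congr_fun hg (⟨x, hx⟩ : F))
    simp only [φ, MulAut.conjNormal_apply, MulAut.one_apply] at this
    rw [mul_inv_eq_iff_eq_mul] at this
    exact this.symm
  have h2 : Nat.card H = Nat.card φ.ker * Nat.card φ.range := by
    rw [← index_ker, card_mul_index]
  have h3 : Nat.card φ.range ≤ (Nat.card F - 1).factorial :=
    (Nat.card_le_card_of_injective _ Subtype.val_injective).trans (card_mulAut_le F)
  have h4 : Nat.card φ.ker ≤ Nat.card F := card_le_of_le h1
  rw [h2, ← Nat.mul_factorial_pred (Nat.card_pos (α := F)).ne']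
  exact Nat.mul_le_mul h4 h3

end Cfsg.Agent.S1313
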