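import Cfsg.Statements.S1349
import Cfsg.Agent.H5.Dihedral
import Cfsg.Agent.H7.CyclicTwo

set_option autoImplicit false
open Cfsg

namespace Cfsg.Agent.S1349

/-- Let G be finite, L ≤ G solvable of odd order, and A an elementary abelian 2-subgroup of order 2^d (d ≥ 1) normalizing L with C_A(L) = 1. Then there are subgroups A_1, …, A_d of A of order 2 generating A and subgroups L_1, …, L_d of L such that each A_i ⊔ L_i is dihedral of order 2 n_i with n_i odd and at least 3, and A_i ⊔ L_i commutes elementwise with A_j ⊔ L_j for i ≠ j. -/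
theorem result {G : Type*} [Group G] [Finite G] (L A : Subgroup G) (hLs : Group.IsSolvable ↥L) (hLodd : Odd (Nat.card ↥L)) (hA : Cfsg.IsElementaryAbelian 2 A) (d : ℕ) (hd : 1 ≤ d) (hAd : Nat.card ↥A = 2 ^ d) (hAL : A ≤ Subgroup.normalizer (L : Set G)) (hfaith : A ⊓ Subgroup.centralizer (L : Set G) = ⊥) : ∃ (Ai : Fin d → Subgroup G) (Li : Fin d → Subgroup G) (n : Fin d → ℕ), (∀ i, Ai i ≤ A ∧ Nat.card ↥(Ai i) = 2 ∧ Li i ≤ L ∧ Odd (n i) ∧ 3 ≤ n i ∧ Nonempty (↥(Ai i ⊔ Li i) ≃* DihedralGroup (n i))) ∧ (⨆ i, Ai i) = A ∧ ∀ i j, i ≠ j → ∀ x ∈ Ai i ⊔ Li i, ∀ y ∈ Ai j ⊔ Li j, x * y = y * x := by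
  have ho := H5.not_two_dvd_of_odd hLodd
  obtain ⟨V, hV, hVc, hAV, hC⟩ := H5.exists_abelian_faithful hA hLs ho hAL
  obtain ⟨a, x, h1, h2, h3, -⟩ := H5.exists_dual_weights hA hVc (H5.not_dvd_of_le hV ho) hAV d A
    le_rfl hAd (by rw [eq_bot_iff, ← hfaith]; exact le_inf inf_le_left hC)
  refine ⟨fun i => Subgroup.zpowers (a i), fun i => Subgroup.zpowers (x i), fun i => orderOf (x i),
    fun i => ?_, h3, fun i j hij => ?_⟩
  · obtain ⟨ha, hx, hx1, e⟩ := h1 i
    have hodd : Odd (orderOf (x i)) := hLodd.of_dvd_nat (Subgroup.orderOf_dvd_natCard L (hV hx))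
    have ha1 : a i ≠ 1 := fun h => by
      rw [h, one_mul, inv_one, mul_one, ← mul_eq_one_iff_eq_inv, ← pow_two] at e
      have := orderOf_eq_prime e hx1
      rw [this] at hodd
      exact absurd hodd (by decide)
    have hoa := H5.orderOf_eq_of_elem hA ha ha1
    have hne : orderOf (x i) ≠ 1 := fun h => hx1 (orderOf_eq_one_iff.1 h)
    have hn : Subgroup.zpowers (a i) ≤ Subgroup.normalizer (Subgroup.zpowers (x i) : Set G) := by
      rw [Subgroup.zpowers_le]
      apply H5.mem_normalizer_of_map_conj_le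
      rw [MonoidHom.map_zpowers, Subgroup.zpowers_le]
      exact H5.mem_of_eq (inv_mem (Subgroup.mem_zpowers _)) e.symm
    have hnot : a i ∉ Subgroup.zpowers (x i) := fun h => by
      have := orderOf_dvd_of_mem_zpowers h
      rw [hoa] at this
      exact H5.not_two_dvd_of_odd hodd this
    refine ⟨Subgroup.zpowers_le.2 ha, by rw [Nat.card_zpowers, hoa],
      Subgroup.zpowers_le.2 (hV hx), hodd, by obtain ⟨k, hk⟩ := hodd; beta_reduce; omega, ?_⟩
    refine H7.nonempty_equiv_dihedral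
      (a := ⟨x i, Subgroup.mem_sup_right (Subgroup.mem_zpowers _)⟩)
      (b := ⟨a i, Subgroup.mem_sup_left (Subgroup.mem_zpowers _)⟩)
      (Subgroup.orderOf_mk _ _) ?_ (Subtype.ext (hA.2 _ ha)) (Subtype.ext e) ?_
    · rintro ⟨k, hk⟩
      exact hnot ⟨k, congrArg Subtype.val hk⟩
    · rw [sup_comm, H5.card_sup_of_disjoint hn, Nat.card_zpowers, Nat.card_zpowers, hoa, mul_comm]
      rw [inf_comm]
      exact H4.inf_eq_bot_of_pGroup_coprime (H4.isPGroup_zpowers_of_orderOf hoa)
        (by rw [Nat.card_zpowers]; exact (Nat.coprime_two_right.2 hodd))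
  · rw [← H4.commutator_eq_bot_iff']
    have key : ∀ u v : G, u * v = v * u → ⁅Subgroup.zpowers u, Subgroup.zpowers v⁆ = ⊥ :=
      fun u v e => by
        rw [Subgroup.commutator_eq_bot_iff_le_centralizer, Subgroup.zpowers_le,
          H4.centralizer_zpowers, Subgroup.mem_centralizer_singleton_iff]
        exact e
    exact H4.commutator_sup_left_eq_bot
      (H4.commutator_sup_right_eq_bot
        (key _ _ (H5.comm_of_isMulCommutative hA.1 (h1 i).1 (h1 j).1)) (key _ _ (h2 i j hij)))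
      (H4.commutator_sup_right_eq_bot (key _ _ (h2 j i hij.symm).symm)
        (key _ _ (H5.comm_of_isMulCommutative hVc (h1 i).2.1 (h1 j).2.1)))

end Cfsg.Agent.S1349
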