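import Cfsg.Statements.S3121
import Cfsg.Agent.SF.P
import Cfsg.Agent.H4.Layer

set_option autoImplicit false
open Cfsg Subgroup FT H4 BS SF

namespace Cfsg.Agent.S3121

/-- Let G be a finite group whose generalized Fitting subgroup F*(G) is a non-abelian simple group, let H be a tightly embedded subgroup of G and N its normalizer. If H^g ∩ N has odd order for every element g of G outside N, then either H is normal in G or F*(G) has a strongly embedded subgroup. -/
theorem result {G : Type*} [Group G] [Finite G]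
    (hF : IsSimpleGroup ↥(Cfsg.generalizedFittingSubgroup G)) (hF' : ¬ IsMulCommutative ↥(Cfsg.generalizedFittingSubgroup G))
    (H : Subgroup G) (hH : Cfsg.IsTightlyEmbedded H)
    (hodd : ∀ g : G, g ∉ Subgroup.normalizer (H : Set G) →
      Odd (Nat.card ↥(H.map (MulAut.conj g).toMonoidHom ⊓ Subgroup.normalizer (H : Set G)))) :
    H.Normal ∨ ∃ M : Subgroup ↥(Cfsg.generalizedFittingSubgroup G), Cfsg.IsStronglyEmbedded M := by
  by_cases hn : H.Normal
  · exact Or.inl hn
  right
  set F := generalizedFittingSubgroup G with hFd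
  haveI hFn : F.Normal := normal_of_top_le_normalizer (by
    have := le_normalizer_gfitIn (⊤ : Subgroup G)
    rwa [gfitIn_top] at this)
  have hev : Even (Nat.card F) := Nat.not_odd_iff_even.mp fun ho =>
    hF' ⟨⟨IsSimpleGroup.comm_iff_isSolvable.mpr (odd_solvable ho)⟩⟩
  have hC : Cen F = ⊥ := by
    rcases hF.eq_bot_or_eq_top_of_normal ((Cen F).subgroupOf F) inferInstance with e | e
    · exact le_bot_iff.mp ((le_inf le_rfl centralizer_gfit_le).trans
        (subgroupOf_eq_bot.mp e).le_bot)
    · exact absurd (H5.isMulCommutative_of_forall fun a ha b hb =>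
        (subgroupOf_eq_top.mp e hb) a ha) hF'
  have key : ∀ N : Subgroup G, N.Normal → N ≠ ⊥ → F ≤ N := fun N hN h0 => by
    rcases hF.eq_bot_or_eq_top_of_normal (N.subgroupOf F) inferInstance with e | e
    · refine absurd (le_bot_iff.mp (hC ▸ commutator_eq_bot_iff_le_centralizer.mp ?_)) h0
      exact le_bot_iff.mp ((commutator_le_inf N F).trans (subgroupOf_eq_bot.mp e).le_bot)
    · exact subgroupOf_eq_top.mp e
  have h := ch_of_nor (A := H) fun g a ha hi hg => by
    by_contra hc
    exact (hi.conj g).not_mem (hodd g hc) ⟨⟨a, ha, rfl⟩, hg⟩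
  have hH' : Nor H ≠ ⊤ := fun e => hn (normalizer_eq_top_iff.mp e)
  obtain ⟨a, ha, hi⟩ := exists_inv_of_even hH.1
  have haD := mem_Cj hi ha
  by_cases h2 : RkD (Cj H) ⊤
  · exact ⟨_, se_of_sein (h.sein hH' ((h.pure hH' h2).mono (key _ h.closure_normal fun e =>
      hi.1 (mem_bot.mp (e ▸ subset_closure haD)))) hev)⟩
  · have h0 : Od (⊤ : Subgroup G) = ⊥ := by
      by_contra h0
      exact Nat.not_odd_iff_even.mpr hev (odd_of_le (odd_Od _)
        (key _ (normal_of_top_le_normalizer (le_nor_piCoreOf _ _)) h0))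
    have := h.pd.rank_one h2 (mem_top a) haD
    rw [h0, le_bot_iff, Cm_eq_bot_iff] at this
    exact absurd (mem_bot.mp (hC ▸ fun x _ => mem_centralizer_singleton_iff.mp (this (mem_top x))))
      hi.1

end Cfsg.Agent.S3121
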