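import Cfsg.Statements.S3153
import Cfsg.Agent.H4.Four

set_option autoImplicit false
open Cfsg

namespace Cfsg.Agent.S3153

/-- Let X be a finite group and P a standard subgroup of X whose centralizer has 2-rank at most 1 and whose centre has odd order. Let S be a Sylow 2-subgroup of N_X(P) and t an involution of S centralizing P. Suppose some element g of X normalizes S, does not lie in S, has its square in S, and conjugates t into P·C_X(P). Then P commutes elementwise with the largest normal odd-order subgroup O(X) of X; consequently every t-invariant 2-component of X containing P is quasisimple. -/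
theorem result {X : Type*} [Group X] [Finite X] (P : Subgroup X) (hP : Cfsg.IsStandardSubgroup P)
    (hr : Cfsg.PRankLE 2 1 ↥(Subgroup.centralizer (P : Set X))) (hZ : Odd (Nat.card ↥(Subgroup.center ↥P)))
    (S : Sylow 2 ↥(Subgroup.normalizer (P : Set X))) (t : X) (ht : orderOf t = 2) (htS : t ∈ (S : Subgroup ↥(Subgroup.normalizer (P : Set X))).map (Subgroup.normalizer (P : Set X)).subtype)
    (htP : t ∈ Subgroup.centralizer (P : Set X))
    (g : X) (hgN : ∀ s ∈ (S : Subgroup ↥(Subgroup.normalizer (P : Set X))).map (Subgroup.normalizer (P : Set X)).subtype, g * s * g⁻¹ ∈ (S : Subgroup ↥(Subgroup.normalizer (P : Set X))).map (Subgroup.normalizer (P : Set X)).subtype)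
    (hgS : g ∉ (S : Subgroup ↥(Subgroup.normalizer (P : Set X))).map (Subgroup.normalizer (P : Set X)).subtype) (hg2 : g ^ 2 ∈ (S : Subgroup ↥(Subgroup.normalizer (P : Set X))).map (Subgroup.normalizer (P : Set X)).subtype)
    (hgt : g * t * g⁻¹ ∈ P ⊔ Subgroup.centralizer (P : Set X)) :
    ⁅P, Cfsg.oddCore X⁆ = ⊥ ∧
      ∀ L : Subgroup X, Cfsg.IsPComponent 2 L → P ≤ L → (∀ l ∈ L, t * l * t⁻¹ ∈ L) → Cfsg.IsQuasisimple ↥L := by
  open H4 Subgroup in
  have hC := std_compIn hP ht htP
  have hSyl := H5.isSylowOf_map_subtype S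
  generalize (S : Subgroup (normalizer (P : Set X))).map (normalizer (P : Set X)).subtype = T at *
  have ht2 := mul_self_eq_one_of_orderOf ht
  have ht1 := ne_one_of_orderOf ht
  have hgT : g ∈ normalizer (T : Set X) := H5.mem_normalizer_of_forall hgN
  have hgP : g ∉ normalizer (P : Set X) := fun h => hgS (hSyl.le_of_le_normalizer' (Q := zpowers g)
    (by
      obtain ⟨k, hk⟩ := exists_pow_pow_of_mem hSyl.isPGroup hg2
      exact isPGroup_zpowers_of_pow (k := k + 1) (by rw [pow_succ', pow_mul, hk]))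
    (zpowers_le.mpr h) (zpowers_le.mpr hgT) (mem_zpowers g))
  have hst : g * t * g⁻¹ ≠ t := fun e => hgP (std_centralizer_le hP ht htP
    (mem_centralizer_singleton_iff.mpr (mul_inv_eq_iff_eq_mul.mp e)))
  have htZ : ∀ x ∈ T, x * t * x⁻¹ = t := by
    obtain ⟨z, hz, hz1, hz2, hzc⟩ := H7.exists_fixed_order_p
      (H := T ⊓ centralizer (P : Set X)) (hSyl.isPGroup.to_le inf_le_left) hSyl.isPGroup
      (H4.le_normalizer_inf le_normalizer (H4.le_normalizer_centralizer hSyl.le))
      (fun e => ht1 (mem_bot.mp (e ▸ mem_inf.mpr ⟨htS, htP⟩)))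
    have := eq_of_pRankLE ht2 (by rwa [← pow_two]) (hzc t (mem_sup_right htS)) hr htP hz.2 ht1 hz1
    intro x hx
    rw [this, hzc x (mem_sup_right hx), mul_inv_cancel_right]
  have hs2 : g * t * g⁻¹ * (g * t * g⁻¹) = 1 := by
    rw [show g * t * g⁻¹ * (g * t * g⁻¹) = g * (t * t) * g⁻¹ by group, ht2]; group
  have hsc : g * t * g⁻¹ * t = t * (g * t * g⁻¹) :=
    mul_inv_eq_iff_eq_mul.mp (htZ _ (hgN t htS))
  have hgs : g * (g * t * g⁻¹) * g⁻¹ = t := by
    have := htZ _ hg2
    rw [pow_two] at this
    rw [show g * (g * t * g⁻¹) * g⁻¹ = g * g * t * (g * g)⁻¹ by group, this]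
  have hs1 : g * t * g⁻¹ ≠ 1 := fun e => ht1 (conj_eq_one_iff.mp e)
  set s := g * t * g⁻¹ with hs
  obtain ⟨a, ha, c, hc, hac, ha2, hc2⟩ : ∃ a ∈ P, ∃ c ∈ centralizer (P : Set X),
      a * c = s ∧ a * a = 1 ∧ c * c = 1 := by
    obtain ⟨a, ha, c, hc, hac⟩ := (mem_sup_of_le_normalizer_right
      (H4.le_normalizer_centralizer le_normalizer)).mp hgt
    have h1 : Commute a c := hc a ha
    have h2 : a ^ 2 * c ^ 2 = 1 := by rw [← h1.mul_pow, hac, pow_two, hs2]
    have h3 : a ^ 2 ∈ (center P).map P.subtype := by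
      rw [map_center_subtype]
      exact mem_inf.mpr ⟨pow_mem ha 2, by rw [eq_inv_of_mul_eq_one_left h2]; exact inv_mem (pow_mem hc 2)⟩
    have h4 := orderOf_dvd_iff_pow_eq_one.mp (orderOf_dvd_natCard _ h3)
    rw [card_map_of_injective P.subtype_injective] at h4
    obtain ⟨m, hm⟩ := hZ
    have h5 : (a * c) ^ (2 * m + 1) = s := by
      rw [hac, pow_succ, pow_mul, pow_two, hs2, one_pow, one_mul]
    have h6 : a ^ (2 * m + 1) * a ^ (2 * m + 1) = 1 := by
      rw [← pow_two, ← pow_mul, mul_comm, pow_mul, ← hm, h4]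
    rw [h1.mul_pow] at h5
    refine ⟨_, pow_mem ha _, _, pow_mem hc _, h5, h6, ?_⟩
    rw [← h5, (h1.pow_pow _ _).symm.mul_mul_mul_comm, h6, one_mul] at hs2
    exact hs2
  have hat : a * t = t * a := htP a ha
  have hct : c = 1 ∨ c = t := by
    by_cases h : c = 1
    · exact Or.inl h
    · refine Or.inr (eq_of_pRankLE hc2 ht2 ?_ hr hc htP h ht1)
      rw [← mul_left_cancel_iff (a := a), ← mul_assoc, hac, hsc, ← hac, ← mul_assoc, ← mul_assoc, hat]
  have ha1 : a ≠ 1 := by
    rintro rfl
    rw [one_mul] at hac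
    rcases hct with h | h
    exacts [hs1 (hac.symm.trans h), hst (hac.symm.trans h)]
  have hao := orderOf_eq_two' ha2 ha1
  have haC : a ∉ centralizer (P : Set X) := fun h => by
    refine not_mem_of_coprime (N := (center P).map P.subtype) ?_ hao (by
      rw [map_center_subtype]; exact ⟨ha, h⟩)
    rw [card_map_of_injective P.subtype_injective]
    exact Nat.coprime_two_right.mpr hZ
  have hd : 2 ∣ Nat.card P := hao ▸ P.orderOf_dvd_natCard ha
  have h1 := hC.commute_inf_pPrimeCore hd
  have h2 := (hC.conjS g).commute_inf_pPrimeCore (p := 2) (by rwa [card_conjS])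
  rw [conjS_centralizer_singleton, ← hs] at h2
  have hne : a ≠ t := fun e => haC (e ▸ htP)
  have hgen := fun (H : Subgroup X) => le_of_four (H := H) ha2 ht2 hat ha1 ht1 hne
    (le_normalizer_of_normal (mem_top _)) (le_normalizer_of_normal (mem_top _))
    (coprime_card_pPrimeCore 2 X)
  have key : P ≤ centralizer (Cfsg.pPrimeCore 2 X : Set X) := by
    rcases hct with rfl | rfl
    · rw [mul_one] at hac
      have h3 : t ∈ conjS g P := by rw [← hgs, ← hac]; exact conj_mem_conjS ha
      refine hC.qs.le_of_mul_mem le_normalizer_of_normal ha haC htP fun o ho =>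
        mem_centralizer_singleton_iff.mp (hgen (centralizer {a * t}) ?_ ?_ inf_le_right ho)
      · intro x hx
        have e1 := mem_centralizer_singleton_iff.mp hx.2
        have e2 := h2 (show x ∈ _ ⊓ centralizer {s} from hac ▸ hx) t h3
        rw [mem_centralizer_singleton_iff, ← mul_assoc, e1, mul_assoc, ← e2, mul_assoc]
      · intro x hx
        have e1 := mem_centralizer_singleton_iff.mp hx.2
        have e2 := h1 hx a ha
        rw [mem_centralizer_singleton_iff, ← mul_assoc, ← e2, mul_assoc, e1, mul_assoc]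
    · have h3 : a ∈ conjS g P := by
        have e1 : a = s * c := by rw [← hac, mul_assoc, ht2, mul_one]
        have e2 : g * a * g⁻¹ = a := by
          rw [e1, hsc, show g * (c * s) * g⁻¹ = (g * c * g⁻¹) * (g * s * g⁻¹) by group, hgs, ← hs, hsc]
        rw [← e2]; exact conj_mem_conjS ha
      refine hC.qs.le_of_mul_mem le_normalizer_of_normal ha haC (one_mem _) ?_
      rw [mul_one]
      refine fun o ho => mem_centralizer_singleton_iff.mp (hgen (centralizer {a}) inf_le_right
        (h1.trans (centralizer_le (Set.singleton_subset_iff.mpr ha))) ?_ ho)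
      rw [hac]
      exact h2.trans (centralizer_le (Set.singleton_subset_iff.mpr h3))
  refine ⟨commutator_eq_bot_iff_le_centralizer.mpr key, fun L hL hPL _ => ?_⟩
  have h3 := pcompIn_top_iff.mpr hL
  rw [← qs_iff, h3.qs_iff, pPrimeCoreIn_top, commutator_eq_bot_iff_le_centralizer]
  rcases h3.2.normal (L ⊓ centralizer (Cfsg.pPrimeCore 2 X : Set X)) inf_le_left
    (H4.le_normalizer_inf le_normalizer le_normalizer_of_normal) with e | e
  · exact e.ge.trans inf_le_right
  · exact absurd ((hC.perfect.ge.trans ((commutator_mono (le_inf hPL key) hPL).trans e)) ha)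
      (not_mem_of_coprime (coprime_card_pPrimeCoreIn 2 L) hao)

end Cfsg.Agent.S3153
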