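import Cfsg.Statements.S3154
import Cfsg.Agent.C4.A

set_option autoImplicit false
open Cfsg

namespace Cfsg.Agent.S3154

/-- Let X be a finite quasisimple group whose centre is an elementary abelian 2-group and whose central quotient is isomorphic to the projective special linear group of dimension 3 over the field with 4 elements. Let T be a Sylow 2-subgroup of X and H ≠ K subgroups of T containing the centre Z(X) whose images in X/Z(X) are elementary abelian of order 16 (the two such subgroups of a Sylow 2-subgroup of the quotient). Then H and K are elementary abelian, H ∩ K is the centre of the subgroup they generate, and each of N_X(H), N_X(K) is a split extension of H, respectively K, by the projective special linear group of dimension 2 over the field with 4 elements (there is a complement isomorphic to that group). -/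
theorem result {X : Type*} [Group X] [Finite X] (hq : Cfsg.IsQuasisimple X) (hZ : Cfsg.IsElementaryAbelian 2 (Subgroup.center X))
    {F : Type*} [Field F] [Fintype F] (hF : Fintype.card F = 4) (hXL : Nonempty ((X ⧸ Subgroup.center X) ≃* Matrix.ProjectiveSpecialLinearGroup (Fin 3) F))
    (T : Sylow 2 X) (H K : Subgroup X) (hHK : H ≠ K) (hHT : H ≤ T) (hKT : K ≤ T) (hZH : Subgroup.center X ≤ H) (hZK : Subgroup.center X ≤ K)
    (hH : Cfsg.IsElementaryAbelian 2 (H.map (QuotientGroup.mk' (Subgroup.center X))) ∧ Nat.card ↥(H.map (QuotientGroup.mk' (Subgroup.center X))) = 16)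
    (hK : Cfsg.IsElementaryAbelian 2 (K.map (QuotientGroup.mk' (Subgroup.center X))) ∧ Nat.card ↥(K.map (QuotientGroup.mk' (Subgroup.center X))) = 16) :
    Cfsg.IsElementaryAbelian 2 H ∧ Cfsg.IsElementaryAbelian 2 K ∧
      H ⊓ K = (Subgroup.center ↥(H ⊔ K)).map (H ⊔ K).subtype ∧
      (∃ C : Subgroup X, C ≤ Subgroup.normalizer (H : Set X) ∧ C ⊓ H = ⊥ ∧ H ⊔ C = Subgroup.normalizer (H : Set X) ∧
        Nonempty (↥C ≃* Matrix.ProjectiveSpecialLinearGroup (Fin 2) F)) ∧
      (∃ C : Subgroup X, C ≤ Subgroup.normalizer (K : Set X) ∧ C ⊓ K = ⊥ ∧ K ⊔ C = Subgroup.normalizer (K : Set X) ∧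
        Nonempty (↥C ≃* Matrix.ProjectiveSpecialLinearGroup (Fin 2) F)) := by
  obtain ⟨a, b, c, d, e⟩ := C4.main (fun z hz => by rw [← sq]; exact hZ.2 z hz) hF hXL.some T H K
    hHK hHT hKT hZH hZK (fun x hx => by rw [← sq]; exact hH.1.2 x hx) hH.2
    (fun x hx => by rw [← sq]; exact hK.1.2 x hx) hK.2
  have cm : ∀ {A : Subgroup X}, (∀ x ∈ A, x * x = 1) → ∀ x ∈ A, ∀ y ∈ A, x * y = y * x :=
    fun h x hx y hy => by
      rw [← inv_eq_of_mul_eq_one_left (h _ (Subgroup.mul_mem _ hx hy)), mul_inv_rev,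
        inv_eq_of_mul_eq_one_left (h x hx), inv_eq_of_mul_eq_one_left (h y hy)]
  have ea : ∀ {A : Subgroup X}, (∀ x ∈ A, x * x = 1) → Cfsg.IsElementaryAbelian 2 A := fun h =>
    ⟨⟨⟨fun x y => Subtype.ext (cm h _ x.2 _ y.2)⟩⟩, fun x hx => by rw [sq]; exact h x hx⟩
  refine ⟨ea a, ea b, le_antisymm (fun x hx => ?_) ?_, d, e⟩
  · refine ⟨⟨x, Subgroup.mem_sup_left hx.1⟩, Subgroup.mem_center_iff.2 fun y => Subtype.ext ?_, rfl⟩
    have : H ⊔ K ≤ Subgroup.centralizer {x} := sup_le
      (fun h hh => Subgroup.mem_centralizer_singleton_iff.2 (cm a h hh x hx.1))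
      fun h hh => Subgroup.mem_centralizer_singleton_iff.2 (cm b h hh x hx.2)
    exact Subgroup.mem_centralizer_singleton_iff.1 (this y.2)
  · rintro _ ⟨x, hx, rfl⟩
    exact c _ x.2 fun y hy => congrArg Subtype.val (Subgroup.mem_center_iff.1 hx ⟨y, hy⟩)

end Cfsg.Agent.S3154
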