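import Cfsg.Statements.S3174
import Cfsg.Agent.H8.Ru2

set_option autoImplicit false
open Cfsg

namespace Cfsg.Agent.S3174

/-- Let T be a finite 2-group of order at least 2^14 in which the fourth term of the upper central series has order 16. Let W be the centralizer in T of the third term Z₃(T), and suppose the Frattini subgroup of W has order at most 8 and lies in every subgroup of W of index at most 16. Then T has order exactly 2^14; the derived subgroup of W and the Frattini subgroup of W both equal Z₃(T), which is elementary abelian of order 8; the centre of W has order 8; W is normal in T with quotient dihedral of order 8; and W modulo its derived subgroup is elementary abelian of order 2^8. -/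
theorem result {T : Type*} [Group T] [Finite T]
    (hT : IsPGroup 2 T) (ha : 2 ^ 14 ≤ Nat.card T) (hb : Nat.card ↥(Subgroup.upperCentralSeries T 4) = 16)
    (W : Subgroup T) (hW : W = Subgroup.centralizer ((Subgroup.upperCentralSeries T 3 : Subgroup T) : Set T))
    (hc : Nat.card ↥(frattini ↥W) ≤ 8) (hd : ∀ U : Subgroup ↥W, U.index ≤ 16 → frattini ↥W ≤ U) :
    Nat.card T = 2 ^ 14 ∧
      (commutator ↥W).map W.subtype = Subgroup.upperCentralSeries T 3 ∧
      (frattini ↥W).map W.subtype = Subgroup.upperCentralSeries T 3 ∧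
      Nat.card ↥(Subgroup.center ↥W) = 8 ∧
      Nat.card ↥(Subgroup.upperCentralSeries T 3) = 8 ∧ (∀ z ∈ Subgroup.upperCentralSeries T 3, z ^ 2 = 1) ∧
      (∃ (_ : W.Normal), Nonempty (T ⧸ W ≃* DihedralGroup 4)) ∧
      Nat.card (↥W ⧸ commutator ↥W) = 2 ^ 8 ∧ (∀ x : ↥W ⧸ commutator ↥W, x ^ 2 = 1) := by
  have h := H8.Ru.hyp_of hT ha hb W hW hc hd
  have e1 : (commutator ↥W).map W.subtype = Subgroup.upperCentralSeries T 3 := by
    rw [Subgroup.map_subtype_commutator]; exact h.comm_eq
  have e2 : (Subgroup.center ↥W).map W.subtype = Subgroup.upperCentralSeries T 3 := by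
    refine Eq.trans ?_ h.cen_eq
    ext x
    constructor
    · rintro ⟨y, hy, rfl⟩
      exact ⟨y.2, fun w hw => congrArg Subtype.val (Subgroup.mem_center_iff.mp hy ⟨w, hw⟩)⟩
    · rintro ⟨hx, hx'⟩
      exact ⟨⟨x, hx⟩, Subgroup.mem_center_iff.mpr fun w => Subtype.ext (hx' w w.2), rfl⟩
  have c3 := h.cardZ.2.2
  refine ⟨h.cards.1, e1, h.F_eq, ?_, c3, fun z hz => by rw [sq]; exact h.z3_sq z hz,
    ⟨h.Wn, h.dihedral⟩, ?_, fun x => ?_⟩
  · rw [← c3, ← Subgroup.card_map_of_injective W.subtype_injective, e2]
  · have h1 := (commutator ↥W).card_mul_index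
    rw [← Subgroup.card_map_of_injective W.subtype_injective, e1, c3, h.cards.2.1,
      Subgroup.index] at h1
    omega
  · obtain ⟨w, rfl⟩ := QuotientGroup.mk'_surjective _ x
    rw [← map_pow, QuotientGroup.mk'_apply, QuotientGroup.eq_one_iff]
    obtain ⟨y, hy, e⟩ : (w * w : T) ∈ (commutator ↥W).map W.subtype := e1 ▸ h.F_le (h.sq w w.2)
    rw [sq, ← (Subtype.ext e : y = w * w)]
    exact hy

end Cfsg.Agent.S3174
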