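import Cfsg.Statements.S3175
import Cfsg.Agent.H8.Ru2

set_option autoImplicit false
open Cfsg

namespace Cfsg.Agent.S3175

/-- Let G be a finite group whose Sylow 2-subgroup T has order at least 2^14 and whose upper central series has fourth term of order 16; let W be the centralizer in T of the third term, and suppose the Frattini subgroup of W has order at most 8 and lies in every subgroup of W of index at most 16. Then the normalizer of T in G has a normal 2-complement, and W is weakly closed in T with respect to G. -/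
theorem result {G : Type*} [Group G] [Finite G]
    (T : Sylow 2 G) (ha : 2 ^ 14 ≤ Nat.card ↥(T : Subgroup G))
    (hb : Nat.card ↥(Subgroup.upperCentralSeries ↥(T : Subgroup G) 4) = 16)
    (W : Subgroup ↥(T : Subgroup G))
    (hW : W = Subgroup.centralizer ((Subgroup.upperCentralSeries ↥(T : Subgroup G) 3 : Subgroup ↥(T : Subgroup G)) : Set ↥(T : Subgroup G)))
    (hc : Nat.card ↥(frattini ↥W) ≤ 8)
    (hd : ∀ U : Subgroup ↥W, U.index ≤ 16 → frattini ↥W ≤ U) :
    Cfsg.HasNormalPComplement 2 ↥(Subgroup.normalizer ((T : Subgroup G) : Set G)) ∧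
      Cfsg.IsWeaklyClosed (W.map (T : Subgroup G).subtype) (T : Subgroup G) := by
  haveI := Fact.mk Nat.prime_two
  have h := H8.Ru.hyp_of T.isPGroup' ha hb W hW hc hd
  refine ⟨?_, Subgroup.map_subtype_le _, fun g hg => ?_⟩
  · let P := T.subtype (Subgroup.le_normalizer (H := (T : Subgroup G)))
    haveI : (P : Subgroup ↥(Subgroup.normalizer ((T : Subgroup G) : Set G))).Normal :=
      Subgroup.normal_in_normalizer
    obtain ⟨K, hK⟩ := Subgroup.exists_left_complement'_of_coprime P.card_coprime_index
    refine ⟨P, K, ?_, hK⟩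
    have hodd : Odd (Nat.card K) := by
      rw [← hK.index_eq_card, ← Nat.not_even_iff_odd, even_iff_two_dvd]
      exact P.not_dvd_index
    rw [← Subgroup.normalizer_eq_top_iff, eq_top_iff, ← hK.sup_eq_top]
    refine sup_le Subgroup.le_normalizer (le_trans ?_ (Subgroup.centralizer_le_normalizer _))
    intro x hx k hk
    have e := h.aut_eq_one (α := (T : Subgroup G).normalizerMonoidHom k) hodd (by
      rw [← map_pow, show k ^ Nat.card K = 1 from
        congrArg Subtype.val (pow_card_eq_one' (x := (⟨k, hk⟩ : K))), map_one])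
    have e2 := congrArg (fun β : MulAut (T : Subgroup G) => (β ⟨x, hx⟩ : G)) e
    exact Subtype.ext (mul_inv_eq_iff_eq_mul.mp e2)
  · let f : W →* (T : Subgroup G) := ((MulAut.conj g).toMonoidHom.comp
      ((T : Subgroup G).subtype.comp W.subtype)).codRestrict _ fun w =>
        hg ⟨w, ⟨w, w.2, rfl⟩, rfl⟩
    have hf : Function.Injective f := fun x y e => Subtype.ext (Subtype.ext
      ((MulAut.conj g).injective (congrArg Subtype.val e)))
    conv_rhs => rw [← h.range_eq f hf]
    ext x
    constructor
    · rintro ⟨_, ⟨w, hw, rfl⟩, rfl⟩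
      exact ⟨f ⟨w, hw⟩, ⟨_, rfl⟩, rfl⟩
    · rintro ⟨_, ⟨w, rfl⟩, rfl⟩
      exact ⟨w, ⟨w, w.2, rfl⟩, rfl⟩

end Cfsg.Agent.S3175
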