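import Cfsg.Statements.S3179
import Cfsg.Agent.H8.SzCard
import Cfsg.Agent.H9.Tools6
import Cfsg.Agent.H9.SL2

set_option autoImplicit false
open Cfsg

namespace Cfsg.Agent.S3179

open Matrix Subgroup

theorem card_GL5 : Nat.card (GL (Fin 5) (ZMod 2)) = 1024 * 9765 := by
  rw [Matrix.card_GL_field, ZMod.card]; decide

theorem no_nine {ι : Type*} [Fintype ι] [DecidableEq ι] (hι : Fintype.card ι = 5)
    (g : GL ι (ZMod 2)) : orderOf g ≠ 9 := by
  intro h
  have h3 : g ^ 3 ≠ 1 := pow_ne_one_of_lt_orderOf (by norm_num) (by omega)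
  have h1 := H9.dvd_card_of_semiregular (α := ι → ZMod 2) (zpowers g) (fun v => g ^ 3 • v ≠ v)
    (fun w hw v hv e => hv (by
      obtain ⟨k, rfl⟩ := hw
      have : g ^ 3 * g ^ k = g ^ k * g ^ 3 := ((Commute.refl g).pow_left 3).zpow_right k
      simp only at e
      rw [← mul_smul, this, mul_smul] at e
      exact smul_left_cancel _ e))
    (fun v hv w hw e => by
      by_contra hne
      apply hv
      have h4 : orderOf w ∣ 9 := h ▸ orderOf_dvd_of_mem_zpowers hw
      obtain ⟨k, rfl⟩ := mem_powers_iff_mem_zpowers.mpr hw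
      simp only at e hne h4
      have h5 : ¬ 9 ∣ k := fun hk => hne (orderOf_dvd_iff_pow_eq_one.mp (h ▸ hk))
      have h6 : ∀ j : ℕ, (g ^ k) ^ j • v = v := fun j => MulAction.mem_stabilizer_iff.mp
        (pow_mem (MulAction.mem_stabilizer_iff.mpr e) j)
      obtain ⟨j, hj⟩ : ∃ j, (k * j) % 9 = 3 := by
        have : k % 9 = 1 ∨ k % 9 = 2 ∨ k % 9 = 3 ∨ k % 9 = 4 ∨ k % 9 = 5 ∨ k % 9 = 6 ∨ k % 9 = 7 ∨
          k % 9 = 8 := by omega
        rcases this with e | e | e | e | e | e | e | e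
        exacts [⟨3, by omega⟩, ⟨6, by omega⟩, ⟨1, by omega⟩, ⟨3, by omega⟩, ⟨6, by omega⟩,
          ⟨2, by omega⟩, ⟨3, by omega⟩, ⟨6, by omega⟩]
      have := h6 j
      rwa [← pow_mul, ← pow_mod_orderOf, h, hj] at this)
  rw [Nat.card_zpowers, h] at h1
  let W : AddSubgroup (ι → ZMod 2) :=
    { carrier := {v | g ^ 3 • v = v}
      zero_mem' := smul_zero _
      add_mem' := fun {a b} ha hb => by
        show g ^ 3 • (a + b) = a + b
        rw [smul_add, show g ^ 3 • a = a from ha, show g ^ 3 • b = b from hb]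
      neg_mem' := fun {a} ha => by
        show g ^ 3 • (-a) = -a
        rw [smul_neg, show g ^ 3 • a = a from ha] }
  have hV : Nat.card (ι → ZMod 2) = 32 := by simp [hι]
  have h2 : Nat.card W ∣ 32 := hV ▸ W.card_addSubgroup_dvd_card
  have h4 : Nat.card {v : ι → ZMod 2 // g ^ 3 • v ≠ v} = 32 - Nat.card W := by
    classical
    rw [← hV, Nat.card_eq_fintype_card, Nat.card_eq_fintype_card, Nat.card_eq_fintype_card]
    convert Fintype.card_subtype_compl (fun v : ι → ZMod 2 => v ∈ W) using 1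
    exact Fintype.card_congr (Equiv.refl _)
  have h5 : Nat.card W ≠ 32 := fun e => h3 (by
    have := (AddSubgroup.card_eq_iff_eq_top W).mp (e.trans hV.symm)
    apply Units.ext
    apply Matrix.toLin'.injective
    refine LinearMap.ext fun v => ?_
    have h6 : v ∈ W := this ▸ AddSubgroup.mem_top v
    have h7 : (g ^ 3).1 *ᵥ v = v := h6
    rw [toLin'_apply, h7]; simp)
  rw [h4] at h1
  have h6 := Nat.le_of_dvd (by norm_num) h2
  interval_cases Nat.card W <;> omega

theorem center_bot {F : Type*} [Field F] (h2 : (2 : F) = 0) :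
    center (Matrix.SpecialLinearGroup (Fin 2) F) = ⊥ := by
  rw [eq_bot_iff]
  intro A hA
  obtain ⟨r, h1, h3⟩ := Matrix.SpecialLinearGroup.mem_center_iff.mp hA
  have h4 : r = 1 := by
    have : (r - 1) ^ 2 = 0 := by
      rw [Fintype.card_fin] at h1
      linear_combination h1 - (r - 1) * h2
    exact sub_eq_zero.mp (pow_eq_zero_iff (by norm_num) |>.mp this)
  exact Subtype.ext (by rw [← h3, h4]; simp)

theorem exists_nine {F : Type*} [Field F] [Fintype F] (hF : Fintype.card F = 2 ^ 3) :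
    ∃ g : Matrix.SpecialLinearGroup (Fin 2) F, orderOf g = 9 := by
  have h2 := H2.two_eq_zero_of_card hF
  obtain ⟨t, ht⟩ : ∃ t : F, t ^ 3 + t + 1 = 0 := by
    obtain ⟨a, ha0, ha1⟩ : ∃ a : F, a ≠ 0 ∧ a ≠ 1 := by
      by_contra hc
      push Not at hc
      classical
      have := Finset.card_le_card (show (Finset.univ : Finset F) ⊆ {0, 1} from fun x _ => by
        by_cases h : x = 0 <;> simp [h, hc x])
      have h3 := Finset.card_le_two (a := (0 : F)) (b := 1)
      rw [Finset.card_univ, hF] at this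
      omega
    have h7 := FiniteField.pow_card_sub_one_eq_one a ha0
    rw [hF] at h7
    have : (a - 1) * ((a ^ 3 + a + 1) * (a ^ 3 + a ^ 2 + 1)) = 0 := by
      linear_combination h7 + (a ^ 4 - a ^ 3) * h2 * 1 + (a^4 * 0) * h2
    rcases mul_eq_zero.mp ((mul_eq_zero.mp this).resolve_left (sub_ne_zero.mpr ha1)) with h | h
    · exact ⟨a, h⟩
    · exact ⟨a + 1, by linear_combination h + (a ^ 2 + 2 * a + 1) * h2⟩
  let g : Matrix.SpecialLinearGroup (Fin 2) F := ⟨!![0, 1; 1, t], by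
    rw [det_fin_two_of]; linear_combination -h2⟩
  have h3 : (g ^ 3).1 = !![t, 1 + t ^ 2; 1 + t ^ 2, t + 1] := by
    show (!![0, 1; 1, t] : Matrix (Fin 2) (Fin 2) F) ^ 3 = _
    ext i j
    fin_cases i <;> fin_cases j <;> simp [pow_succ, mul_apply, Fin.sum_univ_two] <;> grind
  haveI : Fact (Nat.Prime 3) := ⟨by norm_num⟩
  refine ⟨g, orderOf_eq_prime_pow (p := 3) (n := 1) (fun h => ?_) ?_⟩
  · rw [pow_one] at h
    rw [h] at h3
    have e1 := congrFun (congrFun h3 0) 0
    have e2 := congrFun (congrFun h3 1) 1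
    simp at e1 e2
    rw [e2] at e1; simp at e1
  · rw [show 3 ^ (1 + 1) = 3 * 3 by norm_num, pow_mul]
    apply Subtype.ext
    show (g ^ 3).1 ^ 3 = 1
    rw [h3]
    ext i j
    fin_cases i <;> fin_cases j <;> simp [pow_succ, mul_apply, Fin.sum_univ_two] <;> grind

theorem two_pow_add_one {k : ℕ} (hk : 4 ≤ k) (h : 2 ^ k + 1 ∣ 1024 * 9765) : False := by
  have h1 : 2 ^ k + 1 ∣ 9765 := by
    refine Nat.Coprime.dvd_of_dvd_mul_left ?_ h
    rw [show 1024 = 2 ^ 10 by norm_num]
    apply Nat.Coprime.pow_right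
    rw [Nat.coprime_two_right]
    exact (Nat.even_pow.mpr ⟨by norm_num, by omega⟩).add_one
  have h2 := Nat.le_of_dvd (by norm_num) h1
  have h3 : k < 14 := by
    by_contra hc
    have := Nat.pow_le_pow_right (show 0 < 2 by norm_num) (show 14 ≤ k by omega)
    omega
  interval_cases k <;> omega


/-- Let X be a section of the general linear group GL(5, 2), that is, a quotient of a subgroup of it. If X is isomorphic to PSL(2, 2^n) for some n ≥ 2, to a Suzuki group over the field with 2^(2m+1) elements for some m ≥ 1, or to PSU(3, 2^n) for some n ≥ 2, then X is isomorphic to PSL(2, 4). -/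
theorem result {H : Subgroup (GL (Fin 5) (ZMod 2))}
    {K : Subgroup ↥H} [K.Normal]
    (hX : (∃ (n : ℕ) (F : Type) (_ : Field F) (_ : Fintype F), 2 ≤ n ∧ Fintype.card F = 2 ^ n ∧
        Nonempty (↥H ⧸ K ≃* Matrix.ProjectiveSpecialLinearGroup (Fin 2) F)) ∨
      (∃ (m : ℕ) (F : Type) (_ : Field F) (_ : Fintype F), 1 ≤ m ∧ Fintype.card F = 2 ^ (2 * m + 1) ∧
        Nonempty (↥H ⧸ K ≃* ↥(Cfsg.Lie.Sz F (2 ^ (m + 1))))) ∨
      (∃ (n : ℕ) (F : Type) (_ : Field F) (_ : Fintype F), 2 ≤ n ∧ Fintype.card F = 4 ^ n ∧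
        Nonempty (↥H ⧸ K ≃* Cfsg.PSU 3 F (2 ^ n)))) :
    ∃ (F : Type) (_ : Field F) (_ : Fintype F), Fintype.card F = 4 ∧
      Nonempty (↥H ⧸ K ≃* Matrix.ProjectiveSpecialLinearGroup (Fin 2) F) := by
  have hd : Nat.card (H ⧸ K) ∣ 1024 * 9765 := by
    rw [← card_GL5]
    exact (card_quotient_dvd_card K).trans (card_subgroup_dvd_card H)
  rcases hX with ⟨n, F, _, _, hn, hF, ⟨e⟩⟩ | ⟨m, F, _, _, hm, hF, ⟨e⟩⟩ | ⟨n, F, _, _, hn, hF, ⟨e⟩⟩
  · have hb := center_bot (H2.two_eq_zero_of_card hF)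
    let e2 : Matrix.ProjectiveSpecialLinearGroup (Fin 2) F ≃* Matrix.SpecialLinearGroup (Fin 2) F :=
      (QuotientGroup.quotientMulEquivOfEq hb).trans QuotientGroup.quotientBot
    by_cases h2 : n = 2
    · exact ⟨F, inferInstance, inferInstance, by rw [hF, h2]; norm_num, ⟨e⟩⟩
    exfalso
    by_cases h3 : n = 3
    · obtain ⟨g, hg⟩ := exists_nine (h3 ▸ hF)
      obtain ⟨x, hx⟩ := QuotientGroup.mk_surjective ((e.trans e2).symm g)
      have h4 : orderOf (QuotientGroup.mk' K x) = 9 := by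
        rw [← hg, ← (e.trans e2).symm.orderOf_eq g, ← hx]; rfl
      have h5 : 9 ∣ orderOf (x : GL (Fin 5) (ZMod 2)) := by
        rw [← h4, Subgroup.orderOf_coe]; exact orderOf_map_dvd _ x
      exact no_nine (by simp) _ (orderOf_pow_orderOf_div (orderOf_pos _).ne' h5)
    · rw [Nat.card_congr (e.trans e2).toEquiv, H9.card_SL2, hF] at hd
      have h4 : (2 ^ n) ^ 2 - 1 = (2 ^ n + 1) * (2 ^ n - 1) := by
        rw [← Nat.sq_sub_sq]
      rw [h4] at hd
      exact two_pow_add_one (show 4 ≤ n by omega)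
        (((dvd_mul_right _ _).mul_left _).trans hd)
  · exfalso
    have h1 := H8.dvd_card_Sz hF
    rw [← Nat.card_congr e.toEquiv, ← pow_mul] at h1
    exact two_pow_add_one (by omega) (h1.trans hd)
  · exfalso
    obtain ⟨k, hk, h1⟩ := H8.dvd_card_PSU3 (by omega) hF
    rw [← Nat.card_congr e.toEquiv] at h1
    exact two_pow_add_one (by omega) (h1.trans hd)

end Cfsg.Agent.S3179
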