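import Cfsg.Statements.S3180
import Cfsg.Agent.H5.InvSylow
import Cfsg.Agent.H4.Basic

set_option autoImplicit false
open Cfsg

namespace Cfsg.Agent.S3180

open Subgroup

/-- Let P be a Sylow p-subgroup of a finite group J and P₁ a subgroup of P that is weakly closed in P with respect to J. If J acts on a set and two points, each fixed by every element of P₁, lie in one J-orbit, then they lie in one orbit of the normalizer of P₁ in J. -/
theorem result {J : Type*} [Group J] [Finite J]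
    {p : ℕ} [Fact p.Prime] (P : Sylow p J) (P₁ : Subgroup J) (hW : Cfsg.IsWeaklyClosed P₁ (P : Subgroup J))
    {Ω : Type*} [MulAction J Ω] (x y : Ω) (hx : ∀ g ∈ P₁, g • x = x) (hy : ∀ g ∈ P₁, g • y = y)
    (hc : ∃ g : J, g • x = y) :
    ∃ g ∈ Subgroup.normalizer (P₁ : Set J), g • x = y := by
  obtain ⟨g, rfl⟩ := hc
  have hP1 : IsPGroup p P₁ := P.isPGroup'.to_le hW.1
  obtain ⟨Q, hQ, hPQ⟩ := H5.exists_isSylowOf_ge (K := MulAction.stabilizer J (g • x)) hP1 hy
  obtain ⟨h, hh, hhQ⟩ := hQ.exists_conj_le (Q := H4.conjS g P₁) (hP1.map _) (by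
    intro a ha
    rw [H4.mem_conjS] at ha
    have := hx _ ha
    rw [mul_smul, mul_smul, inv_smul_eq_iff] at this
    exact this)
  obtain ⟨k, -, hk⟩ := (H5.isSylowOf_top P).exists_conj_le hQ.isPGroup le_top
  have e1 : H4.conjS k P₁ = P₁ := hW.2 k ((H4.conjS_mono k hPQ).trans hk)
  have e2 : H4.conjS (k * (h * g)) P₁ = P₁ := hW.2 _ (by
    change H4.conjS _ _ ≤ _
    rw [← H4.conjS_conjS, ← H4.conjS_conjS]
    exact (H4.conjS_mono k hhQ).trans hk)
  refine ⟨h * g, ?_, by rw [mul_smul]; exact hh⟩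
  have := mul_mem (inv_mem (H4.mem_normalizer_iff_conjS.2 e1)) (H4.mem_normalizer_iff_conjS.2 e2)
  rwa [inv_mul_cancel_left] at this

end Cfsg.Agent.S3180
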