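import Cfsg.Statements.S3184
import Cfsg.Agent.H3.ZCor
import Cfsg.Agent.H7.CyclicOdd
import Cfsg.Agent.H9.Tools5

set_option autoImplicit false
open Cfsg

namespace Cfsg.Agent.S3184

/-- Let G be a finite group in which the intersection of any two distinct Sylow 2-subgroups is contained in the centre of some Sylow 2-subgroup, and let S be a Sylow 2-subgroup. If C is a nontrivial cyclic characteristic subgroup of S, then the involution of C is central modulo the largest normal subgroup of odd order of G: each of its conjugates has the same image in G/O(G). -/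
theorem result {G : Type*} [Group G] [Finite G]
    (hCI : ∀ S T : Sylow 2 G, S ≠ T → ∃ U : Sylow 2 G,
      (S : Subgroup G) ⊓ (T : Subgroup G) ≤ (Subgroup.center ↥(U : Subgroup G)).map (U : Subgroup G).subtype)
    (S : Sylow 2 G) (C : Subgroup ↥(S : Subgroup G)) (hC : C ≠ ⊥) (hCc : IsCyclic ↥C) (hCh : C.Characteristic)
    (c : ↥(S : Subgroup G)) (hc : c ∈ C) (hc2 : orderOf c = 2) :
    ∀ g : G, (QuotientGroup.mk (s := Cfsg.oddCore G) (g * (c : G) * g⁻¹)) =
      QuotientGroup.mk (s := Cfsg.oddCore G) (c : G) := by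
  classical
  have hfix : ∀ φ : ↥(S : Subgroup G) ≃* ↥(S : Subgroup G), φ c = c := by
    intro φ
    have h1 : φ c ∈ C := by
      have := (Subgroup.characteristic_iff_map_eq.mp hCh) φ
      rw [← this]
      exact Subgroup.mem_map_of_mem _ hc
    have h2 : orderOf (φ c) = 2 := by rw [MulEquiv.orderOf_eq, hc2]
    have h3 := H7.mem_zpowers_of_isCyclic (p := 2) hc (by rintro rfl; simp at hc2)
      (orderOf_dvd_iff_pow_eq_one.mp hc2.dvd) h1 (orderOf_dvd_iff_pow_eq_one.mp h2.dvd)
    refine ((H9.mem_zpowers_two hc2).1 h3).resolve_left fun h => ?_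
    rw [h] at h2
    simp at h2
  have hN : ∀ n ∈ Subgroup.normalizer (S : Set G), n * (c : G) * n⁻¹ = c := fun n hn =>
    congrArg Subtype.val (hfix ((S : Subgroup G).normalizerMonoidHom ⟨n, hn⟩))
  have hcS : (c : G) ∈ Subgroup.centralizer (S : Set G) := fun s hs => by
    have := hN s (Subgroup.le_normalizer hs)
    rwa [mul_inv_eq_iff_eq_mul] at this
  have hc2' : orderOf (c : G) = 2 := (Subgroup.orderOf_coe c).trans hc2
  have hp : L.PElt 2 (c : G) := L.PElt_of_mem S.isPGroup' c.2
  have hi : IsIsolated (c : G) := by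
    refine H3.isolated_of_normalizer S hp hcS (fun g hg => ?_) hN
    set x := g * (c : G) * g⁻¹ with hx
    have hT : x ∈ Subgroup.centralizer ((g • S : Sylow 2 G) : Set G) := by
      intro s hs
      obtain ⟨s', hs', rfl⟩ := (Subgroup.mem_smul_pointwise_iff_exists _ _ _).mp hs
      exact ((show Commute s' (c : G) from hcS s' hs').conj g).eq
    obtain ⟨R, hR, hDR⟩ := H5.exists_isSylowOf_ge (q := 2)
      (Q := (S : Subgroup G) ⊓ Subgroup.centralizer {x}) S.isPGroup'.to_inf_left inf_le_right
    have hR' : H5.IsSylowOf 2 R ⊤ := (H5.isSylowOf_top (g • S)).of_card_le hR.isPGroup le_top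
      (hR.card_le (g • S).isPGroup' (H3.isSylowOf_centralizer _ hT).le)
    obtain ⟨R, rfl⟩ := hR'.exists_sylow_top
    by_cases hRS : S = R
    · subst hRS
      exact fun s hs => Subgroup.mem_centralizer_singleton_iff.mp (hR.le hs)
    obtain ⟨U, hU⟩ := hCI S R hRS
    have h1 : (Subgroup.center ↥(S : Subgroup G)).map (S : Subgroup G).subtype ≤
        (S : Subgroup G) ⊓ Subgroup.centralizer {x} := by
      rintro _ ⟨s, hs, rfl⟩
      exact ⟨s.2, Subgroup.mem_centralizer_singleton_iff.mpr
        (congrArg Subtype.val (Subgroup.mem_center_iff.mp hs ⟨x, hg⟩)).symm⟩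
    have h2 := (le_inf inf_le_left hDR).trans hU
    have h3 := Subgroup.eq_of_le_of_card_ge (h1.trans h2) (by
      rw [Subgroup.card_subtype, Subgroup.card_subtype]
      exact (Nat.card_congr (Subgroup.centerCongr (S.equiv U)).toEquiv).ge)
    obtain ⟨s, hs, e⟩ := h3.ge (h2 ⟨hg, Subgroup.mem_centralizer_singleton_iff.mpr rfl⟩)
    intro y hy
    rw [← e]
    exact congrArg Subtype.val (Subgroup.mem_center_iff.mp hs ⟨y, hy⟩)
  intro g
  have := L.zstar' hc2' hi g
  rw [eq_comm, QuotientGroup.eq]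
  have h4 := (inferInstance : (pPrimeCore 2 G).Normal).conj_mem _ this (c : G)⁻¹
  rwa [show (c : G)⁻¹ * (g * c * g⁻¹ * (c : G)⁻¹) * (c : G)⁻¹⁻¹ = (c : G)⁻¹ * (g * c * g⁻¹) by group]
    at h4

end Cfsg.Agent.S3184
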