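import Cfsg.Statements.S3190
import Cfsg.Agent.H5.Gen
import Cfsg.Agent.H7.PBasic
import Cfsg.Agent.H4.Basic

set_option autoImplicit false
open Cfsg

namespace Cfsg.Agent.S3190

open Subgroup

/-- Let p be an odd prime and, inside a finite group, let P be a p-subgroup normalized by a Klein four-group T. Let R be a subgroup of P, normal in P and normalized by T, such that P is the product of R with the centralizer of T in P. If T centralizes the centre of P, then T centralizes the centre of R. -/
theorem result {X : Type*} [Group X] [Finite X]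
    {p : ℕ} (hp : p.Prime) (hodd : Odd p) (P T R : Subgroup X) (hP : IsPGroup p ↥P) (hT : IsKleinFour ↥T)
    (hTP : T ≤ Subgroup.normalizer (P : Set X)) (hRP : R ≤ P) (hRn : (R.subgroupOf P).Normal)
    (hTR : T ≤ Subgroup.normalizer (R : Set X)) (hfac : R ⊔ (P ⊓ Subgroup.centralizer (T : Set X)) = P)
    (hZ : T ≤ Subgroup.centralizer (((Subgroup.center ↥P).map P.subtype : Subgroup X) : Set X)) :
    T ≤ Subgroup.centralizer (((Subgroup.center ↥R).map R.subtype : Subgroup X) : Set X) := by
  have : Fact p.Prime := ⟨hp⟩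
  rw [H4.map_center_subtype] at hZ ⊢
  set Z := R ⊓ centralizer (R : Set X) with hZdef
  have hPR : P ≤ normalizer (R : Set X) := (normal_subgroupOf_iff_le_normalizer hRP).1 hRn
  have hTZ : T ≤ normalizer (Z : Set X) :=
    H4.le_normalizer_inf hTR (H4.le_normalizer_centralizer hTR)
  have hPZ : P ≤ normalizer (Z : Set X) :=
    H4.le_normalizer_inf hPR (H4.le_normalizer_centralizer hPR)
  have hZp : IsPGroup p Z := hP.to_le (inf_le_left.trans hRP)
  have hc : (Nat.card T).Coprime (Nat.card Z) := by
    rw [hT.card_four]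
    refine (H5.coprime_card_of_isPGroup hZp ?_).symm
    intro h
    have := (Nat.prime_dvd_prime_iff_eq hp Nat.prime_two).1
      (hp.dvd_of_dvd_pow (n := 2) h)
    subst this
    exact absurd hodd (by decide)
  have hcomm : IsMulCommutative Z := H5.isMulCommutative_of_forall fun a ha b hb =>
    (mem_centralizer_iff.1 hb.2 a ha.1)
  have h0 := H5.commutator_inf_centralizer_eq_bot hcomm hTZ hc
  have hWZ : ⁅Z, T⁆ ≤ Z := H5.commutator_le_left_of_le_normalizer hTZ
  have hPW : P ≤ normalizer ((⁅Z, T⁆ : Subgroup X) : Set X) := by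
    rw [← hfac]
    apply sup_le
    · apply H4.le_normalizer_of_le_centralizer
      exact (le_centralizer_iff.1 inf_le_right).trans (H4.centralizer_anti hWZ)
    · exact H4.le_normalizer_commutator (inf_le_left.trans hPZ)
        (inf_le_right.trans (centralizer_le_normalizer _))
  rw [← commutator_eq_bot_iff_le_centralizer, commutator_comm]
  by_contra hne
  obtain ⟨z, hz, hz1, -, hzc⟩ := H7.exists_fixed_order_p (hZp.to_le hWZ) hP hPW hne
  apply hz1
  rw [← mem_bot, ← h0]
  refine ⟨hz, le_centralizer_iff.1 hZ ⟨hRP (hWZ hz).1, ?_⟩⟩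
  exact mem_centralizer_iff.2 fun g hg => hzc g (mem_sup_right hg)

end Cfsg.Agent.S3190
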