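import Cfsg.Statements.S3195
import Cfsg.Agent.H9.Loc1

set_option autoImplicit false
open Cfsg

namespace Cfsg.Agent.S3195

open Subgroup

/-- Let A be a Klein four-subgroup of a finite group G. If every G-conjugate of every involution of A commutes with some involution of A (its centralizer meets A nontrivially), then A meets the largest normal 2-subgroup O₂(G) nontrivially. -/
theorem result {G : Type*} [Group G] [Finite G]
    (A : Subgroup G) (hA : IsKleinFour ↥A)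
    (h : ∀ a ∈ A, a ≠ 1 → ∀ g : G, A ⊓ Subgroup.centralizer ({g * a * g⁻¹} : Set G) ≠ ⊥) :
    A ⊓ Cfsg.pCore 2 G ≠ ⊥ := by
  intro h0
  have hA' := H9.isKleinFour_iff.1 hA
  have hsq : ∀ a ∈ A, a * a = 1 := fun a ha => by rw [← sq]; exact hA'.2 a ha
  have hc := H9.comm_of_sq_eq_one hA'.2
  have k0 : ∀ a ∈ A, a ≠ 1 → ∀ u y : G, Odd (orderOf u) → a * u * a⁻¹ = u⁻¹ → y ∈ zpowers u →
      ∀ g : G, ∃ b ∈ A, b ≠ 1 ∧ (g * b * g⁻¹) * (y * a) = (y * a) * (g * b * g⁻¹) := by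
    intro a ha ha1 u y ou hu hy g
    obtain ⟨w, -, hw⟩ := H9.exists_conj_eq_mul ou hu hy
    obtain ⟨b, hb, hb1⟩ := (bot_or_exists_ne_one _).resolve_left (h a ha ha1 (g⁻¹ * w))
    refine ⟨b, hb.1, hb1, ?_⟩
    have := H9.mem_Cen.1 hb.2
    rw [← hw]
    calc g * b * g⁻¹ * (w * a * w⁻¹) = g * (b * (g⁻¹ * w * a * (g⁻¹ * w)⁻¹)) * g⁻¹ := by group
      _ = w * a * w⁻¹ * (g * b * g⁻¹) := by rw [← this]; group
  have odd1 : ∀ u : G, Odd (orderOf u) → u = u⁻¹ → u = 1 := fun u ou e =>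
    H4.eq_one_of_pow_pow_of_coprime (p := 2) (k := 1)
      (by rw [pow_one, sq, mul_eq_one_iff_eq_inv]; exact e) ou.coprime_two_right
  have k1 : ∀ a ∈ A, a ≠ 1 → ∃ u : G, Odd (orderOf u) ∧ u ≠ 1 ∧ a * u * a⁻¹ = u⁻¹ ∧
      ∃ b ∈ A, b ≠ 1 ∧ b ≠ a ∧ b * u = u * b := by
    intro a ha ha1
    obtain ⟨u, pu, ou, hu⟩ := H9.exists_inverted_of_not_mem_pCore (hsq a ha) (fun hm => ha1 (by
      rw [← mem_bot, ← h0]; exact ⟨ha, hm⟩))
    have u1 : u ≠ 1 := H9.ne_one_of_orderOf rfl pu.one_lt.ne'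
    obtain ⟨b, hb, hb1, e⟩ := k0 a ha ha1 u u ou hu (mem_zpowers u) 1
    simp only [one_mul, inv_one, mul_one] at e
    have e2 : b * u = u * b := by
      rw [mul_assoc, hc a ha b hb, ← mul_assoc, ← mul_assoc] at e
      exact mul_right_cancel e
    refine ⟨u, ou, u1, hu, b, hb, hb1, ?_, e2⟩
    rintro rfl
    rw [e2, mul_inv_cancel_right] at hu
    exact u1 (odd1 u ou hu)
  -- main configuration
  have main : ∀ a ∈ A, ∀ b ∈ A, a ≠ 1 → b ≠ 1 → a ≠ b → ∀ u v : G, Odd (orderOf u) → u ≠ 1 →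
      Odd (orderOf v) → v ≠ 1 → a * u * a⁻¹ = u⁻¹ → b * u = u * b → b * v * b⁻¹ = v⁻¹ →
      a * v = v * a → False := by
    intro a ha b hb ha1 hb1 hab u v ou u1 ov v1 hau hbu hbv hav
    have hcu : (a * b) * u * (a * b)⁻¹ = u⁻¹ := by
      rw [← hau, mul_assoc a b, hbu]; group
    have hcv : (a * b) * v * (a * b)⁻¹ = v⁻¹ := by
      rw [hc a ha b hb, ← hbv, mul_assoc b a, hav]; group
    have hc1 : a * b ≠ 1 := fun e => hab (mul_left_cancel (e.trans (hsq a ha).symm)).symm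
    have hcA := mul_mem ha hb
    have hcc := hsq _ hcA
    have k2 : ∀ y ∈ zpowers u, y ≠ 1 → y * v⁻¹ * y = v := by
      intro y hy y1
      have oy : Odd (orderOf y) := ou.of_dvd_nat (orderOf_dvd_of_mem_zpowers hy)
      have hcy := H9.conj_inv_of_mem_zpowers hcu hy
      obtain ⟨w, hw, hw1⟩ := H9.exists_conj_eq_mul ou hau hy
      have hw3 : w * b * w⁻¹ = b :=
        H9.mem_Cen'.1 ((zpowers_le.2 (H9.mem_Cen.2 hbu) : _ ≤ H9.Cen b) hw)
      have hw2 : w * (a * b) * w⁻¹ = y * (a * b) := by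
        rw [← conj_mul, hw1, hw3, mul_assoc]
      obtain ⟨d, hd, hd1, e⟩ := k0 _ hcA hc1 v v ov hcv (mem_zpowers v) w
      have hac := hc a ha _ hcA
      have hbc := hc b hb _ hcA
      have hd3 := H9.klein_eq_mul hA ha hb hd ha1 hb1 hab hd1
      generalize a * b = c at *
      rw [mul_inv_eq_iff_eq_mul] at hcy hcv
      by_cases hda : d = a
      · exfalso
        rw [hda, hw1] at e
        have e1 : y * v = v * y⁻¹ := by
          apply mul_right_cancel (b := c * a)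
          calc y * v * (c * a) = y * a * (v * c) := by
                rw [← hac, mul_assoc y v, ← mul_assoc v, ← hav]; group
            _ = v * (c * y) * a := by rw [e]; group
            _ = _ := by rw [hcy]; group
        have e2 : v⁻¹ * y * v = y⁻¹ := by rw [mul_assoc, e1]; group
        have e3 : v ∈ H9.Cen y := by
          apply H4.mem_of_pow_mem_of_coprime (m := 2) _ ov.coprime_two_right
          rw [H9.mem_Cen, sq]
          calc y * (v * v) = v * (v⁻¹ * y * v)⁻¹⁻¹ * v := by group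
            _ = v * v * (v⁻¹ * y * v)⁻¹ := by nth_rewrite 1 [e2]; group
            _ = _ := by rw [e2]; group
        rw [mul_assoc, H9.mem_Cen.1 e3, inv_mul_cancel_left] at e2
        exact y1 (odd1 y oy e2)
      by_cases hdb : d = b
      · exfalso
        rw [hdb, hw3, ← mul_assoc, mul_inv_eq_iff_eq_mul.1 hbv, mul_assoc, mul_assoc v, hbc,
          mul_left_inj] at e
        exact v1 (odd1 v ov e.symm)
      · rw [hd3 hda hdb, hw2, mul_assoc y, mul_assoc v, ← mul_assoc c v, ← mul_assoc c y, hcy,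
          hcv, mul_assoc, mul_assoc, hcc, mul_one, mul_one] at e
        rw [e, inv_mul_cancel_right]
    have u2 : u * u ≠ 1 := fun e => u1 (odd1 u ou (mul_eq_one_iff_eq_inv.1 e))
    have a1 := k2 u (mem_zpowers u) u1
    have a2 := k2 u⁻¹ (inv_mem (mem_zpowers u)) (inv_ne_one.2 u1)
    have a3 := k2 (u * u) (mul_mem (mem_zpowers u) (mem_zpowers u)) u2
    apply v1 (odd1 v ov _)
    calc v = u * (u * v⁻¹ * u) * u := by nth_rewrite 1 [← a3]; group
      _ = u * (u⁻¹ * v⁻¹ * u⁻¹) * u := by rw [a1, a2]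
      _ = v⁻¹ := by group
  obtain ⟨a, ha, ha1⟩ := (bot_or_exists_ne_one A).resolve_left (fun e => by
    have := hA'.1
    rw [e, card_bot] at this
    exact absurd this (by norm_num))
  obtain ⟨u, ou, u1, hau, b, hb, hb1, hba, hbu⟩ := k1 a ha ha1
  obtain ⟨v, ov, v1, hbv, d, hd, hd1, hdb, hdv⟩ := k1 b hb hb1
  refine main d hd b hb hd1 hb1 hdb u v ou u1 ov v1 ?_ hbu hbv hdv
  by_cases hda : d = a
  · rw [hda, hau]
  · rw [H9.klein_eq_mul hA ha hb hd ha1 hb1 hba.symm hd1 hda hdb, ← hau, mul_assoc a b, hbu]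
    group

end Cfsg.Agent.S3195
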