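import Cfsg.Statements.S3196
import Cfsg.Agent.H9.Loc2
import Cfsg.Agent.H8.PrimeSylow

set_option autoImplicit false
open Cfsg

namespace Cfsg.Agent.S3196

open Subgroup
open scoped commutatorElement

/-- Let p be a prime and K a set of subgroups of order p of a finite group G, closed under conjugation, such that at least two distinct members of K commute elementwise, and whenever two distinct members X, Y of K commute: every subgroup of order p of the group XY they generate belongs to K, and every member W of K has centralizer meeting XY nontrivially. Then some member V of K commutes elementwise with every member of K and lies in O_p(G); in particular G is not simple. -/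
theorem result {G : Type*} [Group G] [Finite G]
    {p : ℕ} (hp : p.Prime) (K : Set (Subgroup G)) (hK : ∀ X ∈ K, Nat.card ↥X = p)
    (hKc : ∀ X ∈ K, ∀ g : G, X.map (MulAut.conj g).toMonoidHom ∈ K)
    (hex : ∃ X ∈ K, ∃ Y ∈ K, X ≠ Y ∧ ∀ x ∈ X, ∀ y ∈ Y, x * y = y * x)
    (ha : ∀ X ∈ K, ∀ Y ∈ K, X ≠ Y → (∀ x ∈ X, ∀ y ∈ Y, x * y = y * x) →
      ∀ Z : Subgroup G, Z ≤ X ⊔ Y → Nat.card ↥Z = p → Z ∈ K)
    (hb : ∀ X ∈ K, ∀ Y ∈ K, X ≠ Y → (∀ x ∈ X, ∀ y ∈ Y, x * y = y * x) →
      ∀ W ∈ K, (X ⊔ Y) ⊓ Subgroup.centralizer (W : Set G) ≠ ⊥) :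
    (∃ V ∈ K, (∀ W ∈ K, ∀ v ∈ V, ∀ w ∈ W, v * w = w * v) ∧ V ≤ Cfsg.pCore p G) ∧ ¬ IsSimpleGroup G := by
  have : Fact p.Prime := ⟨hp⟩
  have hcyc : ∀ X ∈ K, ∀ x ∈ X, x ≠ 1 → orderOf x = p ∧ zpowers x = X := fun X hX x hx h1 =>
    ⟨H8.orderOf_eq_of_mem_of_card_prime (hK X hX) hx h1,
      H8.zpowers_eq_of_mem_of_card_prime (hK X hX) hx h1⟩
  have hex1 : ∀ X ∈ K, ∃ x, orderOf x = p ∧ zpowers x = X := fun X hX => by
    obtain ⟨x, hx, h1⟩ := (bot_or_exists_ne_one X).resolve_left fun e => by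
      have := hK X hX
      rw [e, card_bot] at this
      exact hp.one_lt.ne this
    exact ⟨x, hcyc X hX x hx h1⟩
  have hcomm : ∀ x y : G, x * y = y * x → ∀ a ∈ zpowers x, ∀ b ∈ zpowers y, a * b = b * a := by
    rintro x y h _ ⟨i, rfl⟩ _ ⟨j, rfl⟩
    exact (Commute.zpow_zpow h i j).eq
  let D : G → Prop := fun x => zpowers x ∈ K
  have oD : ∀ x, D x → orderOf x = p := fun x hx => by rw [← Nat.card_zpowers]; exact hK _ hx
  have D1 : ∀ x, D x → x ≠ 1 := fun x hx => H9.ne_one_of_orderOf (oD x hx) hp.one_lt.ne'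
  have Dc : ∀ x g, D x → D (g * x * g⁻¹) := fun x g hx => by
    have := hKc _ hx g
    rwa [H9.zpowers_map_conj] at this
  have neD : ∀ x y : G, y ∉ zpowers x → zpowers x ≠ zpowers y := fun x y h e => h (e ▸ mem_zpowers y)
  have Da : ∀ x y, D x → D y → y ∉ zpowers x → x * y = y * x → ∀ z ∈ zpowers x ⊔ zpowers y,
      z ≠ 1 → D z := by
    intro x y hx hy hxy hc z hz hz1
    refine ha _ hx _ hy (neD x y hxy) (hcomm x y hc) _ (zpowers_le.2 hz) ?_
    exact H7.card_zpowers_of_pow_eq_one hz1 ((H7.ea_zpowers_sup (D1 x hx)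
      (H9.pow_eq_one_of_orderOf (oD x hx)) hc (H9.pow_eq_one_of_orderOf (oD y hy)) hxy).1.2 z hz)
  have Db : ∀ x y, D x → D y → y ∉ zpowers x → x * y = y * x → ∀ w, D w →
      ∃ z ∈ zpowers x ⊔ zpowers y, z ≠ 1 ∧ w * z = z * w := by
    intro x y hx hy hxy hc w hw
    obtain ⟨z, hz, hz1⟩ := (bot_or_exists_ne_one _).resolve_left
      (hb _ hx _ hy (neD x y hxy) (hcomm x y hc) _ hw)
    exact ⟨z, hz.1, hz1, mem_centralizer_iff.1 hz.2 w (mem_zpowers w)⟩
  obtain ⟨X₀, hX₀, Y₀, hY₀, hne₀, hc₀⟩ := hex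
  obtain ⟨x₀, -, rfl⟩ := hex1 X₀ hX₀
  obtain ⟨y₀, -, rfl⟩ := hex1 Y₀ hY₀
  have hxy₀ : y₀ ∉ zpowers x₀ := fun h => hne₀ (hcyc _ hX₀ _ h (D1 _ hY₀)).2.symm
  have hc₁ := hc₀ _ (mem_zpowers x₀) _ (mem_zpowers y₀)
  have msup : ∀ x y : G, x * y = y * x → ∀ z ∈ zpowers x ⊔ zpowers y,
      ∃ a ∈ zpowers x, ∃ b ∈ zpowers y, a * b = z := fun x y h z hz =>
    (H4.mem_sup_of_le_normalizer_right (zpowers_le.2 (H9.Cen_le_Nor y (H9.mem_Cen.2 h.symm)))).1 hz
  have cenD : ∀ x, D x → ∀ a ∈ zpowers x, a ≠ 1 → ∀ w, w * a = a * w → w * x = x * w := by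
    intro x hx a ha a1 w h
    have := H9.Cen_eq_of_zpowers_eq (hcyc _ hx a ha a1).2
    exact (H9.mem_Cen.1 (this ▸ H9.mem_Cen.2 h.symm)).symm
  -- every point is on a line
  have line : ∀ x, D x → ∃ y, D y ∧ y ∉ zpowers x ∧ x * y = y * x := by
    intro x hx
    obtain ⟨z, hz, hz1, hzc⟩ := Db x₀ y₀ hX₀ hY₀ hxy₀ hc₁ x hx
    by_cases h : z ∈ zpowers x
    · have hxm : x ∈ zpowers x₀ ⊔ zpowers y₀ :=
        zpowers_le.2 hz ((hcyc _ hx z h hz1).2.symm ▸ mem_zpowers x)
      have hcm := (H7.ea_zpowers_sup (D1 _ hX₀) (H9.pow_eq_one_of_orderOf (oD _ hX₀)) hc₁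
        (H9.pow_eq_one_of_orderOf (oD _ hY₀)) hxy₀).1.1
      by_cases h2 : x₀ ∈ zpowers x
      · exact ⟨y₀, hY₀, fun h3 => hxy₀ ((hcyc _ hx _ h2 (D1 _ hX₀)).2.symm ▸ h3),
          H5.comm_of_isMulCommutative hcm hxm (mem_sup_right (mem_zpowers _))⟩
      · exact ⟨x₀, hX₀, h2, H5.comm_of_isMulCommutative hcm hxm (mem_sup_left (mem_zpowers _))⟩
    · exact ⟨z, Da x₀ y₀ hX₀ hY₀ hxy₀ hc₁ z hz hz1, h, hzc⟩
  have rad : ∃ v, D v ∧ ∀ w, D w → v * w = w * v := by
    by_contra hcon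
    push Not at hcon
    have gen : ∀ x, D x → ∀ a ∈ zpowers x, a ≠ 1 → ∃ m : ℕ, x = a ^ m := fun x hx a ha a1 => by
      obtain ⟨m, hm⟩ := (mem_powers_iff_mem_zpowers (x := a) (y := x)).2
        ((hcyc _ hx a ha a1).2.symm ▸ mem_zpowers x)
      exact ⟨m, hm.symm⟩
    have key0 : ∀ x w z v, D x → D w → D z → D v → x * z = z * x → w * z = z * w →
        v * x = x * v → v * w = w * v → z * v ≠ v * z →
        Commute x ⁅x, w⁆ ∧ Commute w ⁅x, w⁆ := by
      intro x w z v hx hw hz hv hxz hwz hvx hvw hzv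
      have h1 : v ∉ zpowers w := fun h => hzv (hcomm z w hwz.symm z (mem_zpowers z) v h)
      have h2 : z ∉ zpowers x := fun h => hzv (hcomm x v hvx.symm z h v (mem_zpowers v))
      have h3 : D (w * v) := Da w v hw hv h1 hvw.symm _
        (mul_mem (mem_sup_left (mem_zpowers w)) (mem_sup_right (mem_zpowers v)))
        (fun e => h1 (by rw [eq_inv_of_mul_eq_one_right e]; exact inv_mem (mem_zpowers w)))
      obtain ⟨y, hy, hy1, hc⟩ := Db x z hx hz h2 hxz _ h3
      obtain ⟨a, ha, z', hz', rfl⟩ := msup x z hxz y hy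
      have c1 : Commute w z' := hcomm w z hwz w (mem_zpowers w) z' hz'
      have c2 : Commute x z' := hcomm x z hxz x (mem_zpowers x) z' hz'
      have c3 : Commute a z' := hcomm x z hxz a ha z' hz'
      have c4 : Commute a v := hcomm x v hvx.symm a ha v (mem_zpowers v)
      have a1 : a ≠ 1 := by
        rintro rfl
        rw [one_mul] at hy1 hc
        rw [← mul_assoc, ← c1.eq, mul_assoc, mul_assoc, mul_right_inj] at hc
        exact hzv (cenD z hz z' hz' hy1 v hc).symm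
      have cw : Commute w (v * z' * v⁻¹ * z'⁻¹) :=
        (((show Commute w v from hvw.symm).mul_right c1).mul_right
          (show Commute w v from hvw.symm).inv_right).mul_right c1.inv_right
      have cx : Commute x (v * z' * v⁻¹ * z'⁻¹) :=
        (((show Commute x v from hvx.symm).mul_right c2).mul_right
          (show Commute x v from hvx.symm).inv_right).mul_right c2.inv_right
      have ca : Commute a (v * z' * v⁻¹ * z'⁻¹) :=
        ((c4.mul_right c3).mul_right c4.inv_right).mul_right c3.inv_right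
      have e : ⁅a, w⁆ = v * z' * v⁻¹ * z'⁻¹ := by
        rw [commutatorElement_def, mul_inv_eq_iff_eq_mul, mul_inv_eq_iff_eq_mul, ← cw.eq,
          mul_assoc w, ← ca.eq]
        apply mul_right_cancel (b := z' * v)
        calc a * w * (z' * v) = a * z' * (w * v) := by
              rw [mul_assoc, mul_assoc, ← mul_assoc w, c1.eq, mul_assoc]
          _ = w * (v * a) * z' := by rw [← hc]; group
          _ = _ := by rw [← c4.eq]; group
      obtain ⟨m, hm⟩ := gen x hx a ha a1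
      have e2 : ⁅x, w⁆ = ⁅a, w⁆ ^ m := by rw [← H7.commutator_pow_left (e ▸ ca), ← hm]
      rw [e2, e]
      exact ⟨cx.pow_right m, cw.pow_right m⟩
    have key : ∀ x w, D x → D w → x * w ≠ w * x →
        D ⁅x, w⁆ ∧ Commute x ⁅x, w⁆ ∧ Commute w ⁅x, w⁆ := by
      intro x w hx hw hxw
      obtain ⟨y, hy, hyx, hcy⟩ := line x hx
      obtain ⟨z, hz, hz1, hwz⟩ := Db x y hx hy hyx hcy w hw
      have Dz := Da x y hx hy hyx hcy z hz hz1
      have hxz : x * z = z * x := by
        obtain ⟨a, ha, b, hb, rfl⟩ := msup x y hcy z hz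
        rw [← mul_assoc, H9.comm_of_mem_zpowers (mem_zpowers x) ha, mul_assoc, mul_assoc,
          hcomm x y hcy x (mem_zpowers x) b hb]
      have hzx : z ∉ zpowers x := fun h => hxw (cenD x hx z h hz1 w hwz).symm
      have hzw : z ∉ zpowers w := fun h => hxw (cenD w hw z h hz1 x hxz)
      obtain ⟨v, hv, hzv⟩ := hcon z Dz
      obtain ⟨x', hx', hx1, hvx⟩ := Db x z hx Dz hzx hxz v hv
      obtain ⟨w', hw', hw1, hvw⟩ := Db w z hw Dz hzw hwz v hv
      obtain ⟨a, ha, z₁, hz₁, rfl⟩ := msup x z hxz x' hx'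
      obtain ⟨b, hb, z₂, hz₂, rfl⟩ := msup w z hwz w' hw'
      have a1 : a ≠ 1 := by
        rintro rfl
        rw [one_mul] at hx1 hvx
        exact hzv (cenD z Dz z₁ hz₁ hx1 v hvx).symm
      have b1 : b ≠ 1 := by
        rintro rfl
        rw [one_mul] at hw1 hvw
        exact hzv (cenD z Dz z₂ hz₂ hw1 v hvw).symm
      have az := fun u hu => (show Commute a u from hcomm x z hxz a ha u hu)
      have bz := fun u hu => (show Commute b u from hcomm w z hwz b hb u hu)
      have zz := fun u u' hu hu' => (show Commute u u' from H9.comm_of_mem_zpowers (x := z) hu hu')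
      have hz0 := mem_zpowers z
      obtain ⟨k1, k2⟩ := key0 _ _ z v (Da x z hx Dz hzx hxz _ hx' hx1)
        (Da w z hw Dz hzw hwz _ hw' hw1) Dz hv ((az z hz0).mul_left (zz _ _ hz₁ hz0))
        ((bz z hz0).mul_left (zz _ _ hz₂ hz0)) hvx hvw hzv
      have e : ⁅a * z₁, b * z₂⁆ = ⁅a, b⁆ := by
        have c1 : Commute z₁ (b * z₂) := (bz _ hz₁).symm.mul_right (zz _ _ hz₁ hz₂)
        rw [commutatorElement_def, commutatorElement_def, mul_inv_rev, mul_inv_rev, mul_assoc a z₁,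
          c1.eq, ← mul_assoc a, mul_assoc _ z₁, mul_inv_cancel_left, ← mul_assoc a, mul_assoc _ z₂,
          ← (az _ hz₂).inv_left.eq, ← mul_assoc _ a⁻¹, mul_assoc _ z₂, mul_inv_cancel_left]
      rw [e] at k1 k2
      have cz : ∀ u ∈ zpowers z, Commute u ⁅a, b⁆ := fun u hu =>
        ((((az u hu).symm.mul_right (bz u hu).symm).mul_right (az u hu).symm.inv_right).mul_right
          (bz u hu).symm.inv_right)
      have ca : Commute a ⁅a, b⁆ := by
        simpa using k1.mul_left (cz _ hz₁).inv_left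
      have cb : Commute b ⁅a, b⁆ := by
        simpa using k2.mul_left (cz _ hz₂).inv_left
      obtain ⟨m, hm⟩ := gen x hx a ha a1
      obtain ⟨n, hn⟩ := gen w hw b hb b1
      have e1 : ⁅x, b⁆ = ⁅a, b⁆ ^ m := by rw [← H7.commutator_pow_left ca, ← hm]
      have e2 : ⁅x, w⁆ = (⁅a, b⁆ ^ m) ^ n := by
        rw [← e1, ← H7.commutator_pow_right (e1 ▸ cb.pow_right m), ← hn]
      have cx : Commute x ⁅x, w⁆ := by
        rw [e2]; nth_rewrite 1 [hm]; exact ((ca.pow_left m).pow_right m).pow_right n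
      have cw : Commute w ⁅x, w⁆ := by
        rw [e2]; nth_rewrite 1 [hn]; exact ((cb.pow_left n).pow_right m).pow_right n
      have c1 : ⁅x, w⁆ ≠ 1 := fun h => hxw (commutatorElement_eq_one_iff_mul_comm.1 h)
      refine ⟨Da _ w (Dc w x hw) hw (fun h => hxw ?_) ?_ _
        (mul_mem (mem_sup_left (mem_zpowers _)) (mem_sup_right (inv_mem (mem_zpowers w)))) c1,
        cx, cw⟩
      · refine cenD w hw _ ?_ c1 x cx
        exact mul_mem ((hcyc _ (Dc w x hw) w h (D1 w hw)).2.symm ▸ mem_zpowers _)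
          (inv_mem (mem_zpowers w))
      · have : x * w * x⁻¹ = ⁅x, w⁆ * w := by rw [commutatorElement_def]; group
        rw [this, ← mul_assoc, cw.eq]
    have hO : ∀ x, D x → x ∈ pCore p G := by
      intro x hx
      apply H6.baer_suzuki
      intro g
      have hw := Dc x g hx
      generalize g * x * g⁻¹ = w at hw
      have h1 := H4.isPGroup_zpowers_of_orderOf (oD x hx)
      have h2 := H4.isPGroup_zpowers_of_orderOf (oD w hw)
      by_cases hxw : x * w = w * x
      · have := IsPGroup.to_sup_of_normal_right' h1 h2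
          (zpowers_le.2 (H9.Cen_le_Nor _ (H9.mem_Cen.2 hxw.symm)))
        rwa [zpowers_eq_closure, zpowers_eq_closure, ← Subgroup.closure_union] at this
      obtain ⟨k1, k2, k3⟩ := key x w hx hw hxw
      have h3 := H4.isPGroup_zpowers_of_orderOf (oD _ k1)
      have h4 := IsPGroup.to_sup_of_normal_right' h2 h3
        (zpowers_le.2 (H9.Cen_le_Nor _ (H9.mem_Cen.2 k3.symm)))
      have h5 := IsPGroup.to_sup_of_normal_right' h1 h4 (zpowers_le.2
        (H5.mem_normalizer_of_map_conj_le (by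
          rw [Subgroup.map_sup, H9.zpowers_map_conj, H9.zpowers_map_conj, k2.eq,
            mul_inv_cancel_right]
          refine sup_le (zpowers_le.2 ?_) le_sup_right
          have : x * w * x⁻¹ = ⁅x, w⁆ * w := by rw [commutatorElement_def]; group
          rw [this]
          exact mul_mem (mem_sup_right (mem_zpowers _)) (mem_sup_left (mem_zpowers _)))))
      refine h5.to_le ((closure_le _).2 ?_)
      rintro _ (rfl | rfl)
      · exact mem_sup_left (mem_zpowers _)
      · exact mem_sup_right (mem_sup_left (mem_zpowers _))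
    obtain ⟨M, ⟨hM1, hM2, v, hvM, hv⟩, hM⟩ := exists_minimal_of_wellFoundedLT
      (fun M : Subgroup G => M.Normal ∧ M ≤ pCore p G ∧ ∃ v ∈ M, D v)
      ⟨pCore p G, inferInstance, le_rfl, x₀, hO _ hX₀, hX₀⟩
    have hlt := H5.commutator_lt_of_isPGroup (K := M) (P := pCore p G) le_normalizer_of_normal
      ((H4.isPGroup_pCore p G).to_le hM2) (H4.isPGroup_pCore p G)
      (fun e => D1 v hv (by rwa [e, mem_bot] at hvM))
    obtain ⟨w, hw, hvw⟩ := hcon v hv
    exact hlt.not_ge (hM ⟨inferInstance, hlt.le.trans hM2, _,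
      commutator_mem_commutator hvM (hO w hw), (key v w hv hw hvw).1⟩ hlt.le)
  obtain ⟨v, hv, hvc⟩ := rad
  have hvp : v ∈ pCore p G := by
    apply H6.baer_suzuki
    intro g
    have h1 := H4.isPGroup_zpowers_of_orderOf (oD v hv)
    have h2 := H4.isPGroup_zpowers_of_orderOf (oD _ (Dc v g hv))
    have := IsPGroup.to_sup_of_normal_right' h1 h2
      (zpowers_le.2 (H9.Cen_le_Nor _ (H9.mem_Cen.2 (hvc _ (Dc v g hv)).symm)))
    rwa [zpowers_eq_closure, zpowers_eq_closure, ← Subgroup.closure_union] at this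
  refine ⟨⟨zpowers v, hv, fun W hW => ?_, zpowers_le.2 hvp⟩, fun hs => ?_⟩
  · obtain ⟨w, -, rfl⟩ := hex1 W hW
    exact hcomm v w (hvc w hW)
  · have h1 : pCore p G = ⊤ := (hs.eq_bot_or_eq_top_of_normal _ inferInstance).resolve_left
      fun e => D1 v hv (by rwa [e, mem_bot] at hvp)
    obtain ⟨z, -, hz1, hz, hzp⟩ := H7.exists_central_order_p (H4.pCore_eq_top_iff.1 h1)
      (K := ⊤) top_ne_bot
    have h2 : zpowers z = ⊤ := (hs.eq_bot_or_eq_top_of_normal _
      (H7.normal_of_le_center (zpowers_le.2 hz))).resolve_left (by rwa [zpowers_eq_bot])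
    have h3 := H9.zpowers_eq_of_prime (x := z) (orderOf_eq_prime hzp hz1 ▸ hp)
      (h2 ▸ mem_top x₀) (D1 _ hX₀)
    exact hxy₀ (h3 ▸ h2 ▸ mem_top y₀)

end Cfsg.Agent.S3196
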