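import Cfsg.Statements.S3200
import Cfsg.Agent.H9.Hall

set_option autoImplicit false
open Cfsg

namespace Cfsg.Agent.S3200

open Subgroup

/-- Let H be a finite group in which a Sylow 2-subgroup has an abelian complement (an abelian subgroup meeting it trivially whose product with it is all of H). Then H is solvable, and every subgroup and every quotient group of H again has a Sylow 2-subgroup with an abelian complement. -/
theorem result {H : Type*} [Group H] [Finite H]
    (S : Sylow 2 H) (C : Subgroup H) (hC : IsMulCommutative ↥C) (hSC : Subgroup.IsComplement' (S : Subgroup H) C) :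
    Group.IsSolvable H ∧
    (∀ L : Subgroup H, ∃ (P : Sylow 2 ↥L) (D : Subgroup ↥L), IsMulCommutative ↥D ∧ Subgroup.IsComplement' (P : Subgroup ↥L) D) ∧
    (∀ (N : Subgroup H) [N.Normal], ∃ (P : Sylow 2 (H ⧸ N)) (D : Subgroup (H ⧸ N)),
      IsMulCommutative ↥D ∧ Subgroup.IsComplement' (P : Subgroup (H ⧸ N)) D) := by
  have : Fact (Nat.Prime 2) := ⟨Nat.prime_two⟩
  obtain ⟨k, hk⟩ := IsPGroup.iff_card.1 S.isPGroup'
  have h1 : C.index ∣ 2 ^ k := by rw [hSC.index_eq_card, hk]
  have h2 : (Nat.card C).Coprime 2 := by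
    rw [← hSC.symm.index_eq_card]
    exact ((Nat.Prime.coprime_iff_not_dvd Nat.prime_two).2 S.not_dvd_index).symm
  have hs := H9.isSolvable_of_abelian_index hC h1
  refine ⟨hs, fun L => ?_, fun N _ => ?_⟩
  · obtain ⟨D, j, h3, h4⟩ := H9.hall_exists L 2 inferInstance
    obtain ⟨P⟩ : Nonempty (Sylow 2 L) := inferInstance
    obtain ⟨g, hg⟩ := H9.hall_conj hs (X := D.map L.subtype) h2 h1 (by rwa [card_subtype])
    refine ⟨P, D, H5.isMulCommutative_of_forall fun a ha b hb => Subtype.ext ?_,
      H9.isComplement'_sylow P h3 h4.dvd⟩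
    have := H5.comm_of_isMulCommutative hC (hg (H4.conj_mem_conjS ⟨a, ha, rfl⟩))
      (hg (H4.conj_mem_conjS ⟨b, hb, rfl⟩))
    rw [conj_mul, conj_mul] at this
    exact mul_left_cancel (mul_right_cancel this)
  · obtain ⟨P⟩ : Nonempty (Sylow 2 (H ⧸ N)) := inferInstance
    exact ⟨P, C.map (QuotientGroup.mk' N), inferInstance, H9.isComplement'_sylow P
      (H4.coprime_card_map h2 _) ((index_map_dvd C (QuotientGroup.mk'_surjective N)).trans h1)⟩

end Cfsg.Agent.S3200
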