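import Cfsg.Statements.S3206
import Cfsg.Agent.H3.JRee
import Cfsg.Agent.H9.Tools5

set_option autoImplicit false
open Cfsg

namespace Cfsg.Agent.S3206

/-- Let G be a non-abelian finite simple group with abelian Sylow 2-subgroups, and let t be an involution of G whose centralizer is a maximal subgroup of G and is the direct product of the subgroup generated by t with a subgroup E having a normal subgroup isomorphic to PSL(2, q), q odd and greater than 3, with trivial centralizer in E. Then every finite perfect group having a central 2-subgroup with quotient isomorphic to G has that central subgroup trivial (G has no nontrivial perfect central extension by a 2-group), and every automorphism of G of 2-power order that fixes every element of some Sylow 2-subgroup of G is inner. -/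
theorem result {G : Type*} [Group G] [Finite G] [IsSimpleGroup G]
    (hG : ¬ IsMulCommutative G) (hab : ∀ S : Sylow 2 G, IsMulCommutative ↥(S : Subgroup G))
    (t : G) (ht : orderOf t = 2) (hmax : IsCoatom (Subgroup.centralizer ({t} : Set G)))
    (E : Subgroup G) (hE : Cfsg.IsInternalDirectProduct (Subgroup.zpowers t) E (Subgroup.centralizer ({t} : Set G)))
    {F : Type*} [Field F] [Fintype F] (hFo : Odd (Fintype.card F)) (hF3 : 3 < Fintype.card F)
    (N : Subgroup ↥E) [N.Normal] (hN : Nonempty (↥N ≃* Matrix.ProjectiveSpecialLinearGroup (Fin 2) F))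
    (hNc : Subgroup.centralizer (N : Set ↥E) = ⊥) :
    (∀ (L : Type) (_ : Group L) (_ : Finite L) (Z : Subgroup L) (_ : Z.Normal), commutator L = ⊤ → Z ≤ Subgroup.center L →
        IsPGroup 2 ↥Z → Nonempty (L ⧸ Z ≃* G) → Z = ⊥) ∧
    (∀ (φ : G ≃* G) (k : ℕ), φ ^ (2 ^ k) = 1 → (∃ S : Sylow 2 G, ∀ s ∈ (S : Subgroup G), φ s = s) →
        ∃ g : G, ∀ x : G, φ x = g * x * g⁻¹) := by
  have hab' : ∀ S : Sylow 2 G, ∀ a ∈ (S : Subgroup G), ∀ b ∈ (S : Subgroup G), a * b = b * a :=
    fun S a ha b hb => congrArg Subtype.val ((hab S).is_comm.comm ⟨a, ha⟩ ⟨b, hb⟩)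
  refine ⟨?_, fun φ k hk ⟨S, hS⟩ =>
    H3.inner_of_fixes_abelian_sylow hG ht S (hab' S) φ ⟨k, hk⟩ hS⟩
  rintro X _ _ Z _ hL hZ hZ2 ⟨e⟩
  obtain ⟨eN⟩ := hN
  obtain ⟨htC, hEC, hcomm, hinf, hsup⟩ := hE
  have htt := L.mul_self_of_orderOf ht
  have ht1 : t ≠ 1 := by rintro rfl; simp at ht
  obtain ⟨S, hS⟩ := (L.PElt_of_orderOf (p := 2) (k := 1) ht).isPGroup_zpowers.exists_le_sylow
  have htS : t ∈ (S : Subgroup G) := hS (Subgroup.mem_zpowers t)
  have htS' : t ∈ Subgroup.centralizer (S : Set G) := fun s hs => hab' S s hs t htS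
  have hSC := H3.isSylowOf_centralizer S htS'
  have hdec : ∀ s ∈ Subgroup.centralizer ({t} : Set G), s ∈ E ∨ t * s ∈ E := fun s hs => by
    obtain ⟨a, ha, b, hb, rfl⟩ := (H4.mem_sup_of_le_normalizer_left (fun r hr =>
      Subgroup.centralizer_le_normalizer _ (fun q hq => hcomm q hq r hr))).mp (hsup ▸ hs)
    rcases (H9.mem_zpowers_two ht).1 ha with rfl | rfl
    · exact Or.inl (by rwa [one_mul])
    · exact Or.inr (by rwa [← mul_assoc, htt, one_mul])
  have hnE : Subgroup.centralizer ({t} : Set G) ≤ Subgroup.normalizer (E : Set G) := by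
    rw [← hsup]
    exact sup_le (fun a ha => Subgroup.centralizer_le_normalizer _
      fun b hb => (hcomm a ha b hb).symm) Subgroup.le_normalizer
  have hSE := hSC.inf_of_le_normalizer hEC (hSC.le.trans hnE)
  have hsimp' := Matrix.ProjectiveSpecialLinearGroup.rank_two_simple (F := F)
    (by rw [Nat.card_eq_fintype_card]; omega)
  have hsimp : IsSimpleGroup N := eN.isSimpleGroup
  set ρ : Matrix.ProjectiveSpecialLinearGroup (Fin 2) F →* G :=
    E.subtype.comp (N.subtype.comp eN.symm.toMonoidHom) with hρ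
  have hρi : Function.Injective ρ :=
    Subtype.val_injective.comp (Subtype.val_injective.comp eN.symm.injective)
  have hρE : ρ.range ≤ E := by rintro _ ⟨x, rfl⟩; exact (eN.symm x).1.2
  have hSN : (S : Subgroup G) ⊓ E ≤ ρ.range := by
    intro s hs
    obtain ⟨x, hx⟩ := H3.exists_involution_psl F
    have h1 := hSE.subgroupOf le_rfl
    rw [Subgroup.subgroupOf_self] at h1
    have h2 := H3.mem_of_centralizes_abelian_sylow hNc
      (H3.oddCore_eq_bot_of_simple (t := eN.symm x) (by rw [MulEquiv.orderOf_eq, hx]))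
      (h1.inf_of_le_normalizer le_top Subgroup.le_normalizer_of_normal)
      (fun a ha b hb => Subtype.ext (hab' S a ha.1.1 b hb.1.1)) (p := ⟨s, hs.2⟩)
      (L.PElt_coe.mp (L.PElt_of_mem S.isPGroup' hs.1))
      (fun a ha => Subtype.ext (hab' S a ha.1.1 s hs.1))
    exact ⟨eN ⟨_, h2⟩, by simp [hρ]⟩
  have hperf : ⁅ρ.range, ρ.range⁆ = ρ.range := by
    have h1 : commutator (Matrix.ProjectiveSpecialLinearGroup (Fin 2) F) = ⊤ :=
      SL2Simple.PSL_commutator_eq_top (by
        classical
        by_contra hcon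
        push Not at hcon
        have h2 : (Finset.univ : Finset F) ⊆ {0, 1, -1} := fun a _ => by
          by_cases h : a = 0
          · simp [h]
          · rcases sq_eq_one_iff.mp (hcon a h) with h | h <;> simp [h]
        have h3 := (Finset.card_le_card h2).trans Finset.card_le_three
        rw [Finset.card_univ] at h3
        omega)
    rw [MonoidHom.range_eq_map, ← Subgroup.map_commutator, ← commutator_def, h1]
  set π : X →* G := e.toMonoidHom.comp (QuotientGroup.mk' Z) with hπ
  have hπs : Function.Surjective π := e.surjective.comp (QuotientGroup.mk'_surjective Z)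
  have hker : π.ker = Z := by
    ext x
    simp [hπ]
  have hlift : ∀ x y : X, π x = π y → ∀ w, Commute x w → Commute y w := fun x y h w hw => by
    have h1 : x⁻¹ * y ∈ Z := by rw [← hker, MonoidHom.mem_ker, map_mul, map_inv, h, inv_mul_cancel]
    rw [show y = x * (x⁻¹ * y) by group]
    exact hw.mul_left (Subgroup.mem_center_iff.mp (hZ h1) w).symm
  set P := (S : Subgroup G).comap π with hP
  obtain ⟨τ, rfl⟩ := hπs t
  have hτN : ρ.range.comap π ≤ Subgroup.centralizer (Subgroup.zpowers τ : Set X) := by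
    have h1 : ⁅Subgroup.zpowers τ, ρ.range.comap π⁆ ≤ Subgroup.center X := by
      refine le_trans ?_ (hker.le.trans hZ)
      rw [← Subgroup.map_eq_bot_iff, Subgroup.map_commutator, MonoidHom.map_zpowers,
        Subgroup.commutator_eq_bot_iff_le_centralizer]
      exact fun a ha b hb => (hcomm a ha b (hρE (Subgroup.map_comap_le _ _ hb))).symm
    have h2 : ⁅⁅Subgroup.zpowers τ, ρ.range.comap π⁆, ρ.range.comap π⁆ = ⊥ :=
      Subgroup.commutator_eq_bot_iff_le_centralizer.mpr
        (h1.trans (Subgroup.center_le_centralizer _))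
    have h3 := Subgroup.commutator_eq_bot_iff_le_centralizer.mp
      (Subgroup.commutator_commutator_eq_bot_of_rotate
        (by rwa [Subgroup.commutator_comm (ρ.range.comap π) (Subgroup.zpowers τ)]) h2)
    intro y hy
    have h4 : π y ∈ (⁅ρ.range.comap π, ρ.range.comap π⁆).map π := by
      rwa [Subgroup.map_commutator, Subgroup.map_comap_eq_self_of_surjective hπs, hperf]
    obtain ⟨y', hy', e'⟩ := h4
    exact fun w hw => (hlift y' y e' w (h3 hy' w hw).symm).symm
  have hτ : τ ∈ Subgroup.centralizer (P : Set X) := by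
    intro y hy
    rcases hdec _ (hSC.le hy) with h | h
    · exact (hτN (hSN ⟨hy, h⟩) τ (Subgroup.mem_zpowers τ)).symm
    · have h1 := hτN (show τ * y ∈ ρ.range.comap π from
        hSN ⟨mul_mem (show τ ∈ P from htS) hy, by rwa [map_mul]⟩) τ (Subgroup.mem_zpowers τ)
      rw [mul_assoc] at h1
      exact (mul_left_cancel h1).symm
  obtain ⟨n, hn, hne⟩ : ∃ n ∈ Subgroup.normalizer (S : Set G), n * π τ * n⁻¹ ≠ π τ := by
    by_contra hcon
    push Not at hcon
    exact hG ⟨⟨H3.comm_of_isolated ht (H3.isolated_of_normalizer S (L.PElt_of_mem S.isPGroup' htS)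
      htS' (fun g hg s hs => hab' S s hs _ hg) hcon)⟩⟩
  obtain ⟨ν, rfl⟩ := hπs n
  have hτ' : ν * τ * ν⁻¹ ∈ Subgroup.centralizer (P : Set X) := by
    intro y hy
    have h1 : ν⁻¹ * y * ν⁻¹⁻¹ ∈ P := by
      rw [hP, Subgroup.mem_comap, map_mul, map_mul, map_inv π ν⁻¹, map_inv]
      exact (Subgroup.mem_normalizer_iff.mp (inv_mem hn) _).1 hy
    have h2 := Commute.conj (hτ _ h1) ν
    rwa [show ν * (ν⁻¹ * y * ν⁻¹⁻¹) * ν⁻¹ = y by group] at h2
  have ht'S : π ν * π τ * (π ν)⁻¹ ∈ (S : Subgroup G) := (Subgroup.mem_normalizer_iff.mp hn _).1 htS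
  obtain ⟨v, hv, hv1, hvC⟩ : ∃ v ∈ (S : Subgroup G) ⊓ E, v ≠ 1 ∧
      v ∈ (Subgroup.centralizer (P : Set X)).map π := by
    have h1 : π ν * π τ * (π ν)⁻¹ ∈ (Subgroup.centralizer (P : Set X)).map π :=
      ⟨_, hτ', by simp⟩
    rcases hdec _ (hSC.le ht'S) with h | h
    · exact ⟨_, ⟨ht'S, h⟩, fun h' => ht1 (conj_eq_one_iff.mp h'), h1⟩
    · exact ⟨_, ⟨mul_mem htS ht'S, h⟩, fun h' => hne (by
        rw [← inv_eq_of_mul_eq_one_right h', inv_eq_of_mul_eq_one_right htt]),
        mul_mem (Subgroup.mem_map_of_mem _ hτ) h1⟩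
  obtain ⟨u, hu, hK⟩ := H3.exists_gen_psl hFo ρ hρi hSN S.isPGroup'.to_inf_left
    (fun a ha b hb => hab' S a ha.1 b hb.1) hv hv1
  obtain ⟨u, rfl⟩ := hπs u
  have huP : u ∈ P := hu.1
  have hPle : P ≤ Subgroup.centralizer (P : Set X) ⊔ Subgroup.zpowers u := by
    have h1 := hK ((Subgroup.centralizer (P : Set X) ⊔ Subgroup.zpowers u).map π)
      (Subgroup.map_mono le_sup_left hvC)
      (Subgroup.mem_map_of_mem _ (Subgroup.mem_sup_right (Subgroup.mem_zpowers u)))
    have h2 : (S : Subgroup G) ≤ (Subgroup.centralizer (P : Set X) ⊔ Subgroup.zpowers u).map π := by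
      intro s hs
      rcases hdec _ (hSC.le hs) with h | h
      · exact h1 ⟨hs, h⟩
      · exact (mul_mem_cancel_left (Subgroup.mem_map_of_mem _ (Subgroup.mem_sup_left hτ))).1
          (h1 ⟨mul_mem htS hs, h⟩)
    refine (Subgroup.comap_mono h2).trans ?_
    rw [Subgroup.comap_map_eq, hker]
    exact sup_le le_rfl ((hZ.trans (Subgroup.center_le_centralizer _)).trans le_sup_left)
  have hPu : P ≤ Subgroup.centralizer (Subgroup.zpowers u : Set X) :=
    hPle.trans (sup_le (Subgroup.centralizer_le (Subgroup.zpowers_le.mpr huP))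
      (Subgroup.le_centralizer _))
  have hPP : P ≤ Subgroup.centralizer (P : Set X) :=
    hPle.trans (sup_le le_rfl (Subgroup.le_centralizer_iff.mp hPu))
  have : IsMulCommutative P := ⟨⟨fun a b => Subtype.ext (hPP b.2 a a.2)⟩⟩
  rw [eq_bot_iff]
  intro z hz
  have hzc := Subgroup.mem_center_iff.mp (hZ hz)
  open scoped IsMulCommutative in
  have h1 := MonoidHom.transfer_eq_pow (MonoidHom.id P) z (fun k g _ => by
    rw [mul_assoc, ← ((show Commute g z from hzc g).pow_right k).eq, inv_mul_cancel_left])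
  open scoped IsMulCommutative in
  have h2 : MonoidHom.transfer (MonoidHom.id P) z = 1 :=
    Abelianization.commutator_subset_ker _ (hL ▸ Subgroup.mem_top z)
  rw [h2] at h1
  refine H3.mem_of_pow_mem (L.PElt_of_mem hZ2 hz) (m := P.index) ?_ (congrArg Subtype.val h1).symm
  rw [hP, Subgroup.index_comap_of_surjective _ hπs]
  exact S.not_dvd_index

end Cfsg.Agent.S3206
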