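import Cfsg.Statements.S3208
import Cfsg.Agent.H5.InvSylow
import Cfsg.Agent.H4.Basic
import Cfsg.Agent.H9.Tools5

set_option autoImplicit false
open Cfsg

namespace Cfsg.Agent.S3208

open Subgroup

/-- Let j be an involution of a finite group G, H a subgroup of G, and T a Sylow 2-subgroup of H ∩ C_G(j) containing j such that ⟨j⟩ is a characteristic subgroup of T. Then T is a Sylow 2-subgroup of H. -/
theorem result {G : Type*} [Group G] [Finite G]
    (j : G) (hj : orderOf j = 2) (H T : Subgroup G) (hT : T ≤ H ⊓ Subgroup.centralizer ({j} : Set G)) (h2 : IsPGroup 2 ↥T)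
    (hSyl : ¬ 2 ∣ T.relIndex (H ⊓ Subgroup.centralizer ({j} : Set G))) (hjT : j ∈ T)
    (hchar : ((Subgroup.zpowers j).subgroupOf T).Characteristic) :
    ¬ 2 ∣ T.relIndex H := by
  have : Fact (Nat.Prime 2) := ⟨Nat.prime_two⟩
  have hS : H5.IsSylowOf 2 T (H ⊓ centralizer ({j} : Set G)) := ⟨hT, h2, hSyl⟩
  have hN : H ⊓ normalizer (T : Set G) ≤ H ⊓ centralizer ({j} : Set G) := by
    refine inf_le_inf_left _ ?_
    have := H4.normalizer_le_normalizer_map_of_characteristic ((zpowers j).subgroupOf T)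
    rw [subgroupOf_map_subtype, inf_eq_left.2 (zpowers_le.2 hjT)] at this
    intro g hg
    rcases (H9.mem_zpowers_two hj).1 (H9.mem_Nor.1 (this hg)) with e | e
    · exact absurd (by simpa using e) (H9.ne_one_of_orderOf hj (by norm_num))
    · exact H9.mem_Cen'.2 e
  exact (hS.of_le (le_inf (hT.trans inf_le_left) le_normalizer) hN).of_normalizer.not_dvd

end Cfsg.Agent.S3208
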