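import Cfsg.Statements.S3209
import Cfsg.Agent.H9.SL2

set_option autoImplicit false
open Cfsg

namespace Cfsg.Agent.S3209

open Subgroup

/-- Let L₁ ≅ SL₂(q₁) and L₂ ≅ SL₂(q₂), q₁ and q₂ odd, be elementwise-commuting subgroups of a finite group meeting in ⟨j⟩ for an involution j. Then L₁L₂ has exactly two conjugacy classes of involutions: the central involution j, and one further class (there is an involution x ≠ j in L₁L₂, and every involution of L₁L₂ other than j is conjugate to x by an element of L₁L₂). -/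
theorem result {G : Type*} [Group G] [Finite G]
    {F₁ : Type*} [Field F₁] [Fintype F₁] {F₂ : Type*} [Field F₂] [Fintype F₂]
    (hF₁ : Odd (Fintype.card F₁)) (hF₂ : Odd (Fintype.card F₂)) (L₁ L₂ : Subgroup G)
    (e₁ : ↥L₁ ≃* Matrix.SpecialLinearGroup (Fin 2) F₁) (e₂ : ↥L₂ ≃* Matrix.SpecialLinearGroup (Fin 2) F₂)
    (hc : ∀ x ∈ L₁, ∀ y ∈ L₂, x * y = y * x) (j : G) (hj : orderOf j = 2) (hm : L₁ ⊓ L₂ = Subgroup.zpowers j) :
    ∃ x ∈ L₁ ⊔ L₂, orderOf x = 2 ∧ x ≠ j ∧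
      ∀ y ∈ L₁ ⊔ L₂, orderOf y = 2 → y = j ∨ ∃ g ∈ L₁ ⊔ L₂, g * x * g⁻¹ = y := by
  have hj12 : j ∈ L₁ ⊓ L₂ := hm ▸ mem_zpowers j
  have s1 := H9.sl2Like hF₁ e₁ hj hj12.1
  have s2 := H9.sl2Like hF₂ e₂ hj hj12.2
  have jj := H9.mul_self_of_orderOf_two hj
  have j1 := H9.ne_one_of_orderOf hj (by norm_num)
  have hZ : ∀ x ∈ L₁, x ∈ L₂ → x = 1 ∨ x = j := fun x h1 h2 =>
    (H9.mem_zpowers_two hj).1 (hm ▸ ⟨h1, h2⟩)
  have sq : ∀ a ∈ L₁, ∀ b ∈ L₂, a * b * (a * b) = a * a * (b * b) := fun a ha b hb => by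
    rw [mul_assoc, ← mul_assoc b, ← hc a ha b hb]; group
  obtain ⟨a, ha, aa⟩ := s1.ex
  obtain ⟨b, hb, bb⟩ := s2.ex
  have k : ∀ x, x = 1 ∨ x = j → a * b ≠ x := by
    intro x hx e
    have h1 : a ∈ L₂ := by
      rw [eq_mul_inv_of_mul_eq e]
      refine mul_mem ?_ (inv_mem hb)
      rcases hx with rfl | rfl
      · exact one_mem _
      · exact hj12.2
    rcases hZ a ha h1 with rfl | rfl
    · exact j1 (by simpa using aa.symm)
    · exact j1 (aa.symm.trans jj)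
  refine ⟨a * b, mul_mem (mem_sup_left ha) (mem_sup_right hb),
    H9.orderOf_two_of (by rw [pow_two, sq a ha b hb, aa, bb, jj]) (k 1 (Or.inl rfl)),
    k j (Or.inr rfl), fun y hy oy => ?_⟩
  obtain ⟨c, hc', d, hd, rfl⟩ := (H4.mem_sup_of_le_normalizer_right
    (H4.le_normalizer_of_le_centralizer fun x hx =>
      mem_centralizer_iff.2 fun y hy => (hc x hx y hy).symm)).1 hy
  have h1 := H9.mul_self_of_orderOf_two oy
  rw [sq c hc' d hd] at h1
  rcases hZ (c * c) (mul_mem hc' hc') (by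
    rw [eq_inv_of_mul_eq_one_left h1]; exact inv_mem (mul_mem hd hd)) with h | h
  · rw [h, one_mul] at h1
    have := H9.ne_one_of_orderOf oy (by norm_num)
    rcases s1.sq_one c hc' h with rfl | rfl <;> rcases s2.sq_one d hd h1 with rfl | rfl
    · exact absurd (one_mul 1) this
    · exact Or.inl (one_mul _)
    · exact Or.inl (mul_one _)
    · exact absurd jj this
  · rw [h] at h1
    obtain ⟨g, hg, e1⟩ := s1.conj a ha c hc' aa h
    obtain ⟨g', hg', e2⟩ := s2.conj b hb d hd bb (mul_left_cancel (h1.trans jj.symm))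
    refine Or.inr ⟨g * g', mul_mem (mem_sup_left hg) (mem_sup_right hg'), ?_⟩
    rw [← e1, ← e2, mul_assoc g g', ← mul_assoc g', ← hc a ha g' hg', mul_assoc _ g⁻¹,
      hc _ (inv_mem hg) _ (mul_mem (mul_mem hg' hb) (inv_mem hg'))]
    group

end Cfsg.Agent.S3209
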