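import Cfsg.Statements.S3210
import Cfsg.Agent.H9.SL2

set_option autoImplicit false
open Cfsg

namespace Cfsg.Agent.S3210

open Subgroup

theorem comp_mem {G : Type*} [Group G] [Finite G] {L₁ L₂ C D : Subgroup G} {j : G}
    (hj : orderOf j = 2) (hc : ∀ x ∈ L₁, ∀ y ∈ L₂, x * y = y * x) (hm : L₁ ⊓ L₂ = zpowers j)
    (hc' : ∀ x ∈ C, ∀ y ∈ D, x * y = y * x) (hjC : j ∈ C) (hD : H9.SL2Like D j)
    (h : ∀ g, (∃ a ∈ L₁, ∃ b ∈ L₂, a * b = g) ↔ ∃ c ∈ C, ∃ d ∈ D, c * d = g)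
    {a b : G} (ha : a ∈ L₁) (hb : b ∈ L₂) (hab : a * b ∈ C) : a ∈ C := by
  obtain ⟨c, hc1, d, hd, e⟩ := (h a).1 ⟨a, ha, 1, one_mem _, mul_one a⟩
  have : d = 1 ∨ d = j := by
    refine hD.cent d hd fun t ht => ?_
    obtain ⟨a', ha', b', hb', e'⟩ := (h t).2 ⟨1, one_mem _, t, ht, one_mul t⟩
    have h1 := hc' _ hab _ ht
    have h2 : (a' * a)⁻¹ * (a * a') = b' * b * (b * b')⁻¹ := by
      rw [inv_mul_eq_iff_eq_mul, ← mul_assoc, eq_mul_inv_iff_mul_eq]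
      calc a * a' * (b * b') = a * b * (a' * b') := by
            rw [mul_assoc, mul_assoc, ← mul_assoc a', hc a' ha' b hb, mul_assoc]
        _ = a' * (b' * a) * b := by rw [e', h1, ← e']; group
        _ = _ := by rw [← hc a ha b' hb']; group
    have h3 : (a' * a)⁻¹ * (a * a') ∈ zpowers j := hm ▸ mem_inf.2
      ⟨mul_mem (inv_mem (mul_mem ha' ha)) (mul_mem ha ha'),
        h2 ▸ mul_mem (mul_mem hb' hb) (inv_mem (mul_mem hb hb'))⟩
    have h4 : ∀ z ∈ L₁, a * a' = a' * a * z → d * t = t * d * z := by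
      intro z hz e2
      apply mul_left_cancel (a := c)
      rw [← mul_assoc, e, ← mul_assoc, ← mul_assoc, hc' c hc1 t ht, mul_assoc t c, e, ← e',
        ← mul_assoc, e2, mul_assoc _ z, hc z hz b' hb', mul_assoc a' b', ← hc a ha b' hb']
      group
    have hjL : j ∈ L₁ ⊓ L₂ := hm ▸ mem_zpowers j
    rcases (H9.mem_zpowers_two hj).1 h3 with h5 | h5
    · exact Or.inl (by simpa using h4 1 (one_mem _) (inv_mul_eq_iff_eq_mul.1 h5))
    · exact Or.inr (h4 j hjL.1 (inv_mul_eq_iff_eq_mul.1 h5))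
  rw [← e]
  rcases this with rfl | rfl
  · simpa using hc1
  · exact mul_mem hc1 hjC

theorem dichot {G : Type*} [Group G] [Finite G] {L₁ L₂ C D : Subgroup G} {j : G}
    (hj : orderOf j = 2) (hc : ∀ x ∈ L₁, ∀ y ∈ L₂, x * y = y * x) (hm : L₁ ⊓ L₂ = zpowers j)
    (hc' : ∀ x ∈ C, ∀ y ∈ D, x * y = y * x) (hjC : j ∈ C) (hjD : j ∈ D) (hC : H9.SL2Like C j)
    (hD : H9.SL2Like D j) (hL : H9.SL2Like L₁ j)
    (h : ∀ g, (∃ a ∈ L₁, ∃ b ∈ L₂, a * b = g) ↔ ∃ c ∈ C, ∃ d ∈ D, c * d = g) :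
    L₁ ≤ C ∨ L₁ ≤ D := by
  refine hL.indec C D hjC hjD hc' fun g hg => ?_
  obtain ⟨c, hc1, d, hd, e⟩ := (h g).1 ⟨g, hg, 1, one_mem _, mul_one g⟩
  obtain ⟨a, ha, b, hb, e1⟩ := (h c).2 ⟨c, hc1, 1, one_mem _, mul_one c⟩
  obtain ⟨a', ha', b', hb', e2⟩ := (h d).2 ⟨1, one_mem _, d, hd, one_mul d⟩
  have h1 := comp_mem hj hc hm hc' hjC hD h ha hb (e1 ▸ hc1)
  have h2 := comp_mem hj hc hm (fun x hx y hy => (hc' y hy x hx).symm) hjD hC (fun g =>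
    (h g).trans ⟨fun ⟨c, h1, d, h2, e⟩ => ⟨d, h2, c, h1, (hc' c h1 d h2).symm.trans e⟩,
      fun ⟨d, h2, c, h1, e⟩ => ⟨c, h1, d, h2, (hc' c h1 d h2).trans e⟩⟩) ha' hb' (e2 ▸ hd)
  have e3 : g = a * (a' * (b * b')) := by
    rw [← e, ← e1, ← e2, mul_assoc, ← mul_assoc b, ← hc a' ha' b hb, mul_assoc]
  have h3 : b * b' ∈ L₁ := by
    have : b * b' = a'⁻¹ * (a⁻¹ * g) := by rw [e3]; group
    rw [this]
    exact mul_mem (inv_mem ha') (mul_mem (inv_mem ha) hg)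
  have h4 : b * b' ∈ zpowers j := hm ▸ ⟨h3, mul_mem hb hb'⟩
  exact ⟨a, ⟨ha, h1⟩, _, ⟨mul_mem ha' h3, mul_mem h2 (zpowers_le.2 hjD h4)⟩, e3⟩


/-- Let G be a finite group with subgroups L₁ ≅ SL₂(q₁) and L₂ ≅ SL₂(q₂), q₁ and q₂ odd prime powers, which commute elementwise and meet in ⟨j⟩ for an involution j, and suppose L₁L₂ has index 2 in C_G(j). Then every element n of C_G(j) outside L₁L₂ either normalizes both L₁ and L₂, or conjugates L₁ onto L₂; in the second case q₁ = q₂ and there is an element n′ of C_G(j) outside L₁L₂ conjugating L₁ onto L₂ with n′² ∈ ⟨j⟩. -/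
theorem result {G : Type*} [Group G] [Finite G]
    {F₁ : Type*} [Field F₁] [Fintype F₁] {F₂ : Type*} [Field F₂] [Fintype F₂]
    (hF₁ : Odd (Fintype.card F₁)) (hF₂ : Odd (Fintype.card F₂)) (L₁ L₂ : Subgroup G)
    (e₁ : ↥L₁ ≃* Matrix.SpecialLinearGroup (Fin 2) F₁) (e₂ : ↥L₂ ≃* Matrix.SpecialLinearGroup (Fin 2) F₂)
    (hc : ∀ x ∈ L₁, ∀ y ∈ L₂, x * y = y * x) (j : G) (hj : orderOf j = 2) (hm : L₁ ⊓ L₂ = Subgroup.zpowers j)
    (hle : L₁ ⊔ L₂ ≤ Subgroup.centralizer ({j} : Set G)) (hi : (L₁ ⊔ L₂).relIndex (Subgroup.centralizer ({j} : Set G)) = 2) (n : G) (hn : n ∈ Subgroup.centralizer ({j} : Set G)) (hn' : n ∉ L₁ ⊔ L₂) :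
    (L₁.map (MulAut.conj n).toMonoidHom = L₁ ∧ L₂.map (MulAut.conj n).toMonoidHom = L₂) ∨
      (L₁.map (MulAut.conj n).toMonoidHom = L₂ ∧ Fintype.card F₁ = Fintype.card F₂ ∧
        ∃ n' ∈ Subgroup.centralizer ({j} : Set G), n' ∉ L₁ ⊔ L₂ ∧ L₁.map (MulAut.conj n').toMonoidHom = L₂ ∧ n' ^ 2 ∈ Subgroup.zpowers j) := by
  have hj12 : j ∈ L₁ ⊓ L₂ := hm ▸ mem_zpowers j
  have s1 := H9.sl2Like hF₁ e₁ hj hj12.1
  have s2 := H9.sl2Like hF₂ e₂ hj hj12.2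
  have jj := H9.mul_self_of_orderOf_two hj
  have j1 := H9.ne_one_of_orderOf hj (by norm_num)
  have hnj : n * j * n⁻¹ = j := H9.mem_Cen'.1 hn
  have hjC : j ∈ H4.conjS n L₁ := hnj ▸ H4.conj_mem_conjS hj12.1
  have hjD : j ∈ H4.conjS n L₂ := hnj ▸ H4.conj_mem_conjS hj12.2
  have s3 := H9.sl2Like hF₁ ((H4.conjSEquiv n L₁).symm.trans e₁) hj hjC
  have s4 := H9.sl2Like hF₂ ((H4.conjSEquiv n L₂).symm.trans e₂) hj hjD
  have hcard : Nat.card (H9.Cen j) = 2 * Nat.card ↥(L₁ ⊔ L₂) := by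
    rw [← H5.card_mul_relIndex hle, hi, mul_comm]
  have hM : H4.conjS n L₁ ⊔ H4.conjS n L₂ = L₁ ⊔ L₂ := by
    rw [← H4.conjS_sup]
    exact H4.mem_normalizer_iff_conjS.1 (H9.le_normalizer_of_two hle hcard hn)
  have hc' : ∀ x ∈ H4.conjS n L₁, ∀ y ∈ H4.conjS n L₂, x * y = y * x := by
    rintro _ ⟨x, hx, rfl⟩ _ ⟨y, hy, rfl⟩
    rw [← map_mul, hc x hx y hy, map_mul]
  have msup : ∀ A B : Subgroup G, (∀ x ∈ A, ∀ y ∈ B, x * y = y * x) → ∀ g,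
      g ∈ A ⊔ B ↔ ∃ a ∈ A, ∃ b ∈ B, a * b = g := fun A B h g =>
    H4.mem_sup_of_le_normalizer_right (H4.le_normalizer_of_le_centralizer fun x hx =>
      mem_centralizer_iff.2 fun y hy => (h x hx y hy).symm)
  have d1 := dichot hj hc hm hc' hjC hjD s3 s4 s1 fun g => by
    rw [← msup _ _ hc, ← msup _ _ hc', hM]
  have d2 := dichot hj (fun x hx y hy => (hc y hy x hx).symm) ((inf_comm _ _).trans hm) hc' hjC hjD
    s3 s4 s2 fun g => by
      rw [← msup _ _ (fun x hx y hy => (hc y hy x hx).symm), ← msup _ _ hc', hM, sup_comm]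
  have hCD : H4.conjS n L₁ ⊓ H4.conjS n L₂ = zpowers j := by
    rw [← H4.conjS_inf, hm, H4.conjS, H9.zpowers_map_conj, hnj]
  have nle : ∀ L, H9.SL2Like L j → ¬ L ≤ zpowers j := fun L s h => by
    obtain ⟨a, ha, aa⟩ := s.ex
    rcases (H9.mem_zpowers_two hj).1 (h ha) with rfl | rfl
    · exact j1 (by simpa using aa.symm)
    · exact j1 (aa.symm.trans jj)
  have c1 := H4.card_conjS n L₁
  have c2 := H4.card_conjS n L₂
  rcases d1 with d1 | d1 <;> rcases d2 with d2 | d2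
  · exact absurd (hCD ▸ le_inf (le_sup_right.trans (hM.le.trans (sup_le d1 d2))) le_rfl)
      (nle _ s4)
  · exact Or.inl ⟨(eq_of_le_of_card_ge d1 c1.le).symm, (eq_of_le_of_card_ge d2 c2.le).symm⟩
  · have c3 := card_le_of_le d1
    have c4 := card_le_of_le d2
    have e1 : H4.conjS n L₁ = L₂ := (eq_of_le_of_card_ge d2 (by omega)).symm
    have e2 : H4.conjS n L₂ = L₁ := (eq_of_le_of_card_ge d1 (by omega)).symm
    refine Or.inr ⟨e1, ?_, ?_⟩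
    · have : Nat.card L₁ = Nat.card L₂ := by omega
      rw [Nat.card_congr e₁.toEquiv, Nat.card_congr e₂.toEquiv, H9.card_SL2, H9.card_SL2] at this
      have mono : ∀ a b : ℕ, 1 < a → a < b → a * (a ^ 2 - 1) < b * (b ^ 2 - 1) := fun a b h1 h2 =>
        Nat.mul_lt_mul_of_lt_of_le h2 (Nat.sub_le_sub_right (Nat.pow_le_pow_left h2.le 2) 1)
          (Nat.sub_pos_of_lt (by nlinarith))
      rcases lt_trichotomy (Fintype.card F₁) (Fintype.card F₂) with h | h | h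
      · exact absurd this (mono _ _ Fintype.one_lt_card h).ne
      · exact h
      · exact absurd this (mono _ _ Fintype.one_lt_card h).ne'
    · obtain ⟨a, ha, b, hb, e⟩ := (msup _ _ hc _).1 (H9.sq_mem_of_two hle hcard hn)
      have ha' : n * a * n⁻¹ ∈ L₂ := e1 ▸ H4.conj_mem_conjS ha
      have hb' : n * b * n⁻¹ ∈ L₁ := e2 ▸ H4.conj_mem_conjS hb
      have e3 : n * a * n⁻¹ * (n * b * n⁻¹) = a * b := by rw [conj_mul, e]; group
      refine ⟨n * a⁻¹, mul_mem hn (inv_mem (hle (mem_sup_left ha))),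
        fun h => hn' ((mul_mem_cancel_right (inv_mem (mem_sup_left ha))).1 h), ?_, ?_⟩
      · change H4.conjS _ _ = _
        rw [← H4.conjS_conjS, H4.conjS_eq_of_mem (inv_mem ha), e1]
      · have e4 : (n * a⁻¹) ^ 2 = (n * a * n⁻¹)⁻¹ * b := by
          calc (n * a⁻¹) ^ 2 = (n * a * n⁻¹)⁻¹ * n ^ 2 * a⁻¹ := by simp only [pow_two]; group
            _ = _ := by rw [← e, hc a ha b hb]; group
        rw [← hm]
        refine mem_inf.2 ⟨?_, e4 ▸ mul_mem (inv_mem ha') hb⟩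
        have e5 : (n * a * n⁻¹)⁻¹ * b = n * b * n⁻¹ * a⁻¹ := by
          rw [inv_mul_eq_iff_eq_mul, ← mul_assoc, e3, hc a ha b hb, mul_inv_cancel_right]
        rw [e4, e5]
        exact mul_mem hb' (inv_mem ha)
  · exact absurd (hCD ▸ le_inf le_rfl (le_sup_left.trans (hM.le.trans (sup_le d1 d2))))
      (nle _ s3)

end Cfsg.Agent.S3210
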