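import Cfsg.Statements.S3211
import Cfsg.Agent.H3.ZCor
import Cfsg.Agent.H3.SLTwo
import Cfsg.Agent.H9.Tools5

set_option autoImplicit false
open Cfsg

namespace Cfsg.Agent.S3211

/-- Let G be a finite group with subgroups L₁ ≅ SL₂(q₁) and L₂ ≅ SL₂(q₂), q₁ and q₂ odd prime powers, which commute elementwise and meet in ⟨j⟩ for an involution j, and suppose L₁L₂ has index 2 in C_G(j). If some n ∈ C_G(j) with n² = j interchanges L₁ and L₂ under conjugation (so that C_G(j) = L₁L₂⟨n⟩), then G = C_G(j)O(G). -/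
theorem result {G : Type*} [Group G] [Finite G]
    {F₁ : Type*} [Field F₁] [Fintype F₁] {F₂ : Type*} [Field F₂] [Fintype F₂]
    (hF₁ : Odd (Fintype.card F₁)) (hF₂ : Odd (Fintype.card F₂)) (L₁ L₂ : Subgroup G)
    (e₁ : ↥L₁ ≃* Matrix.SpecialLinearGroup (Fin 2) F₁) (e₂ : ↥L₂ ≃* Matrix.SpecialLinearGroup (Fin 2) F₂)
    (hc : ∀ x ∈ L₁, ∀ y ∈ L₂, x * y = y * x) (j : G) (hj : orderOf j = 2) (hm : L₁ ⊓ L₂ = Subgroup.zpowers j)
    (hle : L₁ ⊔ L₂ ≤ Subgroup.centralizer ({j} : Set G)) (hi : (L₁ ⊔ L₂).relIndex (Subgroup.centralizer ({j} : Set G)) = 2) (n : G) (hn : n ∈ Subgroup.centralizer ({j} : Set G))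
    (hn2 : n ^ 2 = j) (hswap : L₁.map (MulAut.conj n).toMonoidHom = L₂) :
    Subgroup.centralizer ({j} : Set G) ⊔ Cfsg.oddCore G = ⊤ := by
  have hjj := L.mul_self_of_orderOf hj
  have hj1 : j ≠ 1 := by rintro rfl; simp at hj
  have hjL : j ∈ L₁ ⊓ L₂ := hm ▸ Subgroup.mem_zpowers j
  obtain ⟨z₁, h₁⟩ := H3.exists_slLike hF₁ e₁
  obtain ⟨z₂, h₂⟩ := H3.exists_slLike hF₂ e₂
  obtain rfl : j = z₁ := (h₁.inv j hjL.1 hjj).resolve_left hj1
  obtain rfl : j = z₂ := (h₂.inv j hjL.2 hjj).resolve_left hj1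
  have hint : ∀ x ∈ L₁, x ∈ L₂ → x = 1 ∨ x = j := fun x h1 h2 =>
    (H9.mem_zpowers_two hj).1 (hm ▸ (⟨h1, h2⟩ : x ∈ L₁ ⊓ L₂))
  have hdec : ∀ s ∈ L₁ ⊔ L₂, ∃ a ∈ L₁, ∃ b ∈ L₂, a * b = s := fun s hs =>
    (H4.mem_sup_of_le_normalizer_left (fun r hr => Subgroup.centralizer_le_normalizer _
      (fun q hq => hc q hq r hr))).mp hs
  have hnj : Commute n j := Subgroup.mem_centralizer_singleton_iff.mp hn
  have hn12 : ∀ x ∈ L₁, n * x * n⁻¹ ∈ L₂ := fun x hx => hswap ▸ Subgroup.mem_map_of_mem _ hx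
  have hn21 : ∀ x ∈ L₂, n⁻¹ * x * n ∈ L₁ := fun x hx => by
    rw [← hswap] at hx
    obtain ⟨y, hy, rfl⟩ := hx
    simpa [mul_assoc] using hy
  have hnn : ∀ x ∈ L₁, n⁻¹ * x * n = n * x * n⁻¹ := fun x hx => by
    calc n⁻¹ * x * n = n⁻¹ * (x * n ^ 2) * n⁻¹ := by rw [pow_two]; group
      _ = n⁻¹ * (n ^ 2 * x) * n⁻¹ := by rw [hn2, h₁.comm x hx]
      _ = _ := by rw [pow_two]; group
  have hnL : n ∉ L₁ ⊔ L₂ := by
    intro h
    obtain ⟨a, ha, b, hb, rfl⟩ := hdec n h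
    obtain ⟨x, hx, y, hy, hxy⟩ := h₁.noncomm
    have h1 := hc _ (mul_mem (mul_mem ha hy) (inv_mem ha)) _ (hn12 x hx)
    rw [show a * b * x * (a * b)⁻¹ = a * (b * x * b⁻¹) * a⁻¹ by group, ← hc x hx b hb,
      mul_inv_cancel_right, conj_mul, conj_mul] at h1
    exact hxy (by simpa using h1.symm)
  have hinv : ∀ s : G, s * s = 1 → Commute s j → s ∈ L₁ ⊔ L₂ := by
    intro s hss hsj
    by_contra hs
    have hsC : s ∈ Subgroup.centralizer ({j} : Set G) :=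
      Subgroup.mem_centralizer_singleton_iff.mpr hsj
    have h1 : n⁻¹ * s ∈ L₁ ⊔ L₂ := by
      have := (Subgroup.mul_mem_iff_of_index_two hi (a := ⟨n⁻¹, inv_mem hn⟩) (b := ⟨s, hsC⟩)).2
        (by simp only [Subgroup.mem_subgroupOf, inv_mem_iff]; tauto)
      exact this
    obtain ⟨l₁, hl₁, l₂, hl₂, e⟩ := hdec _ h1
    have hA := hn21 l₂ hl₂
    have hB : n⁻¹ * l₁ * n ∈ L₂ := hnn l₁ hl₁ ▸ hn12 l₁ hl₁
    have ha := mul_mem hA hl₁
    have hb := mul_mem hB hl₂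
    have h2 : j * ((n⁻¹ * l₂ * n * l₁) * (n⁻¹ * l₁ * n * l₂)) = 1 := by
      rw [← mul_assoc (n⁻¹ * l₂ * n * l₁), hc _ ha _ hB, ← hn2, ← hss,
        show s = n * (l₁ * l₂) by rw [e]; group, pow_two]
      group
    have h3 : n⁻¹ * (n⁻¹ * l₁ * n * l₂) * n = l₁ * (n⁻¹ * l₂ * n * l₁) * l₁⁻¹ := by
      rw [hnn l₁ hl₁]; group
    have h4 : n⁻¹ * l₂ * n * l₁ ∈ L₂ := by
      rw [eq_inv_of_mul_eq_one_left (show (n⁻¹ * l₂ * n * l₁) * ((n⁻¹ * l₁ * n * l₂) * j) = 1 by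
        rw [← mul_assoc, ← h2]; exact (mul_eq_one_comm.1 h2).trans h2.symm)]
      exact inv_mem (mul_mem hb hjL.2)
    rcases hint _ ha h4 with h5 | h5
    · rw [h5, one_mul, mul_eq_one_iff_eq_inv', inv_eq_of_mul_eq_one_right hjj] at h2
      rw [h5, h2, mul_assoc, ← hnj.eq] at h3
      exact hj1 (by simpa using h3)
    · rw [h5, ← mul_assoc, hjj, one_mul] at h2
      rw [h5, h2] at h3
      exact hj1 (by simpa using h3.symm)
  let PP : ℕ → G → G → Prop := fun k a b => ∃ s t : G, s * s = 1 ∧ t * t = 1 ∧ Commute s a ∧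
    Commute s b ∧ Commute t a ∧ Commute t b ∧ (s * t) ^ 2 ^ k = a
  have hPc : ∀ k a b g, PP k a b → PP k (g * a * g⁻¹) (g * b * g⁻¹) := by
    rintro k a b g ⟨s, t, h1, h2, h3, h4, h5, h6, h7⟩
    exact ⟨g * s * g⁻¹, g * t * g⁻¹, by rw [conj_mul, h1]; group, by rw [conj_mul, h2]; group,
      h3.conj g, h4.conj g, h5.conj g, h6.conj g, by rw [conj_mul, conj_pow, h7]⟩
  have hstep : ∀ v : G, v * v = 1 → v ≠ 1 → v ≠ j → Commute v j → ∀ k, PP k v j → PP (k + 1) j v := by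
    rintro v hvv hv1 hvj hcv k ⟨s, t, h1, h2, -, h4, -, h6, h7⟩
    obtain ⟨l₁, hl₁, l₂, hl₂, rfl⟩ := hdec v (hinv v hvv hcv)
    obtain ⟨a, ha, b, hb, e⟩ := hdec _ (mul_mem (hinv s h1 h4) (hinv t h2 h6))
    have c12 : Commute l₁ l₂ := hc _ hl₁ _ hl₂
    have hsq : l₁ * l₁ * (l₂ * l₂) = 1 := by rw [← hvv, c12.symm.mul_mul_mul_comm]
    have hl1 : l₁ * l₁ = j := by
      refine (hint _ (mul_mem hl₁ hl₁) (by
        rw [eq_inv_of_mul_eq_one_left hsq]; exact inv_mem (mul_mem hl₂ hl₂))).resolve_left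
        fun h => ?_
      rw [h, one_mul] at hsq
      rcases h₁.inv _ hl₁ h with rfl | rfl <;> rcases h₂.inv _ hl₂ hsq with rfl | rfl
      · exact hv1 (one_mul 1)
      · exact hvj (one_mul _)
      · exact hvj (mul_one _)
      · exact hv1 hjj
    have hl2 : l₂ * l₂ = j := by
      rw [hl1, mul_eq_one_iff_eq_inv', inv_eq_of_mul_eq_one_right hjj] at hsq
      exact hsq
    rw [← e, Commute.mul_pow (hc a ha b hb)] at h7
    have h8 : l₁⁻¹ * a ^ 2 ^ k = 1 ∨ l₁⁻¹ * a ^ 2 ^ k = j :=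
      hint _ (mul_mem (inv_mem hl₁) (pow_mem ha _)) (by
        rw [show l₁⁻¹ * a ^ 2 ^ k = l₂ * (b ^ 2 ^ k)⁻¹ by
          rw [eq_mul_inv_iff_mul_eq, mul_assoc, h7]; group]
        exact mul_mem hl₂ (inv_mem (pow_mem hb _)))
    have caj : Commute a j := h₁.comm a ha
    have cl1j : Commute l₁ j := h₁.comm _ hl₁
    have h9 : Commute a l₁ ∧ a ^ 2 ^ (k + 1) = j := by
      rw [pow_succ, pow_mul, pow_two]
      rcases h8 with h | h
      · rw [inv_mul_eq_one] at h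
        exact ⟨h ▸ (Commute.refl a).pow_right _, by rw [← h, hl1]⟩
      · rw [inv_mul_eq_iff_eq_mul] at h
        refine ⟨?_, by rw [h, cl1j.symm.mul_mul_mul_comm, hl1, hjj, mul_one]⟩
        rw [show l₁ = a ^ 2 ^ k * j by rw [h, mul_assoc, hjj, mul_one]]
        exact ((Commute.refl a).pow_right _).mul_right caj
    obtain ⟨w₁, hw₁, p₁, q₁⟩ := h₁.exw l₁ hl₁ hl1
    obtain ⟨w₂, hw₂, p₂, q₂⟩ := h₂.exw l₂ hl₂ hl2
    have cw : Commute w₁ w₂ := hc _ hw₁ _ hw₂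
    have hww : w₁ * w₂ * (w₁ * w₂) = 1 := by rw [cw.symm.mul_mul_mul_comm, p₁, p₂, hjj]
    have cwj : Commute (w₁ * w₂) j := Commute.mul_left (h₁.comm _ hw₁) (h₂.comm _ hw₂)
    have hconj : ∀ x ∈ L₁, ∀ y ∈ L₂, w₁ * w₂ * (x * y) * (w₁ * w₂)⁻¹ =
        (w₁ * x * w₁⁻¹) * (w₂ * y * w₂⁻¹) := fun x hx y hy => by
      have c1 : Commute (w₂ * y * w₂⁻¹) w₁⁻¹ :=
        (hc _ (inv_mem hw₁) _ (mul_mem (mul_mem hw₂ hy) (inv_mem hw₂))).symm
      calc _ = w₁ * (w₂ * x) * (y * w₂⁻¹) * w₁⁻¹ := by group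
        _ = w₁ * x * ((w₂ * y * w₂⁻¹) * w₁⁻¹) := by rw [← hc x hx w₂ hw₂]; group
        _ = _ := by rw [c1.eq]; group
    have cwv : Commute (w₁ * w₂) (l₁ * l₂) := by
      have := hconj l₁ hl₁ l₂ hl₂
      rw [q₁ l₁ hl₁ rfl, q₂ l₂ hl₂ rfl, ← mul_inv_rev, ← c12.eq, inv_eq_of_mul_eq_one_right hvv,
        mul_inv_eq_iff_eq_mul] at this
      exact this
    have cav : Commute a (l₁ * l₂) := h9.1.mul_right (hc a ha _ hl₂)
    refine ⟨a * (w₁ * w₂), w₁ * w₂, ?_, hww, caj.mul_left cwj, cav.mul_left cwv, cwj, cwv, ?_⟩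
    · have := hconj a ha 1 (one_mem _)
      rw [q₁ a ha h9.1, mul_one, inv_eq_of_mul_eq_one_right hww] at this
      rw [mul_assoc, ← mul_assoc (w₁ * w₂), this]
      group
    · rw [mul_assoc, hww, mul_one, h9.2]
  refine H3.centralizer_sup_oddCore_of_isolated hj fun g hg => ?_
  by_contra hne
  have hvv : g * j * g⁻¹ * (g * j * g⁻¹) = 1 := by rw [conj_mul, hjj]; group
  have hv1 : g * j * g⁻¹ ≠ 1 := by simpa using hj1
  have hall : ∀ k, PP k (g * j * g⁻¹) j ∧ PP k j (g * j * g⁻¹) := by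
    intro k
    induction k with
    | zero => exact ⟨⟨_, 1, hvv, one_mul 1, Commute.refl _, hg.symm, Commute.one_left _,
        Commute.one_left _, by simp⟩, ⟨_, 1, hjj, one_mul 1, Commute.refl _, hg, Commute.one_left _,
        Commute.one_left _, by simp⟩⟩
    | succ k ih =>
      refine ⟨?_, hstep _ hvv hv1 hne hg.symm k ih.1⟩
      have h1 := hPc _ _ _ g⁻¹ ih.2
      have e1 : g⁻¹ * (g * j * g⁻¹) * g⁻¹⁻¹ = j := by group
      rw [e1] at h1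
      have e2 := hg.conj g⁻¹
      rw [e1] at e2
      have h2 := hPc _ _ _ g (hstep _ (by rw [conj_mul, hjj]; group)
        (fun h => hj1 (conj_eq_one_iff.mp h))
        (fun h => hne (by nth_rewrite 1 [← h]; group)) e2 k h1)
      rwa [show g * (g⁻¹ * j * g⁻¹⁻¹) * g⁻¹ = j by group] at h2
  obtain ⟨s, t, -, -, -, -, -, -, h⟩ := (hall (Nat.card G)).2
  have h1 : orderOf (s * t) = 2 ^ (Nat.card G + 1) :=
    orderOf_eq_prime_pow (h ▸ hj1) (by rw [pow_succ, pow_mul, h, pow_two, hjj])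
  have h2 := orderOf_le_card (x := s * t)
  have h3 : Nat.card G + 1 < 2 ^ (Nat.card G + 1) := Nat.lt_two_pow_self
  omega

end Cfsg.Agent.S3211
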