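import Cfsg.Statements.S3213
import Cfsg.Agent.H2.F4
import Cfsg.Agent.H9.Tools6

set_option autoImplicit false
open Cfsg

namespace Cfsg.Agent.S3213

open Matrix Subgroup

theorem key5 : ∀ x : Matrix.SpecialLinearGroup (Fin 2) (ZMod 5), x ^ 3 = 1 → x ≠ 1 →
    ∃ g : Matrix.SpecialLinearGroup (Fin 2) (ZMod 5),
      ((x * (g * x * g⁻¹)) ^ 2) ^ 5 = 1 ∧ (x * (g * x * g⁻¹)) ^ 2 ≠ 1 := by decide +kernel

theorem sq_zero {F V : Type*} [Field F] [AddCommGroup V] [Module F V] [FiniteDimensional F V]
    (h3 : (3 : F) = 0) (hV : Module.finrank F V = 4) (ω : V →ₗ[F] V →ₗ[F] F)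
    (hnd : ∀ v, (∀ w, ω v w = 0) → v = 0) (halt : ∀ v w, ω v w = -ω w v) (A : Module.End F V)
    (hA : A ^ 3 = 1) (hω : ∀ v w, ω (A v) (A w) = ω v w) : (A - 1) ^ 2 = 0 := by
  set N := A - 1 with hN
  have h3' : (3 : Module.End F V) = 0 := by
    have : (3 : Module.End F V) = algebraMap F _ 3 := by simp [map_ofNat]
    rw [this, h3, map_zero]
  have hP : N ^ 2 = A ^ 2 + A + 1 := by
    have : N ^ 2 = A ^ 2 + A + 1 - 3 * A := by rw [hN]; noncomm_ring
    rw [this, h3', zero_mul, sub_zero]
  have hN3 : N ^ 3 = 0 := by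
    have : N ^ 3 = A ^ 3 - 1 - 3 * (A ^ 2 - A) := by rw [hN]; noncomm_ring
    rw [this, h3', zero_mul, sub_zero, hA, sub_self]
  have hA3 : ∀ v, A (A (A v)) = v := fun v => by
    have := congrArg (fun f : Module.End F V => f v) hA
    simpa [pow_succ] using this
  have hsa : ∀ v w, ω ((N ^ 2) v) w = ω v ((N ^ 2) w) := fun v w => by
    have e1 : ω (A (A v)) w = ω v (A w) := by rw [← hω, hA3]
    have e2 : ω (A v) w = ω v (A (A w)) := by rw [← hω, ← hω, hA3]
    simp only [hP, pow_two, LinearMap.add_apply, Module.End.mul_apply, Module.End.one_apply,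
      map_add, e1, e2]
    ring
  have h0 : ∀ v, ω ((N ^ 2) v) v = 0 := fun v => by
    have := hsa v v
    rw [halt v] at this
    linear_combination (-1 : F) * this + ω ((N ^ 2) v) v * h3
  by_contra hne
  obtain ⟨v, hv⟩ : ∃ v, (N ^ 2) v ≠ 0 := by
    by_contra hc
    push Not at hc
    exact hne (LinearMap.ext hc)
  obtain ⟨w, hw⟩ : ∃ w, ω ((N ^ 2) v) w ≠ 0 := by
    by_contra hc
    push Not at hc
    exact hv (hnd _ hc)
  have hind : ∀ a b : F, a • (N ^ 2) v + b • (N ^ 2) w = 0 → a = 0 ∧ b = 0 := fun a b h => by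
    have e1 := congrArg (fun u => ω u w) h
    have e2 := congrArg (fun u => ω u v) h
    simp only [map_add, map_smul, LinearMap.add_apply, LinearMap.smul_apply, h0, smul_eq_mul,
      mul_zero, add_zero, zero_add, map_zero, LinearMap.zero_apply] at e1 e2
    rw [halt, ← hsa] at e2
    exact ⟨(mul_eq_zero.mp e1).resolve_right hw,
      (mul_eq_zero.mp e2).resolve_right (neg_ne_zero.mpr hw)⟩
  have n3 : ∀ u, N (N (N u)) = 0 := fun u => by
    have := congrArg (fun f : Module.End F V => f u) hN3
    simpa [pow_succ] using this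
  have n2 : ∀ u, (N ^ 2) u = N (N u) := fun u => by simp [pow_two]
  have hli : LinearIndependent F ![v, w, N v, N w, N (N v), N (N w)] := by
    rw [Fintype.linearIndependent_iff]
    intro g hg
    simp only [Fin.sum_univ_succ, Fin.sum_univ_zero, cons_val_zero, cons_val_succ, add_zero] at hg
    have e1 := congrArg N hg
    have e2 := congrArg N e1
    simp only [map_add, map_smul, n3, smul_zero, add_zero, map_zero] at e1 e2
    obtain ⟨a1, a2⟩ := hind _ _ (by rw [n2, n2]; exact e2)
    rw [a1, a2, zero_smul, zero_smul, zero_add, zero_add] at e1 hg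
    obtain ⟨a3, a4⟩ := hind _ _ (by rw [n2, n2]; exact e1)
    rw [a3, a4, zero_smul, zero_smul, zero_add, zero_add] at hg
    obtain ⟨a5, a6⟩ := hind _ _ (by rw [n2, n2]; exact hg)
    intro i
    fin_cases i <;> assumption
  have := hli.fintype_card_le_finrank
  simp [hV] at this


/-- Let F be the field with 3 elements and K the field with 5 elements. For every injective homomorphism φ from SL₂(K) into the symplectic group Sp₄(F) (4 × 4 matrices g with g J gᵀ = J for the standard alternating matrix J) and every element x of order 3 of SL₂(K), the vectors of F⁴ fixed by φ(x) form a 2-dimensional subspace that is totally isotropic for the alternating form defined by J. -/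
theorem result {F : Type*} [Field F] [Fintype F] (hF : Fintype.card F = 3)
    {K : Type*} [Field K] [Fintype K] (hK : Fintype.card K = 5)
    (φ : Matrix.SpecialLinearGroup (Fin 2) K →* ↥(Matrix.symplecticGroup (Fin 2) F)) (hφ : Function.Injective φ)
    (x : Matrix.SpecialLinearGroup (Fin 2) K) (hx : orderOf x = 3) :
    Module.finrank F ↥(LinearMap.ker (Matrix.toLin' ((φ x : Matrix (Fin 2 ⊕ Fin 2) (Fin 2 ⊕ Fin 2) F)) - LinearMap.id)) = 2 ∧
      ∀ v w : Fin 2 ⊕ Fin 2 → F, (φ x : Matrix (Fin 2 ⊕ Fin 2) (Fin 2 ⊕ Fin 2) F).mulVec v = v →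
        (φ x : Matrix (Fin 2 ⊕ Fin 2) (Fin 2 ⊕ Fin 2) F).mulVec w = w →
          dotProduct v ((Matrix.J (Fin 2) F).mulVec w) = 0 := by
  classical
  have h3 : (3 : F) = 0 := by
    have := FiniteField.cast_card_eq_zero F
    rw [hF] at this
    exact_mod_cast this
  haveI : Fact (Nat.Prime 5) := ⟨by norm_num⟩
  let V := Fin 2 ⊕ Fin 2 → F
  have hV : Module.finrank F V = 4 := by simp [V]
  let ω : V →ₗ[F] V →ₗ[F] F := Matrix.toBilin' (Matrix.J (Fin 2) F)
  have hω : ∀ v w, ω v w = v ⬝ᵥ (Matrix.J (Fin 2) F *ᵥ w) := fun v w => toBilin'_apply' _ _ _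
  let ρ : Matrix.SpecialLinearGroup (Fin 2) K →* Module.End F V :=
    (Matrix.toLinAlgEquiv' (R := F) (n := Fin 2 ⊕ Fin 2)).toMonoidHom.comp
      ((Matrix.symplecticGroup (Fin 2) F).subtype.comp φ)
  have hρ : ∀ g v, ρ g v = (φ g).1 *ᵥ v := fun g v => rfl
  have hinv : ∀ g v w, ω (ρ g v) (ρ g w) = ω v w := fun g v w => by
    rw [hω, hω, hρ, hρ, mulVec_mulVec, dotProduct_mulVec, vecMul_mulVec, ← dotProduct_mulVec,
      ← Matrix.mul_assoc, SymplecticGroup.mem_iff'.mp (φ g).2]
  have halt : ∀ v w, ω v w = -ω w v := fun v w => by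
    rw [hω, hω, dotProduct_mulVec, ← mulVec_transpose, J_transpose, neg_mulVec, neg_dotProduct,
      dotProduct_comm]
  have hnd : ∀ v, (∀ w, ω v w = 0) → v = 0 := fun v h => by
    refine dotProduct_eq_zero_iff.mp fun u => ?_
    have := h (-(Matrix.J (Fin 2) F *ᵥ u))
    rwa [hω, mulVec_neg, mulVec_mulVec, J_squared, neg_mulVec, neg_neg, one_mulVec] at this
  have hx3 : x ^ 3 = 1 := hx ▸ pow_orderOf_eq_one x
  have hsq := sq_zero h3 hV ω hnd halt (ρ x) (by rw [← map_pow, hx3, map_one]) (hinv x)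
  set N := ρ x - 1 with hN
  have hrk : LinearMap.range N ≤ LinearMap.ker N := by
    rintro _ ⟨u, rfl⟩
    exact congrArg (fun f : Module.End F V => f u) ((pow_two N).symm.trans hsq)
  have hrn := LinearMap.finrank_range_add_finrank_ker N
  have hle := Submodule.finrank_mono hrk
  -- no fixed vectors for elements of order five
  have h5 : ∀ s : Matrix.SpecialLinearGroup (Fin 2) K, orderOf s = 5 →
      Module.finrank F (LinearMap.ker (ρ s - 1)) < 2 := by
    intro s hs
    letI : MulAction (Matrix.SpecialLinearGroup (Fin 2) K) V := MulAction.compHom V ρ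
    have h1 := H9.dvd_card_of_semiregular (α := V) (zpowers s) (fun v => ¬ v ∈ LinearMap.ker (ρ s - 1))
      (fun w hw v hv e => hv (by
        obtain ⟨k, rfl⟩ := hw
        have e1 : s • s ^ k • v = s ^ k • v := sub_eq_zero.mp e
        have : s * s ^ k = s ^ k * s := (Commute.refl s).zpow_right k
        rw [← mul_smul, this, mul_smul] at e1
        exact sub_eq_zero.mpr (smul_left_cancel _ e1)))
      (fun v hv w hw e => by
        by_contra hne
        apply hv
        have h4 : s ∈ zpowers w := mem_zpowers_of_prime_card (p := 5)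
          (G := zpowers s) (by rw [Nat.card_zpowers, hs]) (g := ⟨w, hw⟩)
          (g' := ⟨s, mem_zpowers s⟩) (fun h => hne (congrArg Subtype.val h)) |> fun ⟨k, hk⟩ =>
            ⟨k, congrArg Subtype.val hk⟩
        have h6 : s ∈ MulAction.stabilizer _ v :=
          (zpowers_le.mpr (MulAction.mem_stabilizer_iff.mpr e)) h4
        exact sub_eq_zero.mpr h6)
    rw [Nat.card_zpowers, hs, Nat.card_eq_fintype_card, Fintype.card_subtype_compl,
      Module.card_eq_pow_finrank (K := F) (V := V),
      Module.card_eq_pow_finrank (K := F) (V := LinearMap.ker (ρ s - 1)), hF, hV] at h1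
    have h2 : Module.finrank F (LinearMap.ker (ρ s - 1)) ≠ 4 := fun e => by
      have e1 := Submodule.eq_top_of_finrank_eq (e.trans hV.symm)
      rw [LinearMap.ker_eq_top, sub_eq_zero] at e1
      have e2 : φ s = 1 := Subtype.ext (Matrix.toLinAlgEquiv'.injective (e1.trans (map_one _).symm))
      rw [(injective_iff_map_eq_one φ).mp hφ s e2, orderOf_one] at hs
      omega
    have h7 := Submodule.finrank_le (LinearMap.ker (ρ s - 1))
    rw [hV] at h7
    interval_cases Module.finrank F (LinearMap.ker (ρ s - 1)) <;> omega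
  have hk : Module.finrank F (LinearMap.ker N) ≤ 2 := by
    by_contra hc
    let e := H2.slCongr (n := Fin 2) (ZMod.ringEquivOfPrime K (by norm_num) hK).symm
    obtain ⟨g', hg1, hg2⟩ := key5 (e x) (by rw [← map_pow, hx3, map_one]) (fun h => by
      rw [(MulEquiv.map_eq_one_iff e).mp h, orderOf_one] at hx; omega)
    obtain ⟨g, rfl⟩ := e.surjective g'
    have hs : orderOf ((x * (g * x * g⁻¹)) ^ 2) = 5 := by
      refine orderOf_eq_prime (e.injective (by simpa using hg1)) fun h => hg2 ?_
      have := congrArg e h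
      simpa using this
    have h6 := h5 _ hs
    let gg : V ≃ₗ[F] V := LinearEquiv.ofLinear (ρ g) (ρ g⁻¹)
      (by rw [← Module.End.mul_eq_comp, ← map_mul, mul_inv_cancel, map_one]; rfl)
      (by rw [← Module.End.mul_eq_comp, ← map_mul, inv_mul_cancel, map_one]; rfl)
    have h7 : LinearMap.ker N ⊓ (LinearMap.ker N).map gg.toLinearMap ≤
        LinearMap.ker (ρ ((x * (g * x * g⁻¹)) ^ 2) - 1) := by
      rintro v ⟨h1, u, h2, h3⟩
      have e1 : ρ x v = v := sub_eq_zero.mp h1
      have e2 : ρ x u = u := sub_eq_zero.mp h2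
      have e3 : ρ g u = v := h3
      have e4 : ρ g⁻¹ v = u := by
        rw [← e3, ← Module.End.mul_apply, ← map_mul, inv_mul_cancel, map_one]; rfl
      have e5 : ρ (x * (g * x * g⁻¹)) v = v := by
        simp only [map_mul, Module.End.mul_apply, e4, e2, e3, e1]
      refine sub_eq_zero.mpr ?_
      show ρ _ v = v
      rw [pow_two, map_mul, Module.End.mul_apply, e5, e5]
    have h8 := Submodule.finrank_mono h7
    have h9 := Submodule.finrank_sup_add_finrank_inf_eq (LinearMap.ker N)
      ((LinearMap.ker N).map gg.toLinearMap)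
    have h10 := Submodule.finrank_le (LinearMap.ker N ⊔ (LinearMap.ker N).map gg.toLinearMap)
    rw [LinearEquiv.finrank_map_eq] at h9
    omega
  refine ⟨(by omega : Module.finrank F (LinearMap.ker N) = 2), fun v w hv hw => ?_⟩
  have heq : LinearMap.range N = LinearMap.ker N := Submodule.eq_of_le_of_finrank_le hrk (by omega)
  obtain ⟨u, hu⟩ : w ∈ LinearMap.range N := heq ▸ sub_eq_zero.mpr hw
  have e1 : ρ x v = v := hv
  rw [← hω, ← hu]
  show ω v (ρ x u - u) = 0
  rw [map_sub, ← hinv x v u, e1, sub_self]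

end Cfsg.Agent.S3213
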