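import Cfsg.Statements.S3215
import Cfsg.Agent.H9.Hall

set_option autoImplicit false
open Cfsg

namespace Cfsg.Agent.S3215

open Subgroup

/-- Let H be a finite solvable group with no nontrivial normal subgroup of odd order in which the centralizer of every involution has a normal 2-complement. Let X be a Hall 2'-subgroup of H (odd order, index a power of 2) and Y = O₂(H). Then no non-identity element of X commutes with a non-identity element of Y (so for X ≠ 1 the group XY is a Frobenius group with kernel Y), every Sylow subgroup of X is cyclic, XY is normal in H, and H/XY is a cyclic 2-group. -/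
theorem result {H : Type*} [Group H] [Finite H] (hsol : Group.IsSolvable H)
    (hO : Cfsg.oddCore H = ⊥)
    (hI : ∀ t : H, orderOf t = 2 → Cfsg.HasNormalPComplement 2 ↥(Subgroup.centralizer ({t} : Set H)))
    (X : Subgroup H) (hXodd : Odd (Nat.card X)) (hXidx : ∃ k : ℕ, X.index = 2 ^ k) :
    (∀ x ∈ X, x ≠ 1 → ∀ y ∈ Cfsg.pCore 2 H, y ≠ 1 → x * y ≠ y * x) ∧
      (∀ (p : ℕ) [Fact p.Prime] (P : Sylow p ↥X), IsCyclic ↥(P : Subgroup ↥X)) ∧
      (X ⊔ Cfsg.pCore 2 H).Normal ∧
      ∀ hN : (X ⊔ Cfsg.pCore 2 H).Normal, IsCyclic (H ⧸ (X ⊔ Cfsg.pCore 2 H)) ∧ IsPGroup 2 (H ⧸ (X ⊔ Cfsg.pCore 2 H)) := by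
  have : Fact (Nat.Prime 2) := ⟨Nat.prime_two⟩
  have hcon := H5.isPConstrained_of_isSolvable (p := 2) hsol
  have hchar := (H5.isPConstrained_iff_of_eq_bot hO).1 hcon
  have hY := H4.isPGroup_pCore 2 H
  set Y := pCore 2 H with hYdef
  have k1 : ∀ x : H, Odd (orderOf x) → ∀ t, orderOf t = 2 → x ∈ H9.Cen t → x = 1 := by
    intro x ox t ht hx
    have h1 := (H7.hasNormalPComplement_iff.1 (hI t ht)).mem_of_coprime hx ox.coprime_two_right
    rw [← H4.centralizer_zpowers, H5.pPrimeCoreIn_centralizer_eq hcon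
      (H4.isPGroup_zpowers_of_orderOf ht), show pPrimeCore 2 H = ⊥ from hO] at h1
    exact h1.1
  have k2 : ∀ x : H, Odd (orderOf x) → x ≠ 1 → Odd (Nat.card (H9.Cen x)) := by
    intro x ox x1
    rw [← Nat.not_even_iff_odd, even_iff_two_dvd]
    intro h
    obtain ⟨t, ht, ot⟩ := H9.exists_mem_orderOf _ 2 h
    exact x1 (k1 x ox t ot (H9.mem_Cen_comm.1 ht))
  have k3 : ∀ x : H, Odd (orderOf x) → x ≠ 1 → Y ⊓ H9.Cen x = ⊥ := fun x ox x1 =>
    H4.inf_eq_bot_of_pGroup_coprime hY (k2 x ox x1).coprime_two_right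
  have oX : ∀ x ∈ X, Odd (orderOf x) := fun x hx =>
    hXodd.of_dvd_nat (H9.orderOf_dvd_card_of_mem hx)
  have k4 : ∀ (p : ℕ) [Fact p.Prime], p ≠ 2 → ∀ A : Subgroup H, IsElementaryAbelian p A →
      Nat.card A < p ^ 2 := by
    intro p hp hp2 A hA
    by_contra hlt
    have h1 : Y ≤ ⊥ := H5.le_of_centralizer_singleton_of_elem hA (not_lt.1 hlt)
      le_normalizer_of_normal (by
        obtain ⟨k, hk⟩ := IsPGroup.iff_card.1 hY
        rw [hk]
        exact fun h => hp2 ((Nat.prime_dvd_prime_iff_eq hp.out Nat.prime_two).1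
          (hp.out.dvd_of_dvd_pow h)))
      (fun a ha a1 => (k3 a (H5.orderOf_eq_of_elem hA ha a1 ▸ hp.out.odd_of_ne_two hp2) a1).le)
    have h2 : A ≤ ⊥ := le_trans (fun a _ => hchar (mem_centralizer_iff.2 fun y hy => by
      rw [mem_bot.1 (h1 hy), one_mul, mul_one])) h1
    have h3 := card_le_of_le h2
    rw [card_bot] at h3
    have := hp.out.two_le
    nlinarith
  let f := QuotientGroup.mk' Y
  have hf : Function.Surjective f := QuotientGroup.mk'_surjective _
  have hk : f.ker = Y := QuotientGroup.ker_mk' _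
  obtain ⟨k, hXk⟩ := hXidx
  -- a normal subgroup inside `XY` with cyclic quotient
  have main : ∃ a : H, ∀ g : H, ∃ n : ℤ, (a ^ n)⁻¹ * g ∈ X ⊔ Y ∧
      ∀ h : H, h * g * h⁻¹ * g⁻¹ ∈ X ⊔ Y := by
    rcases subsingleton_or_nontrivial (H ⧸ Y) with hs | hs
    · have : ∀ g : H, g ∈ X ⊔ Y := fun g => mem_sup_right (hk ▸ Subsingleton.elim _ _)
      exact ⟨1, fun g => ⟨0, this _, fun h => this _⟩⟩
    obtain ⟨r, N, hr, hN0, hNe, hN⟩ := H5.exists_normal_pgroup (G := H ⧸ Y) inferInstance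
    have : Fact r.Prime := ⟨hr⟩
    have hNp := H5.isPGroup_of_elem hNe
    have hr2 : r ≠ 2 := by
      rintro rfl
      exact hN0 (eq_bot_iff.2 (H4.pCore_quotient_pCore 2 H ▸ H4.le_pCore hN hNp))
    obtain ⟨R, hR⟩ := H5.exists_isSylowOf r (N.comap f)
    have e1 : R.map f = N := by
      rw [hR.map_eq_of_isPGroup f (by rwa [map_comap_eq_self_of_surjective hf]),
        map_comap_eq_self_of_surjective hf]
    have hRY : R ⊓ f.ker = ⊥ := by
      rw [hk, inf_comm]
      exact H4.inf_eq_bot_of_pGroup_coprime hY (H4.coprime_card_of_pGroup hr2 hR.isPGroup)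
    have inj : ∀ a ∈ R, f a = 1 → a = 1 := fun a ha h => by
      rw [← mem_bot, ← hRY]; exact ⟨ha, h⟩
    have hRe : IsElementaryAbelian r R := by
      refine ⟨H5.isMulCommutative_of_forall fun a ha b hb => ?_, fun a ha => ?_⟩
      · rw [← mul_inv_eq_one]
        apply inj _ (mul_mem (mul_mem ha hb) (inv_mem (mul_mem hb ha)))
        rw [map_mul, map_inv, map_mul, map_mul, mul_inv_eq_one]
        exact H5.comm_of_isMulCommutative hNe.1 (e1 ▸ mem_map_of_mem f ha)
          (e1 ▸ mem_map_of_mem f hb)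
      · exact inj _ (pow_mem ha r) (by rw [map_pow]; exact hNe.2 _ (e1 ▸ mem_map_of_mem f ha))
    obtain ⟨x, hx, x1⟩ := (bot_or_exists_ne_one R).resolve_left fun e => hN0 (by
      rw [← e1, e, Subgroup.map_bot])
    have ox := H5.orderOf_eq_of_elem hRe hx x1
    have e2 : zpowers x = R := by
      apply eq_of_le_of_card_ge (zpowers_le.2 hx)
      rw [Nat.card_zpowers, ox]
      obtain ⟨j, hj⟩ := IsPGroup.iff_card.1 hR.isPGroup
      have h1 := k4 r hr2 R hRe
      rw [hj] at h1 ⊢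
      have := (Nat.pow_lt_pow_iff_right hr.one_lt).1 h1
      exact (Nat.pow_le_pow_right hr.pos (Nat.lt_succ_iff.1 this)).trans (pow_one r).le
    have hodd : Odd (orderOf x) := ox ▸ hr.odd_of_ne_two hr2
    have e3 := H5.map_centralizer hf (A := R) (by
      rw [hk]
      exact H5.coprime_card_of_isPGroup hR.isPGroup (by
        obtain ⟨k, hk⟩ := IsPGroup.iff_card.1 hY
        rw [hk]
        exact fun h => hr2 ((Nat.prime_dvd_prime_iff_eq hr Nat.prime_two).1
          (hr.dvd_of_dvd_pow h)))) (Or.inl (H5.isSolvable_of_isPGroup hR.isPGroup))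
    rw [e1] at e3
    have h5 : centralizer (N : Set (H ⧸ Y)) ≤ X.map f := by
      refine H9.le_of_index_dvd_pow ((index_map_dvd X hf).trans hXk.dvd) le_normalizer_of_normal ?_
      rw [← e3, ← e2, ← H9.Cen_eq_centralizer_zpowers]
      exact H4.coprime_card_map (k2 x hodd x1).coprime_two_right f
    have hcN : Nat.card N = r := by
      rw [← e1, ← e2, MonoidHom.map_zpowers, Nat.card_zpowers]
      exact H5.orderOf_eq_of_elem hNe (e1 ▸ mem_map_of_mem f hx) fun h => x1 (inj x hx h)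
    have : IsCyclic N := isCyclic_of_prime_card hcN
    have hcyc : IsCyclic (MulAut N) := by
      have := (IsCyclic.mulAutMulEquiv N).isCyclic
      rw [this, hcN]
      infer_instance
    let φ : H →* MulAut N := (MulAut.conjNormal (H := N)).comp f
    have hφ : ∀ g : H, φ g = 1 → g ∈ X ⊔ Y := by
      intro g hg
      have : f g ∈ X.map f := h5 (mem_centralizer_iff.2 fun n hn => by
        have := congrArg Subtype.val (DFunLike.congr_fun hg ⟨n, hn⟩)
        exact (mul_inv_eq_iff_eq_mul.1 this).symm)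
      rwa [← mem_comap, comap_map_eq, hk] at this
    obtain ⟨⟨_, a, rfl⟩, ha⟩ := IsCyclic.exists_generator (α := φ.range)
    refine ⟨a, fun g => ?_⟩
    obtain ⟨n, hn⟩ := ha ⟨φ g, g, rfl⟩
    refine ⟨n, hφ _ ?_, fun h => hφ _ ?_⟩
    · rw [map_mul, map_inv, map_zpow, inv_mul_eq_one]
      exact congrArg Subtype.val hn
    · rw [map_mul, map_mul, map_mul, map_inv, map_inv, mul_inv_eq_one, mul_inv_eq_iff_eq_mul]
      exact hcyc.isMulCommutative.1.1 _ _
  obtain ⟨a, ha⟩ := main
  refine ⟨fun x hx x1 y hy y1 e => y1 ?_, fun p hp P => ?_, ⟨fun g hg h => ?_⟩, fun hN => ⟨?_, ?_⟩⟩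
  · rw [← mem_bot, ← k3 x (oX x hx) x1]
    exact ⟨hy, H9.mem_Cen.2 e⟩
  · by_cases hp2 : p = 2
    · subst hp2
      rw [H5.eq_bot_of_isPGroup_of_not_dvd P.isPGroup'
        (hXodd.of_dvd_nat (card_subgroup_dvd_card _)).not_two_dvd_nat]
      infer_instance
    by_contra hP
    obtain ⟨A, -, -, hA, hc⟩ := H7.exists_normal_ea_of_not_isCyclic hp2 P.isPGroup' ⊤
      (fun h => hP (topEquiv.isCyclic.1 h))
    let ι : (P : Subgroup X) →* H := X.subtype.comp (P : Subgroup X).subtype
    have hι : Function.Injective ι := Subtype.val_injective.comp Subtype.val_injective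
    refine (k4 p hp2 (A.map ι) ⟨H5.isMulCommutative_of_forall ?_, ?_⟩).ne
      (by rw [card_map_of_injective hι, hc])
    · rintro _ ⟨a, ha, rfl⟩ _ ⟨b, hb, rfl⟩
      rw [← map_mul, H5.comm_of_isMulCommutative hA.1 ha hb, map_mul]
    · rintro _ ⟨a, ha, rfl⟩
      rw [← map_pow, hA.2 a ha, map_one]
  · obtain ⟨n, -, h2⟩ := ha g
    simpa using mul_mem (h2 h) hg
  · refine ⟨a, fun g => ?_⟩
    induction g using QuotientGroup.induction_on with | H g => ?_
    obtain ⟨n, h1, -⟩ := ha g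
    exact ⟨n, QuotientGroup.eq.2 h1⟩
  · obtain ⟨j, -, hj⟩ := (Nat.dvd_prime_pow Nat.prime_two).1
      ((index_dvd_of_le (le_sup_left : X ≤ X ⊔ Y)).trans hXk.dvd)
    exact IsPGroup.of_card hj

end Cfsg.Agent.S3215
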