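import Cfsg.Statements.S3244
import Cfsg.Agent.H4.Trans
import Cfsg.Agent.H3.ZCor
import Cfsg.Agent.H9.Loc2

set_option autoImplicit false
open Cfsg

namespace Cfsg.Agent.S3244

open H4 H5 Subgroup

/-- the involutions `w` with `C(w)` a maximal 2-local subgroup whose `O_2` has cyclic centre -/
structure Good {G : Type*} [Group G] (w : G) : Prop where
  ord : orderOf w = 2
  uniq : ∀ T : Subgroup G, IsSylowOf 2 T (centralizer {w}) → ∀ v ∈ T, v * v = 1 → v ≠ 1 →
    v ∈ centralizer (T : Set G) → v = w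

theorem Good.conj {G : Type*} [Group G] [Finite G] {w : G} (h : Good w) (g : G) :
    Good (g * w * g⁻¹) := by
  refine ⟨by rw [← h.ord]; exact (MulAut.conj g).orderOf_eq w, fun T hT v hv h2 h1 hc => ?_⟩
  have hT' : IsSylowOf 2 (conjS g⁻¹ T) (centralizer {w}) := by
    have := hT.map (MulAut.conj g⁻¹).toMonoidHom
    rwa [← conjS_centralizer_singleton, ← conjS, ← conjS, conjS_inv_conjS] at this
  have := h.uniq _ hT' (g⁻¹ * v * g⁻¹⁻¹) (conj_mem_conjS hv)
    (by rw [show g⁻¹ * v * g⁻¹⁻¹ * (g⁻¹ * v * g⁻¹⁻¹) = g⁻¹ * (v * v) * g by group, h2]; group)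
    (fun e => h1 (by rw [show v = g * (g⁻¹ * v * g⁻¹⁻¹) * g⁻¹ by group, e]; group))
    (by rw [← conjS_centralizer]; exact conj_mem_conjS hc)
  rw [← this]; group

theorem Good.mem {G : Type*} [Group G] [Finite G] {w : G} (h : Good w) {T : Subgroup G}
    (hT : IsSylowOf 2 T (centralizer {w})) : w ∈ T :=
  hT.le_of_le_normalizer (isPGroup_zpowers_of_orderOf h.ord)
    (zpowers_le.mpr (mem_centralizer_singleton_iff.mpr rfl))
    (H4.le_normalizer_of_le_centralizer (by rw [H4.centralizer_zpowers]; exact hT.le)) (mem_zpowers w)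

theorem Good.sylow {G : Type*} [Group G] [Finite G] {w : G} (h : Good w) {T : Subgroup G}
    (hT : IsSylowOf 2 T (centralizer {w})) : IsSylowOf 2 T ⊤ := by
  refine IsSylowOf.of_normalizer (hT.of_le (le_inf le_top Subgroup.le_normalizer) fun g hg => ?_)
  have hw := h.mem hT
  have hc : w ∈ centralizer (T : Set G) := fun y hy => mem_centralizer_singleton_iff.mp (hT.le hy)
  have := h.uniq T hT (g * w * g⁻¹) (conj_mem_of_mem_normalizer hg.2 hw)
    (mul_self_eq_one_of_orderOf (h.conj g).ord) (ne_one_of_orderOf (h.conj g).ord)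
    (conj_mem_of_mem_normalizer (H4.normalizer_le_normalizer_centralizer T hg.2) hc)
  rw [mem_centralizer_singleton_iff]
  calc g * w = g * w * g⁻¹ * g := by group
    _ = w * g := by rw [this]

theorem Good.eq {G : Type*} [Group G] [Finite G]
    (hex : ∀ D : Subgroup G, IsPGroup 2 D → D ≠ ⊥ →
      ∃ w, Good w ∧ normalizer (D : Set G) ≤ centralizer {w}) {D : Subgroup G} (hD : IsPGroup 2 D)
    (h0 : D ≠ ⊥) {v w : G} (hv : Good v) (hw : Good w) (h1 : D ≤ centralizer {v})
    (h2 : D ≤ centralizer {w}) : v = w := by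
  induction D using WellFoundedGT.induction generalizing v w with
  | ind D ih =>
  obtain ⟨u, hu, hN⟩ := hex D hD h0
  have key : ∀ v, Good v → D ≤ centralizer {v} → v = u := fun v hv h1 => by
    obtain ⟨T, hT, hDT⟩ := exists_isSylowOf_ge hD h1
    rcases hDT.eq_or_lt with rfl | hlt
    · have hT' : IsSylowOf 2 D (centralizer {u}) :=
        (hv.sylow hT).of_le (Subgroup.le_normalizer.trans hN) le_top
      exact hu.uniq D hT' v (hv.mem hT) (mul_self_eq_one_of_orderOf hv.ord)
        (ne_one_of_orderOf hv.ord) fun y hy => mem_centralizer_singleton_iff.mp (hT.le hy)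
    · have hlt' := lt_inf_normalizer_of_isPGroup hT.isPGroup hlt
      exact ih _ hlt' (hT.isPGroup.to_le inf_le_left) (ne_bot_of_gt hlt') hv hu
        (inf_le_left.trans hT.le) (inf_le_right.trans hN)
  exact (key v hv h1).trans (key w hw h2).symm

theorem eq_of_isCyclic {G : Type*} [Group G] [Finite G] {Z : Subgroup G} (hZ : IsCyclic Z) {a b : G}
    (ha : a ∈ Z) (hb : b ∈ Z) (ha2 : a * a = 1) (hb2 : b * b = 1) (ha1 : a ≠ 1) (hb1 : b ≠ 1) :
    a = b := by
  by_contra hne
  have hab : a * b = b * a := congrArg Subtype.val (mul_comm' (⟨a, ha⟩ : Z) ⟨b, hb⟩)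
  exact not_isCyclic_of_elem (elem_four ha2 hb2 hab) (le_card_four ha2 hb2 hab ha1 hb1 hne)
    (H9.isCyclic_of_le (four_le ha2 hb2 hab ha hb) hZ)

/-- Say that a finite group G is of characteristic 2 type in the early sense when a Sylow 2-subgroup S of G has a self-centralizing normal subgroup of rank at least 3, S normalizes no nontrivial subgroup of odd order, and every 2-local subgroup of G is 2-constrained. If G is a non-abelian simple group of characteristic 2 type in this sense, then for some maximal 2-local subgroup M of G the centre of O₂(M) is not cyclic. -/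
theorem result {G : Type*} [Group G] [Finite G] [IsSimpleGroup G]
    (hG : ¬ IsMulCommutative G) (S : Sylow 2 G) (A : Subgroup G) (hA : Cfsg.IsSCN (S : Subgroup G) A) (hA3 : ¬ Cfsg.PRankLE 2 2 ↥A)
    (hinv : ∀ X : Subgroup G, Odd (Nat.card ↥X) → (S : Subgroup G) ≤ Subgroup.normalizer (X : Set G) → X = ⊥)
    (hcon : ∀ T : Subgroup G, IsPGroup 2 ↥T → T ≠ ⊥ → Cfsg.IsPConstrained 2 ↥(Subgroup.normalizer (T : Set G))) :
    ∃ M : Subgroup G, Cfsg.IsMaximalTwoLocal M ∧ ¬ IsCyclic ↥(Subgroup.center ↥(Cfsg.pCore 2 ↥M)) := by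
  open H4 H5 Subgroup in
  by_contra! hcyc
  have hcon' : ∀ a : G, orderOf a = 2 → IsPConstrained 2 (centralizer ({a} : Set G)) := fun a ha => by
    have h := hcon (zpowers a) (isPGroup_zpowers_of_orderOf ha)
      (by rw [Ne, zpowers_eq_bot]; exact ne_one_of_orderOf ha)
    refine H9.isPConstrained_in_between h (isPGroup_zpowers_of_orderOf ha) Subgroup.le_normalizer ?_
      (H4.centralizer_zpowers a).le ?_ (Or.inr (H4.centralizer_zpowers a).ge) <;>
    exact H4.le_normalizer_of_le_centralizer (H4.centralizer_zpowers a).ge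
  have hO : ∀ t : G, orderOf t = 2 → pPrimeCoreIn 2 (centralizer ({t} : Set G)) = ⊥ := fun t ht =>
    core_eq_bot_of_scn S hA hA3 (fun X hX => hinv X (Nat.odd_iff.mpr (by omega))) hcon' ht
  have hex : ∀ D : Subgroup G, IsPGroup 2 D → D ≠ ⊥ →
      ∃ w, Good w ∧ normalizer (D : Set G) ≤ centralizer {w} := fun D hD h0 => by
    obtain ⟨M, hM, hDM, hmax⟩ := H9.exists_maximal_ge IsTwoLocal (H := normalizer (D : Set G))
      ⟨D, hD, h0, rfl⟩
    have hZ : IsCyclic (pCoreIn 2 M ⊓ centralizer (pCoreIn 2 M : Set G) : Subgroup G) := by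
      rw [← map_center_subtype]
      have h1 := hcyc M ⟨hM, hmax⟩
      have e := (pCore 2 M).equivMapOfInjective M.subtype M.subtype_injective
      exact H9.isCyclic_map _ (isCyclic_of_surjective (centerCongr e) (centerCongr e).surjective)
    obtain ⟨R, hR, hR0, hMR⟩ := hM
    have hRQ : R ≤ pCoreIn 2 M := le_pCoreIn (hMR ▸ Subgroup.le_normalizer) hMR.le hR
    have hQ := isPGroup_pCoreIn 2 M
    obtain ⟨w, hw, hw1, hw2, hwc⟩ := H7.exists_fixed_order_p hQ hQ Subgroup.le_normalizer
      (fun e => hR0 (le_bot_iff.mp (e ▸ hRQ)))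
    have hwZ : w ∈ pCoreIn 2 M ⊓ centralizer (pCoreIn 2 M : Set G) :=
      ⟨hw, fun y hy => hwc y (mem_sup_left hy)⟩
    have hww : w * w = 1 := by rw [← pow_two, hw2]
    have ho := orderOf_eq_two' hww hw1
    have hMw : M ≤ centralizer {w} := fun m hm => by
      have hn := H4.le_normalizer_inf (le_normalizer_pCoreIn 2 M)
        (H4.le_normalizer_centralizer (le_normalizer_pCoreIn 2 M)) hm
      have := eq_of_isCyclic hZ (conj_mem_of_mem_normalizer hn hwZ) hwZ
        (by rw [show m * w * m⁻¹ * (m * w * m⁻¹) = m * (w * w) * m⁻¹ by group, hww]; group) hww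
        (fun e => hw1 (by rw [show w = m⁻¹ * (m * w * m⁻¹) * m by group, e]; group)) hw1
      rw [mem_centralizer_singleton_iff]
      calc m * w = m * w * m⁻¹ * m := by group
        _ = w * m := by rw [this]
    have hle : centralizer ({w} : Set G) ≤ normalizer (zpowers w : Set G) :=
      H4.le_normalizer_of_le_centralizer (H4.centralizer_zpowers w).ge
    have hMe : M = centralizer {w} := le_antisymm hMw (hle.trans (hmax _
      ⟨zpowers w, isPGroup_zpowers_of_orderOf ho, by rw [Ne, zpowers_eq_bot]; exact hw1, rfl⟩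
      (hMw.trans hle)).le)
    refine ⟨w, ⟨ho, fun T hT v hv h2 h1 hc => ?_⟩, hDM.trans hMw⟩
    have hch := centralizer_pCore_le_iff_in.mp ((isPConstrained_iff_of_eq_bot
      (pPrimeCoreIn_eq_bot_iff.mp (hO w ho))).mp (hcon' w ho))
    rw [← hMe] at hch hT
    have hQT : pCoreIn 2 M ≤ T := hT.le_of_le_normalizer hQ (pCoreIn_le 2 M)
      (hT.le.trans (le_normalizer_pCoreIn 2 M))
    have hc' : v ∈ centralizer (pCoreIn 2 M : Set G) := centralizer_anti hQT hc
    exact eq_of_isCyclic hZ ⟨hch ⟨hT.le hv, hc'⟩, hc'⟩ hwZ h2 hww h1 hw1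
  have hS0 : (S : Subgroup G) ≠ ⊥ := fun e => hA3 (by
    rw [pRankLE_iff]
    intro E hE _
    rw [le_bot_iff.mp (hE.trans (hA.1.trans e.le)), card_bot]
    norm_num)
  obtain ⟨w, hw, -⟩ := hex S S.isPGroup' hS0
  refine hG ⟨⟨H3.comm_of_isolated hw.ord fun g hg => ?_⟩⟩
  exact (Good.eq hex (isPGroup_zpowers_of_orderOf hw.ord)
    (by rw [Ne, zpowers_eq_bot]; exact ne_one_of_orderOf hw.ord) (hw.conj g) hw
    (zpowers_le.mpr (mem_centralizer_singleton_iff.mpr hg))
    (zpowers_le.mpr (mem_centralizer_singleton_iff.mpr rfl)))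

end Cfsg.Agent.S3244
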