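import Cfsg.Statements.S3246
import Cfsg.Agent.H9.Loc2

set_option autoImplicit false
open Cfsg

namespace Cfsg.Agent.S3246

open Subgroup

/-- Let G be a finite group whose Sylow 2-subgroup S has a self-centralizing normal subgroup of rank at least 3. Suppose that either every maximal 2-local subgroup of G is 2-constrained with no nontrivial normal subgroup of odd order, or the centralizer of every involution of G is 2-constrained with no nontrivial normal subgroup of odd order. Then S normalizes no nontrivial subgroup of G of odd order and every 2-local subgroup of G is 2-constrained. -/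
theorem result {G : Type*} [Group G] [Finite G]
    (S : Sylow 2 G) (A : Subgroup G) (hA : Cfsg.IsSCN (S : Subgroup G) A) (hA3 : ¬ Cfsg.PRankLE 2 2 ↥A)
    (h : (∀ M : Subgroup G, Cfsg.IsMaximalTwoLocal M → Cfsg.IsPConstrained 2 ↥M ∧ Cfsg.oddCore ↥M = ⊥) ∨
      (∀ t : G, orderOf t = 2 → Cfsg.IsPConstrained 2 ↥(Subgroup.centralizer ({t} : Set G)) ∧
        Cfsg.oddCore ↥(Subgroup.centralizer ({t} : Set G)) = ⊥)) :
    (∀ X : Subgroup G, Odd (Nat.card ↥X) → (S : Subgroup G) ≤ Subgroup.normalizer (X : Set G) → X = ⊥) ∧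
      (∀ T : Subgroup G, IsPGroup 2 ↥T → T ≠ ⊥ → Cfsg.IsPConstrained 2 ↥(Subgroup.normalizer (T : Set G))) := by
  have : Fact (Nat.Prime 2) := ⟨Nat.prime_two⟩
  have hmax : ∀ T : Subgroup G, IsPGroup 2 T → T ≠ ⊥ →
      ∃ M, IsMaximalTwoLocal M ∧ normalizer (T : Set G) ≤ M := fun T hT hT1 => by
    obtain ⟨M, h1, h2, h3⟩ := H9.exists_maximal_ge IsTwoLocal ⟨T, hT, hT1, rfl⟩
    exact ⟨M, ⟨h1, h3⟩, h2⟩
  have hchar : ∀ t : G, orderOf t = 2 → H9.Cen t ⊓ centralizer (H4.pCoreIn 2 (H9.Cen t) : Set G) ≤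
      H4.pCoreIn 2 (H9.Cen t) := by
    intro t ht
    rcases h with h | h
    · obtain ⟨M, h1, h2⟩ := hmax (zpowers t) (H4.isPGroup_zpowers_of_orderOf ht)
        (by rw [Ne, zpowers_eq_bot]; exact H9.ne_one_of_orderOf ht (by norm_num))
      exact H9.char_of_le (h M h1).1 (h M h1).2 (H4.isPGroup_zpowers_of_orderOf ht)
        (le_normalizer.trans h2) ((H9.Cen_le_Nor t).trans h2)
        (H9.Cen_eq_centralizer_zpowers t).ge (H9.Cen_le_Nor t) (Or.inl (H9.zpowers_le_Cen t))
    · exact H5.centralizer_pCore_le_iff_in.1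
        ((H5.isPConstrained_iff_of_eq_bot (h t ht).2).1 (h t ht).1)
  refine ⟨fun X hX hSX => ?_, fun T hT hT1 => ?_⟩
  · obtain ⟨U₀, hn, hU₀, hc⟩ := H7.exists_normal_ea_of_rank S.isPGroup'
      (fun h => hA3 (H9.prankLE_of_injective (inclusion hA.1) (inclusion_injective _) h))
    set U := U₀.map (S : Subgroup G).subtype with hU
    have hUS : U ≤ S := map_subtype_le _
    have hSU : (S : Subgroup G) ≤ normalizer (U : Set G) := H4.le_normalizer_map_subtype U₀
    have hUc : Nat.card U = 2 ^ 2 := by rw [hU, card_subtype, hc]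
    have hUe : IsElementaryAbelian 2 U := by
      refine ⟨H5.isMulCommutative_of_forall ?_, ?_⟩
      · rintro _ ⟨a, ha, rfl⟩ _ ⟨b, hb, rfl⟩
        rw [← map_mul, H5.comm_of_isMulCommutative hU₀.1 ha hb, map_mul]
      · rintro _ ⟨a, ha, rfl⟩
        rw [← map_pow, hU₀.2 a ha, map_one]
    rw [eq_bot_iff]
    refine H5.le_of_centralizer_singleton_of_elem hUe hUc.ge (hUS.trans hSX) hX.not_two_dvd_nat ?_
    intro u hu hu1
    have ou := H5.orderOf_eq_of_elem hUe hu hu1
    set S₀ := (S : Subgroup G) ⊓ H9.Cen u with hS₀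
    set Q := H4.pCoreIn 2 (H9.Cen u) with hQ
    have hQp : IsPGroup 2 Q := H4.isPGroup_pCoreIn 2 _
    have hS₀Q : S₀ ≤ normalizer (Q : Set G) := inf_le_right.trans (H4.le_normalizer_pCoreIn 2 _)
    have c1 : Nat.card S ≤ 2 * Nat.card S₀ := by
      have e := H7.card_inf_mul_relIndex (H9.Cen u) S
      rw [inf_comm, ← hS₀] at e
      obtain ⟨k, hk⟩ := S.isPGroup'.index ((H9.Cen u).subgroupOf S)
      have h3 : (H9.Cen u).relIndex S ≤ 3 := by
        have h4 := H9.card_subtype_mem_ne_one U
        have h5 : ((H9.Cen u).subgroupOf S) = H9.Cen (⟨u, hUS hu⟩ : (S : Subgroup G)) := by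
          ext g
          rw [mem_subgroupOf, H9.mem_Cen, H9.mem_Cen]
          exact ⟨fun h => Subtype.ext h, fun h => congrArg Subtype.val h⟩
        rw [relIndex, h5, ← H9.card_class]
        have : Nat.card {g : (S : Subgroup G) // IsConj (⟨u, hUS hu⟩ : (S : Subgroup G)) g} ≤
            Nat.card {g : G // g ∈ U ∧ g ≠ 1} := by
          refine Nat.card_le_card_of_injective (fun g => ⟨g.1.1, ?_⟩) ?_
          · obtain ⟨c, hc⟩ := isConj_iff.1 g.2
            rw [← hc]
            exact ⟨(mem_normalizer_iff.1 (hSU c.2) u).1 hu, fun e => hu1 (conj_eq_one_iff.1 e)⟩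
          · intro a b e
            exact Subtype.ext (Subtype.ext (Subtype.mk.inj e))
        omega
      change (H9.Cen u).relIndex S = _ at hk
      have h2 : (H9.Cen u).relIndex S ≤ 2 := by
        rw [hk] at h3 ⊢
        rcases k with _ | _ | k
        · norm_num
        · norm_num
        · rw [pow_succ, pow_succ] at h3
          have : 0 < 2 ^ k := by positivity
          omega
      rw [← e, mul_comm]
      exact Nat.mul_le_mul_right _ h2
    have c2 : Nat.card ↥(S₀ ⊔ Q) ≤ Nat.card S := (H5.isSylowOf_top S).card_le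
      (IsPGroup.to_sup_of_normal_right' (S.isPGroup'.to_le inf_le_left) hQp hS₀Q) le_top
    have c3 := H7.card_sup_mul_card_inf hS₀Q
    have c4 : Nat.card Q ≤ 2 * Nat.card ↥(S₀ ⊓ Q) := by
      have hpos : 0 < Nat.card S₀ := Nat.card_pos
      apply Nat.le_of_mul_le_mul_left _ hpos
      rw [← c3, ← mul_assoc, mul_comm _ 2]
      exact Nat.mul_le_mul_right _ (c2.trans c1)
    have hW : Odd (Nat.card ↥(X ⊓ H9.Cen u)) := hX.of_dvd_nat (card_dvd_of_le inf_le_left)
    have hWQ : X ⊓ H9.Cen u ≤ normalizer (Q : Set G) :=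
      inf_le_right.trans (H4.le_normalizer_pCoreIn 2 _)
    have h5 := H9.le_centralizer_of_two hQp c4 hW hWQ (by
      rw [← commutator_eq_bot_iff_le_centralizer, eq_bot_iff,
        ← H4.inf_eq_bot_of_pGroup_coprime hQp hW.coprime_two_right, le_inf_iff]
      refine ⟨(commutator_mono inf_le_right le_rfl).trans
        (H5.commutator_le_left_of_le_normalizer hWQ), ?_⟩
      rw [commutator_comm]
      exact H5.commutator_le_left_of_le_normalizer (inf_le_left.trans (H4.le_normalizer_inf
        (inf_le_left.trans hSX) (inf_le_right.trans le_normalizer))))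
    rw [← H4.inf_eq_bot_of_pGroup_coprime hQp hW.coprime_two_right]
    exact le_inf ((le_inf inf_le_right (le_centralizer_iff.1 h5)).trans (hchar u ou)) le_rfl
  · rcases h with h | h
    · obtain ⟨M, h1, h2⟩ := hmax T hT hT1
      exact H9.isPConstrained_normalizer_of_le (h M h1).1 hT h2
    · exact H9.isPConstrained_normalizer_of_elements (fun t ht => (h t ht).1) hT hT1

end Cfsg.Agent.S3246
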