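import Cfsg.Statements.S3265
import Cfsg.Agent.H8.SymG

set_option autoImplicit false
open Cfsg

namespace Cfsg.Agent.S3265

/-- Let n ≥ 5 and let X be a conjugacy class of involutions of the symmetric group of degree n. The graph on X joining two distinct involutions whose product has odd order is connected and has diameter exactly 2. -/
theorem result (n : ℕ) (hn : 5 ≤ n) (t : Equiv.Perm (Fin n)) (ht : orderOf t = 2) :
    (SimpleGraph.fromRel fun x y : {x : Equiv.Perm (Fin n) // IsConj t x} =>
        Odd (orderOf (x.1 * y.1))).Connected ∧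
      (SimpleGraph.fromRel fun x y : {x : Equiv.Perm (Fin n) // IsConj t x} =>
        Odd (orderOf (x.1 * y.1))).diam = 2 := by
  have h5 : 5 ≤ Fintype.card (Fin n) := by simpa using hn
  have t2 : t * t = 1 := by rw [← sq, ← ht, pow_orderOf_eq_one]
  have hsq : ∀ x, IsConj t x → x * x = 1 := fun x hx => by
    obtain ⟨g, rfl⟩ := isConj_iff.mp hx
    rw [conj_mul, t2]; simp
  refine H8.fusGraph t2 (fun x y hx hy =>
    H8.SymG.exists_mid h5 (hsq x hx) (hsq y hy) (hx.symm.trans hy)) ?_
  obtain ⟨y, h1, h2⟩ := H8.SymG.exists_even h5 t2 (by rintro rfl; simp at ht)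
  exact ⟨t, y, IsConj.refl t, h1, h2⟩

end Cfsg.Agent.S3265
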