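import Cfsg.Statements.S3266
import Cfsg.Agent.H8.FusGraph
import Cfsg.Agent.H3.SLTwo

set_option autoImplicit false
open Cfsg

namespace Cfsg.Agent.S3266

open Matrix Subgroup MatrixGroups Finset

section
variable {F : Type*} [Field F]

/-- the trace -/
def tr (g : SL(2, F)) : F := g 0 0 + g 1 1

/-- the projection -/
abbrev pr : SL(2, F) →* Matrix.ProjectiveSpecialLinearGroup (Fin 2) F := QuotientGroup.mk' _

theorem det' (g : SL(2, F)) : g 0 0 * g 1 1 - g 0 1 * g 1 0 = 1 := by
  have := g.2; rwa [det_fin_two] at this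

theorem ch (g : SL(2, F)) : g.1 * g.1 = tr g • g.1 - 1 := by
  have := det' g
  ext i j
  fin_cases i <;> fin_cases j <;> simp [tr, mul_apply, Fin.sum_univ_two] <;> grind

theorem pr_eq_one {g : SL(2, F)} {e : F} (h : g.1 = e • 1) : pr g = 1 := by
  refine (QuotientGroup.eq_one_iff g).mpr (mem_center_iff.mpr fun k => Subtype.ext ?_)
  show k.1 * g.1 = g.1 * k.1
  rw [h]; simp

theorem odd_of_pow {g : SL(2, F)} {e : F} {n : ℕ} (hn : Odd n) (h : g.1 ^ n = e • 1) :
    Odd (orderOf (pr g)) :=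
  hn.of_dvd_nat (orderOf_dvd_of_pow_eq_one (by rw [← map_pow]; exact pr_eq_one h))

theorem pow_split {g : SL(2, F)} {u v : F} (h1 : tr g = u + v) (h2 : u * v = 1) (n : ℕ) :
    (u - v) • g.1 ^ (n + 1) = (u ^ (n + 1) - v ^ (n + 1)) • g.1 - (u ^ n - v ^ n) • 1 := by
  induction n with
  | zero => simp
  | succ n ih =>
    rw [pow_succ g.1, ← smul_mul_assoc, ih, sub_mul, smul_mul_assoc, smul_mul_assoc, ch, one_mul, h1]
    match_scalars
    · linear_combination (u ^ n - v ^ n) * h2
    · ring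

theorem odd_split {g : SL(2, F)} {u v : F} (h1 : tr g = u + v) (h2 : u * v = 1) (huv : u ≠ v)
    {n : ℕ} (hn : Odd n) (h3 : u ^ n = v ^ n) : Odd (orderOf (pr g)) := by
  obtain ⟨k, rfl⟩ := hn
  refine odd_of_pow ⟨k, rfl⟩ (e := u ^ (2 * k + 1)) ?_
  have h4 := pow_split h1 h2 (2 * k)
  apply smul_right_injective _ (sub_ne_zero.mpr huv)
  simp only
  rw [h4, h3]
  match_scalars
  · ring
  · linear_combination (u ^ (2 * k) - v ^ (2 * k)) * h2 - v * h3 - u * h3 + u * h3

theorem odd_unip [Fintype F] (hF : Odd (Fintype.card F)) {g : SL(2, F)} {e : F} (he : e * e = 1)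
    (h : tr g = 2 * e) : Odd (orderOf (pr g)) := by
  have key : ∀ n : ℕ, g.1 ^ n = e ^ n • (1 : Matrix (Fin 2) (Fin 2) F) +
      (n * e ^ (n + 1)) • (g.1 - e • 1) := fun n => by
    induction n with
    | zero => simp
    | succ n ih =>
      rw [pow_succ g.1, ih, add_mul, smul_mul_assoc, smul_mul_assoc, sub_mul, ch, h,
        smul_mul_assoc, one_mul]
      push_cast
      match_scalars
      · linear_combination (-e ^ n) * he
      · linear_combination (e ^ (n + 1) + n * e ^ (n + 1)) * he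
  refine odd_of_pow hF (e := e ^ Fintype.card F) ?_
  rw [key, FiniteField.cast_card_eq_zero]; simp

theorem exists_pow (g : SL(2, F)) (n : ℕ) : ∃ a b : F, g.1 ^ n = a • g.1 + b • 1 := by
  induction n with
  | zero => exact ⟨0, 1, by simp⟩
  | succ n ih =>
    obtain ⟨a, b, h⟩ := ih
    refine ⟨a * tr g + b, -a, ?_⟩
    rw [pow_succ, h, add_mul, smul_mul_assoc, smul_mul_assoc, ch, one_mul]
    module

theorem tr_eq_zero {g : SL(2, F)} (h : pr g * pr g = 1) (h1 : pr g ≠ 1) : tr g = 0 := by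
  by_contra hc
  rw [← map_mul] at h
  obtain ⟨r, -, hr⟩ := Matrix.SpecialLinearGroup.mem_center_iff.mp ((QuotientGroup.eq_one_iff _).mp h)
  have h2 : g.1 * g.1 = r • 1 := by
    show (g * g).1 = _
    rw [← hr]; ext i j; simp [diagonal_apply, one_apply]
  refine h1 (pr_eq_one (e := (r + 1) / tr g) ?_)
  apply smul_right_injective _ hc
  rw [ch] at h2
  simp only
  rw [sub_eq_iff_eq_add.mp h2]
  match_scalars
  field_simp

theorem sq_of_tr {g : SL(2, F)} (h : tr g = 0) : pr g * pr g = 1 := by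
  rw [← map_mul]
  refine pr_eq_one (e := -1) ?_
  show g.1 * g.1 = _
  rw [ch, h]; simp

theorem odd_two [Finite F] (h2 : (2 : F) = 0) {g : SL(2, F)} (h : tr g ≠ 0) :
    Odd (orderOf (pr g)) := by
  rw [← Nat.not_even_iff_odd]
  rintro ⟨k, hk⟩
  have hpos := orderOf_pos (pr g)
  have h1 : pr (g ^ k) ≠ 1 := by
    rw [map_pow]; exact pow_ne_one_of_lt_orderOf (by omega) (by omega)
  have h3 := tr_eq_zero (by rw [map_pow, ← pow_add, ← hk, pow_orderOf_eq_one]) h1
  obtain ⟨a, b, hab⟩ := exists_pow g k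
  have h4 : tr (g ^ k) = a * tr g + b * 2 := by
    have : (g ^ k).1 = a • g.1 + b • 1 := hab
    unfold tr
    rw [this]; simp; ring
  rw [h3, h2, mul_zero, add_zero, eq_comm, mul_eq_zero, or_iff_left h] at h4
  exact h1 (pr_eq_one (e := b) (by rw [h4, zero_smul, zero_add] at hab; exact hab))

theorem tr_mul (x y : SL(2, F)) :
    tr (x * y) = x 0 0 * y 0 0 + x 0 1 * y 1 0 + (x 1 0 * y 0 1 + x 1 1 * y 1 1) := by
  simp [tr, mul_apply, Fin.sum_univ_two]

/-- the third vector with prescribed inner products -/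
theorem exists_third (h2 : (2 : F) ≠ 0) {x y : SL(2, F)} (hx : tr x = 0) (hy : tr y = 0) {r s t d : F}
    (hr : tr (x * y) = -2 * r) (h1 : 1 - r ^ 2 ≠ 0)
    (hd : d ^ 2 = 1 - r ^ 2 - s ^ 2 - t ^ 2 + 2 * r * s * t) :
    ∃ z : SL(2, F), tr z = 0 ∧ tr (x * z) = -2 * s ∧ tr (y * z) = -2 * t := by
  have dx := det' x
  have dy := det' y
  rw [tr_mul] at hr
  unfold tr at hx hy
  have ex : x 1 1 = -x 0 0 := by linear_combination hx
  have ey : y 1 1 = -y 0 0 := by linear_combination hy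
  rw [ex] at dx hr
  rw [ey] at dy hr
  generalize hi : (1 - r ^ 2)⁻¹ = i
  have hi' : (1 - r ^ 2) * i = 1 := hi ▸ mul_inv_cancel₀ h1
  generalize hj : (2 : F)⁻¹ = j
  have hj' : 2 * j = 1 := hj ▸ mul_inv_cancel₀ h2
  set a := x 0 0; set b := x 0 1; set c := x 1 0
  set a' := y 0 0; set b' := y 0 1; set c' := y 1 0
  let α := (s - r * t) * i
  let β := (t - r * s) * i
  let γ := d * i * j
  have key : -(α * a + β * a' + γ * (b * c' - b' * c)) ^ 2 -
      (α * b + β * b' + γ * (2 * (a * b' - a' * b))) * (α * c + β * c' + γ * (2 * (c * a' - c' * a))) = 1 := by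
    have e1 : -(α * a + β * a' + γ * (b * c' - b' * c)) ^ 2 -
      (α * b + β * b' + γ * (2 * (a * b' - a' * b))) * (α * c + β * c' + γ * (2 * (c * a' - c' * a))) =
        α ^ 2 * (-a ^ 2 - b * c) + β ^ 2 * (-a' ^ 2 - b' * c') -
          α * β * (2 * a * a' + b * c' + c * b') +
          γ ^ 2 * (4 * (-a ^ 2 - b * c) * (-a' ^ 2 - b' * c') - (2 * a * a' + b * c' + c * b') ^ 2) := by
      ring
    have e2 : -a ^ 2 - b * c = 1 := by linear_combination dx
    have e3 : -a' ^ 2 - b' * c' = 1 := by linear_combination dy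
    have e4 : 2 * a * a' + b * c' + c * b' = -2 * r := by linear_combination hr
    rw [e1, e2, e3, e4]
    simp only [α, β, γ]
    have e5 : (d * i * j) ^ 2 * (4 * 1 * 1 - (-2 * r) ^ 2) = d ^ 2 * i := by
      linear_combination (d ^ 2 * i ^ 2 * (1 - r ^ 2) * (2 * j + 1)) * hj' + d ^ 2 * i * hi'
    rw [e5, hd]
    linear_combination (1 + i * (s ^ 2 + t ^ 2 - 2 * r * s * t)) * hi'
  let z : SL(2, F) := ⟨!![α * a + β * a' + γ * (b * c' - b' * c), α * b + β * b' + γ * (2 * (a * b' - a' * b));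
      α * c + β * c' + γ * (2 * (c * a' - c' * a)), -(α * a + β * a' + γ * (b * c' - b' * c))], by
    rw [det_fin_two_of]; linear_combination key⟩
  refine ⟨z, by simp [tr, z], ?_, ?_⟩
  · rw [tr_mul, ex]
    simp only [z, α, β, γ, of_apply, cons_val', cons_val_zero, cons_val_one, cons_val_fin_one]
    linear_combination (-2 * (s - r * t) * i) * dx + (t - r * s) * i * hr - 2 * s * hi'
  · rw [tr_mul, ey]
    simp only [z, α, β, γ, of_apply, cons_val', cons_val_zero, cons_val_one, cons_val_fin_one]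
    linear_combination (-2 * (t - r * s) * i) * dy + (s - r * t) * i * hr - 2 * t * hi'

theorem exists_mn [Fintype F] [DecidableEq F] (hF : ringChar F ≠ 2) (h3 : Fintype.card F ≠ 3) {r : F}
    (h1 : 1 - r ^ 2 ≠ 0) : ∃ m n : F, m ≠ 0 ∧ n ≠ 0 ∧ IsSquare (m * n) ∧
      ¬ quadraticChar F (m ^ 2 - 2 * r * m + 1) * quadraticChar F (n ^ 2 - 2 * r * n + 1) = 1 := by
  classical
  by_contra hc
  push Not at hc
  have h2 : (2 : F) ≠ 0 := Ring.two_ne_zero hF
  set χ := quadraticChar F
  obtain ⟨k, hk⟩ := FiniteField.exists_nonsquare hF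
  have hk0 : k ≠ 0 := fun h => hk (h ▸ IsSquare.zero)
  have hk1 : χ k = -1 := quadraticChar_neg_one_iff_not_isSquare.mpr hk
  set c1 := χ (1 ^ 2 - 2 * r * 1 + 1)
  set c2 := χ (k ^ 2 - 2 * r * k + 1)
  have s1 : c1 * c1 = 1 := hc 1 1 one_ne_zero one_ne_zero (by simp)
  have s2 : c2 * c2 = 1 := hc k k hk0 hk0 ⟨k, rfl⟩
  have e1 : ∀ m, 2 * χ (m ^ 2 - 2 * r * m + 1) =
      (c1 + c2) + (c1 - c2) * χ m + if m = 0 then 2 - (c1 + c2) else 0 := fun m => by
    by_cases hm : m = 0
    · subst hm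
      rw [if_pos rfl, MulChar.map_zero]; simp
    · rw [if_neg hm]
      rcases quadraticChar_dichotomy hm with h | h
      · have := hc m 1 hm one_ne_zero (by rw [mul_one]; exact (quadraticChar_one_iff_isSquare hm).mp h)
        rw [h]
        linear_combination 2 * c1 * this - 2 * χ (m ^ 2 - 2 * r * m + 1) * s1
      · have := hc m k hm hk0 ((quadraticChar_one_iff_isSquare (mul_ne_zero hm hk0)).mp (by
          rw [map_mul, h, hk1]; norm_num))
        rw [h]
        linear_combination 2 * c2 * this - 2 * χ (m ^ 2 - 2 * r * m + 1) * s2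
  have e2 := Finset.sum_congr rfl fun m (_ : m ∈ (univ : Finset F)) => e1 m
  rw [← mul_sum, sum_add_distrib, sum_add_distrib, ← mul_sum, quadraticChar_sum_zero hF,
    sum_ite_eq', sum_const, card_univ] at e2
  have e3 : (#{p : F × F | p.2 ^ 2 = p.1 ^ 2 - 2 * r * p.1 + 1} : ℤ) =
      ∑ m : F, (χ (m ^ 2 - 2 * r * m + 1) + 1) := by
    rw [card_eq_sum_card_fiberwise (f := Prod.fst) (t := univ) (by simp)]
    push_cast
    refine sum_congr rfl fun m _ => ?_
    rw [← quadraticChar_card_sqrts hF]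
    congr 1
    refine card_bij (fun p _ => p.2) (fun p hp => ?_) (fun p hp q hq h => ?_) (fun y hy => ?_)
    · simp only [mem_filter, mem_univ, true_and] at hp
      simp [← hp.2, hp.1]
    · simp only [mem_filter, mem_univ, true_and] at hp hq
      exact Prod.ext (hp.2.trans hq.2.symm) h
    · exact ⟨(m, y), by simpa using hy, rfl⟩
  have e4 : #{p : F × F | p.2 ^ 2 = p.1 ^ 2 - 2 * r * p.1 + 1} = #(univ.erase (0 : F)) := by
    refine card_bij (fun p _ => p.1 - r + p.2) (fun p hp => ?_) (fun p hp q hq h => ?_)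
      (fun a ha => ?_)
    · simp only [mem_filter, mem_univ, true_and] at hp
      refine mem_erase.mpr ⟨fun h => h1 ?_, mem_univ _⟩
      linear_combination -hp + (p.2 - p.1 + r) * h
    · simp only [mem_filter, mem_univ, true_and] at hp hq
      have h0 : p.1 - r + p.2 ≠ 0 := fun h => h1 (by linear_combination -hp + (p.2 - p.1 + r) * h)
      have h4 : p.1 - r - p.2 = q.1 - r - q.2 := by
        apply mul_left_cancel₀ h0
        linear_combination -hp + hq - (q.1 - r - q.2) * h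
      apply Prod.ext
      · apply mul_left_cancel₀ h2; linear_combination h + h4
      · apply mul_left_cancel₀ h2; linear_combination h - h4
    · have h0 : a ≠ 0 := (mem_erase.mp ha).1
      refine ⟨(r + (a + (r ^ 2 - 1) / a) / 2, (a - (r ^ 2 - 1) / a) / 2), ?_, ?_⟩
      · simp only [mem_filter, mem_univ, true_and]
        field_simp; ring
      · field_simp; ring
  rw [e4, card_erase_of_mem (mem_univ _), card_univ, sum_add_distrib, sum_const, card_univ] at e3
  have hq : 1 < Fintype.card F := Fintype.one_lt_card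
  rw [Nat.cast_sub hq.le] at e3
  simp only [mem_univ, if_true, nsmul_eq_mul, mul_one, mul_zero, add_zero, Nat.cast_one] at e2 e3
  have e5 : ∑ m : F, χ (m ^ 2 - 2 * r * m + 1) = -1 := by linarith
  rw [e5] at e2
  rcases mul_self_eq_one_iff.mp s1 with a1 | a1 <;> rcases mul_self_eq_one_iff.mp s2 with a2 | a2 <;>
    rw [a1, a2] at e2 <;> omega

theorem odd_case [Fintype F] (hF : ringChar F ≠ 2) (h3 : Fintype.card F ≠ 3) {x y : SL(2, F)}
    (hx : tr x = 0) (hy : tr y = 0) :
    ∃ z : SL(2, F), tr z = 0 ∧ Odd (orderOf (pr (x * z))) ∧ Odd (orderOf (pr (y * z))) := by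
  classical
  have h2 : (2 : F) ≠ 0 := Ring.two_ne_zero hF
  have hodd : Odd (Fintype.card F) := Nat.odd_iff.mpr (FiniteField.odd_card_of_char_ne_two hF)
  obtain ⟨r, hr⟩ : ∃ r, tr (x * y) = -2 * r := ⟨-tr (x * y) / 2, by field_simp⟩
  by_cases h1 : 1 - r ^ 2 = 0
  · refine ⟨y, hy, odd_unip hodd (e := -r) (by linear_combination -h1) (by rw [hr]; ring), ?_⟩
    rw [map_mul, sq_of_tr hy]; simp
  by_cases hs : IsSquare (-1 : F)
  · obtain ⟨i, hi⟩ := hs
    obtain ⟨z, hz, e1, e2⟩ := exists_third h2 hx hy hr h1 (s := 1) (t := 1) (d := i * (r - 1))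
      (by linear_combination -(r - 1) ^ 2 * hi)
    exact ⟨z, hz, odd_unip hodd (e := -1) (by ring) (by rw [e1]; ring),
      odd_unip hodd (e := -1) (by ring) (by rw [e2]; ring)⟩
  have h4 : Fintype.card F % 4 = 3 := by
    rw [FiniteField.isSquare_neg_one_iff] at hs; omega
  have key : ∀ (g : SL(2, F)) (u : F), u ≠ 0 → tr g = -2 * ((u + u⁻¹) / 2) → Odd (orderOf (pr g)) := by
    intro g u hu h
    by_cases huv : -u = -u⁻¹
    · refine odd_unip hodd (e := -u) ?_ ?_
      · nth_rewrite 2 [huv]; field_simp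
      · rw [h, ← neg_inj.mp huv]; field_simp; ring
    · refine odd_split (u := -u) (v := -u⁻¹) (by rw [h]; field_simp; ring) (by field_simp) huv
        (n := Fintype.card F / 2) (Nat.odd_iff.mpr (by omega)) ?_
      have e1 := FiniteField.pow_card_sub_one_eq_one u hu
      rw [show Fintype.card F - 1 = Fintype.card F / 2 + Fintype.card F / 2 by omega, pow_add] at e1
      rw [neg_pow, neg_pow u⁻¹, inv_pow, eq_inv_of_mul_eq_one_left e1]
      rw [← eq_inv_of_mul_eq_one_left e1, ← eq_inv_of_mul_eq_one_left e1]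
  obtain ⟨m, n, hm, hn, ⟨u, hu⟩, hχ⟩ := exists_mn hF h3 h1
  have hu0 : u ≠ 0 := fun h => mul_ne_zero hm hn (by rw [hu, h, mul_zero])
  obtain ⟨w, hw⟩ : IsSquare (-((m ^ 2 - 2 * r * m + 1) * (n ^ 2 - 2 * r * n + 1))) := by
    by_contra hc
    apply hχ
    rw [← quadraticChar_neg_one_iff_not_isSquare] at hc hs
    rw [neg_eq_neg_one_mul, map_mul, hs, map_mul] at hc
    linarith
  have hn' : n = u * u / m := by field_simp; linear_combination hu
  obtain ⟨z, hz, e1, e2⟩ := exists_third h2 hx hy hr h1 (s := (u + u⁻¹) / 2)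
    (t := (m / u + (m / u)⁻¹) / 2) (d := w / (2 * u)) (by
      rw [div_pow, pow_two w, ← hw, hn']; field_simp; ring)
  exact ⟨z, hz, key _ u hu0 e1, key _ (m / u) (div_ne_zero hm hu0) e2⟩

theorem even_case [Fintype F] (h2 : (2 : F) = 0) (h3 : 3 ≤ Fintype.card F) {x y : SL(2, F)}
    (hx : tr x = 0) (hy : tr y = 0) (hx1 : pr x ≠ 1) (hy1 : pr y ≠ 1) :
    ∃ z : SL(2, F), tr z = 0 ∧ Odd (orderOf (pr (x * z))) ∧ Odd (orderOf (pr (y * z))) := by
  classical
  have bad : ∀ x : SL(2, F), tr x = 0 → pr x ≠ 1 → ∃ l : F, ∀ k, k ≠ l → x 0 1 * k + x 1 0 ≠ 0 := by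
    intro x hx hx1
    by_cases hb : x 0 1 = 0
    · refine ⟨0, fun k _ h => hx1 (pr_eq_one (e := x 0 0) ?_)⟩
      rw [hb, zero_mul, zero_add] at h
      unfold tr at hx
      ext i j
      fin_cases i <;> fin_cases j <;> simp [hb, h]
      linear_combination hx - x 0 0 * h2
    · exact ⟨-x 1 0 / x 0 1, fun k hk h => hk (by field_simp; linear_combination h)⟩
  obtain ⟨l1, h1⟩ := bad x hx hx1
  obtain ⟨l2, h2'⟩ := bad y hy hy1
  obtain ⟨k, hk⟩ : ∃ k : F, k ∉ ({l1, l2} : Finset F) := by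
    by_contra hc
    push Not at hc
    have := Finset.card_le_card (show (Finset.univ : Finset F) ⊆ {l1, l2} from fun x _ => hc x)
    have h2 := Finset.card_le_two (a := l1) (b := l2)
    rw [Finset.card_univ] at this
    omega
  simp only [mem_insert, mem_singleton, not_or] at hk
  have hc : ringChar F = 2 := by
    haveI : CharP F 2 := CharTwo.of_one_ne_zero_of_two_eq_zero one_ne_zero h2
    exact ringChar.eq F 2
  obtain ⟨a, ha⟩ := FiniteField.isSquare_of_char_two hc (1 + k)
  let z : SL(2, F) := ⟨!![a, 1; k, a], by rw [det_fin_two_of]; linear_combination -ha⟩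
  have e : ∀ x : SL(2, F), tr x = 0 → tr (x * z) = x 0 1 * k + x 1 0 := fun x hx => by
    rw [tr_mul]
    unfold tr at hx
    simp only [z, of_apply, cons_val', cons_val_zero, cons_val_one, cons_val_fin_one]
    linear_combination a * hx
  refine ⟨z, by simp [tr, z, ← two_mul, h2], odd_two h2 ?_, odd_two h2 ?_⟩
  · rw [e x hx]; exact h1 k hk.1
  · rw [e y hy]; exact h2' k hk.2

theorem ne_one_of {g : SL(2, F)} (h : g 0 1 ≠ 0 ∨ g 0 0 ≠ g 1 1) : pr g ≠ 1 := fun e => by
  obtain ⟨r, -, hr⟩ := Matrix.SpecialLinearGroup.mem_center_iff.mp ((QuotientGroup.eq_one_iff _).mp e)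
  have h1 : g 0 1 = 0 := by rw [← hr]; simp
  have h2 : g 0 0 = g 1 1 := by rw [← hr]; simp
  tauto

theorem exists_pair [Fintype F] (hF : 4 ≤ Fintype.card F) : ∃ x y : SL(2, F), tr x = 0 ∧ tr y = 0 ∧
    tr (x * y) = 0 ∧ pr x ≠ 1 ∧ pr y ≠ 1 ∧ pr (x * y) ≠ 1 := by
  classical
  by_cases h2 : (2 : F) = 0
  · obtain ⟨k, hk⟩ : ∃ k : F, k ∉ ({0, -1} : Finset F) := by
      by_contra hc
      push Not at hc
      have := Finset.card_le_card (show (Finset.univ : Finset F) ⊆ {0, -1} from fun x _ => hc x)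
      have h2 := Finset.card_le_two (a := (0 : F)) (b := -1)
      rw [Finset.card_univ] at this
      omega
    simp only [mem_insert, mem_singleton, not_or] at hk
    let x : SL(2, F) := ⟨!![1, 1; 0, 1], by simp [det_fin_two_of]⟩
    let y : SL(2, F) := ⟨!![1, k; 0, 1], by simp [det_fin_two_of]⟩
    refine ⟨x, y, by simp [tr, x, one_add_one_eq_two, h2], by simp [tr, y, one_add_one_eq_two, h2],
      by rw [tr_mul]; simp [x, y, one_add_one_eq_two, h2], ne_one_of (by simp [x]),
      ne_one_of (by simp [y, hk.1]), ne_one_of (Or.inl ?_)⟩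
    rw [H3.sl_mul]
    simpa [x, y, add_eq_zero_iff_eq_neg] using hk.2
  · have hc : ringChar F ≠ 2 := fun h => h2 (by
      have := ringChar.Nat.cast_ringChar (R := F)
      rw [h] at this; exact_mod_cast this)
    obtain ⟨a, b, h⟩ := H3.exists_sq_add_sq
      (Nat.odd_iff.mpr (FiniteField.odd_card_of_char_ne_two hc)) (-1 : F)
    have key : ∀ g : SL(2, F), tr g = 0 → pr g ≠ 1 := fun g hg => ne_one_of (by
      by_contra hc
      push Not at hc
      have := det' g
      unfold tr at hg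
      rw [hc.2, ← two_mul, mul_eq_zero, or_iff_right h2] at hg
      rw [hc.1, hg] at this
      simp at this)
    let x : SL(2, F) := ⟨!![0, 1; -1, 0], by simp [det_fin_two_of]⟩
    let y : SL(2, F) := ⟨!![a, b; b, -a], by rw [det_fin_two_of]; linear_combination -h⟩
    have e1 : tr x = 0 := by simp [tr, x]
    have e2 : tr y = 0 := by simp [tr, y]
    have e3 : tr (x * y) = 0 := by rw [tr_mul]; simp [x, y]
    exact ⟨x, y, e1, e2, e3, key _ e1, key _ e2, key _ e3⟩

end


/-- Let F be a finite field with at least 4 elements and let X be a conjugacy class of involutions of PSL(2, F). The graph on X joining two distinct involutions whose product has odd order is connected and has diameter exactly 2. -/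
theorem result {F : Type*} [Field F] [Fintype F] (hF : 4 ≤ Fintype.card F)
    (t : Matrix.ProjectiveSpecialLinearGroup (Fin 2) F) (ht : orderOf t = 2) :
    (SimpleGraph.fromRel fun x y : {x : Matrix.ProjectiveSpecialLinearGroup (Fin 2) F // IsConj t x} =>
        Odd (orderOf (x.1 * y.1))).Connected ∧
      (SimpleGraph.fromRel fun x y : {x : Matrix.ProjectiveSpecialLinearGroup (Fin 2) F // IsConj t x} =>
        Odd (orderOf (x.1 * y.1))).diam = 2 := by
  have key : ∀ x y : Matrix.ProjectiveSpecialLinearGroup (Fin 2) F, x * x = 1 → x ≠ 1 → y * y = 1 →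
      y ≠ 1 → ∃ z, z * z = 1 ∧ Odd (orderOf (x * z)) ∧ Odd (orderOf (y * z)) := by
    intro x y hx hx1 hy hy1
    obtain ⟨x, rfl⟩ := QuotientGroup.mk'_surjective _ x
    obtain ⟨y, rfl⟩ := QuotientGroup.mk'_surjective _ y
    have e1 := tr_eq_zero hx hx1
    have e2 := tr_eq_zero hy hy1
    by_cases h2 : ringChar F = 2
    · obtain ⟨z, h1, h3, h4⟩ := even_case (by
        have := ringChar.Nat.cast_ringChar (R := F)
        rw [h2] at this; exact_mod_cast this) (by omega) e1 e2 hx1 hy1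
      exact ⟨pr z, sq_of_tr h1, h3, h4⟩
    · obtain ⟨z, h1, h3, h4⟩ := odd_case h2 (by omega) e1 e2
      exact ⟨pr z, sq_of_tr h1, h3, h4⟩
  have ht1 : t * t = 1 := by have := pow_orderOf_eq_one t; rwa [ht, pow_two] at this
  have ht2 : t ≠ 1 := fun h => by rw [h, orderOf_one] at ht; omega
  have hsq : ∀ x, IsConj t x → x * x = 1 ∧ x ≠ 1 := fun x hx => by
    obtain ⟨g, rfl⟩ := isConj_iff.mp hx
    exact ⟨by rw [conj_mul, ht1]; simp, by simpa using ht2⟩
  have hcj : ∀ x, x * x = 1 → x ≠ 1 → IsConj t x := fun x hx hx1 => by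
    obtain ⟨z, h1, h2, h3⟩ := key t x ht1 ht2 hx hx1
    exact (H8.isConj_of_odd_mul ht1 h1 h2).trans (H8.isConj_of_odd_mul hx h1 h3).symm
  refine H8.fusGraph ht1 (fun x y hx hy => key x y (hsq x hx).1 (hsq x hx).2 (hsq y hy).1
    (hsq y hy).2) ?_
  obtain ⟨x, y, h1, h2, h3, h4, h5, h6⟩ := exists_pair hF
  refine ⟨pr x, pr y, hcj _ (sq_of_tr h1) h4, hcj _ (sq_of_tr h2) h5, ?_⟩
  rw [← map_mul, orderOf_eq_prime (p := 2) (by rw [pow_two]; exact sq_of_tr h3) h6]
  decide

end Cfsg.Agent.S3266
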