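import Cfsg.Statements.S3269
import Cfsg.Agent.H3.ZCor

set_option autoImplicit false
open Cfsg

namespace Cfsg.Agent.S3269

/-- Let G be a finite group whose Sylow 2-subgroup S is an internal direct product Q × R with Q generalized quaternion (of order at least 8) and R a subgroup all of whose involutions are central in R. Then G is not simple. In particular no finite simple group has a Sylow 2-subgroup that is a direct product of one or more generalized quaternion groups. -/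
theorem result {G : Type*} [Group G] [Finite G]
    (S : Sylow 2 G) (Q R : Subgroup G) (hQR : Cfsg.IsInternalDirectProduct Q R (S : Subgroup G))
    (n : ℕ) (hn : 1 ≤ n) (eQ : ↥Q ≃* QuaternionGroup (2 ^ n))
    (hR : ∀ r ∈ R, orderOf r = 2 → ∀ s ∈ R, r * s = s * r) :
    ¬ IsSimpleGroup G := by
  intro hG
  obtain ⟨hQS, hRS, hcomm, hinf, hsup⟩ := hQR
  obtain ⟨m, rfl⟩ : ∃ m, n = m + 1 := ⟨n - 1, by omega⟩
  have hq : ∃ z a b : QuaternionGroup (2 ^ (m + 1)), z ≠ 1 ∧ z * z = 1 ∧ a * b = z * (b * a) ∧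
      ∀ x, x * x = 1 → x = 1 ∨ x = z := by
    have h0 : (QuaternionGroup.a ((2 ^ (m + 1) : ℕ) : ZMod (2 * 2 ^ (m + 1))) :
        QuaternionGroup (2 ^ (m + 1))) ≠ 1 := by
      intro h
      have h1 := QuaternionGroup.orderOf_xa (n := 2 ^ (m + 1)) 0
      have h2 := orderOf_dvd_of_pow_eq_one ((QuaternionGroup.xa_sq 0).trans h)
      rw [h1] at h2
      omega
    refine ⟨_, .a ((2 ^ m : ℕ) : ZMod _), .xa 0, h0, ?_, ?_, ?_⟩
    · rw [QuaternionGroup.a_mul_a, ← Nat.cast_add, ← two_mul, ZMod.natCast_self]; rfl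
    · simp only [QuaternionGroup.a_mul_xa, QuaternionGroup.xa_mul_a]
      congr 1
      push_cast
      ring
    · rintro (i | i) h
      · rw [QuaternionGroup.a_mul_a, QuaternionGroup.one_def] at h
        have h1 : -i = i := neg_eq_of_add_eq_zero_left (QuaternionGroup.a.inj h)
        rcases (ZMod.neg_eq_self_iff i).1 h1 with h2 | h2
        · left; rw [h2]; rfl
        · right
          rw [← ZMod.natCast_zmod_val i, Nat.eq_of_mul_eq_mul_left two_pos h2]
      · rw [← pow_two, QuaternionGroup.xa_sq] at h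
        exact absurd h h0
  obtain ⟨z, a, b, hz, ha, hb, hz1, hzz, hab, huniq⟩ : ∃ z a b : G, z ∈ Q ∧ a ∈ Q ∧ b ∈ Q ∧ z ≠ 1 ∧
      z * z = 1 ∧ a * b = z * (b * a) ∧ ∀ x ∈ Q, x * x = 1 → x = 1 ∨ x = z := by
    obtain ⟨z, a, b, h1, h2, h3, h4⟩ := hq
    refine ⟨eQ.symm z, eQ.symm a, eQ.symm b, (eQ.symm z).2, (eQ.symm a).2, (eQ.symm b).2,
      fun h => h1 ?_, ?_, ?_, fun x hx hxx => ?_⟩
    · rw [OneMemClass.coe_eq_one] at h
      simpa using h
    · rw [← Subgroup.coe_mul, ← map_mul, h2, map_one, Subgroup.coe_one]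
    · simp only [← Subgroup.coe_mul, ← map_mul, h3]
    · rcases h4 (eQ ⟨x, hx⟩) (by rw [← map_mul, ← map_one eQ]; congr 1; exact Subtype.ext hxx)
        with h | h
      · left; simpa using h
      · right; rw [← h]; simp
  have hdec : ∀ s ∈ (S : Subgroup G), ∃ q ∈ Q, ∃ r ∈ R, q * r = s := fun s hs =>
    (H4.mem_sup_of_le_normalizer_left (fun r hr => Subgroup.centralizer_le_normalizer _
      (fun q hq => hcomm q hq r hr))).mp (hsup ▸ hs)
  have hbot : ∀ x ∈ Q, x ∈ R → x = 1 := fun x h1 h2 => Subgroup.mem_bot.mp (hinf ▸ ⟨h1, h2⟩)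
  have hzQ : ∀ q ∈ Q, q * z = z * q := fun q hq => by
    rcases huniq (q * z * q⁻¹) (mul_mem (mul_mem hq hz) (inv_mem hq))
      (by rw [conj_mul, hzz]; group) with h | h
    · exact absurd (by simpa using h) hz1
    · rwa [mul_inv_eq_iff_eq_mul] at h
  have hcen : ∀ x ∈ (S : Subgroup G), x * x = 1 → x ∈ Subgroup.centralizer (S : Set G) := by
    intro x hx hxx s hs
    obtain ⟨q, hq, r, hr, rfl⟩ := hdec x hx
    obtain ⟨q', hq', r', hr', rfl⟩ := hdec s hs
    have h1 : q * q * (r * r) = 1 := by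
      rw [← hxx, mul_assoc, mul_assoc, ← mul_assoc q r r, ← mul_assoc r q r, hcomm q hq r hr]
    have h2 : q * q = 1 := hbot _ (mul_mem hq hq) (by
      rw [eq_inv_of_mul_eq_one_left h1]; exact inv_mem (mul_mem hr hr))
    rw [h2, one_mul] at h1
    have h3 : Commute q' q := by
      rcases huniq q hq h2 with rfl | rfl
      exacts [Commute.one_right _, hzQ q' hq']
    have h4 : Commute r' r := by
      by_cases e : r = 1
      · rw [e]; exact Commute.one_right _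
      · exact (hR r hr (orderOf_eq_prime (by rw [pow_two, h1]) e) r' hr').symm
    exact (h3.mul_right (hcomm q' hq' r hr)).mul_left
      (Commute.mul_right (hcomm q hq r' hr').symm h4)
  have hnQ : ∀ s ∈ (S : Subgroup G), ∀ q ∈ Q, s * q * s⁻¹ ∈ Q := fun s hs q hq => by
    obtain ⟨q', hq', r, hr, rfl⟩ := hdec s hs
    rw [show q' * r * q * (q' * r)⁻¹ = q' * (r * q * r⁻¹) * q'⁻¹ by group, ← hcomm q hq r hr,
      mul_inv_cancel_right]
    exact mul_mem (mul_mem hq' hq) (inv_mem hq')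
  have hnR : ∀ s ∈ (S : Subgroup G), ∀ r ∈ R, s * r * s⁻¹ ∈ R := fun s hs r hr => by
    obtain ⟨q, hq, r', hr', rfl⟩ := hdec s hs
    have h1 := mul_mem (mul_mem hr' hr) (inv_mem hr')
    rw [show q * r' * r * (q * r')⁻¹ = q * (r' * r * r'⁻¹) * q⁻¹ by group, hcomm q hq _ h1,
      mul_inv_cancel_right]
    exact h1
  have hmain : ∀ g ∈ Subgroup.normalizer (S : Set G), g * z * g⁻¹ ≠ z → g * z * g⁻¹ ∈ R := by
    intro g hg hne
    by_contra hzR
    have hgS : ∀ s ∈ (S : Subgroup G), g * s * g⁻¹ ∈ (S : Subgroup G) := fun s hs =>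
      (Subgroup.mem_normalizer_iff.mp hg s).1 hs
    have h1 : ∀ q ∈ Q, g * q * g⁻¹ ∈ R → q = 1 := fun q hq h => by
      by_contra hq1
      obtain ⟨k, hk⟩ := H3.exists_involution_pow (L.PElt_of_mem S.isPGroup' (hQS hq)) hq1
      rcases huniq _ (zpow_mem hq k) (L.mul_self_of_orderOf hk) with e | e
      · rw [e] at hk; simp at hk
      · exact hzR (by rw [← e, ← conj_zpow]; exact zpow_mem h k)
    have h2 : ∀ q ∈ Q, ∀ r ∈ R, Commute (g * q * g⁻¹) r := fun q hq r hr => by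
      have h3 : g⁻¹ * r * g⁻¹⁻¹ ∈ (S : Subgroup G) :=
        (Subgroup.mem_normalizer_iff.mp (inv_mem hg) r).1 (hRS hr)
      have h4 := h1 _ (mul_mem hq (hnQ _ h3 _ (inv_mem hq))) (by
        rw [show g * (q * (g⁻¹ * r * g⁻¹⁻¹ * q⁻¹ * (g⁻¹ * r * g⁻¹⁻¹)⁻¹)) * g⁻¹ =
          (g * q * g⁻¹) * r * (g * q * g⁻¹)⁻¹ * r⁻¹ by group]
        exact mul_mem (hnR _ (hgS q (hQS hq)) r hr) (inv_mem hr))
      rw [← commutatorElement_eq_one_iff_commute, commutatorElement_def]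
      calc _ = g * (q * (g⁻¹ * r * g⁻¹⁻¹ * q⁻¹ * (g⁻¹ * r * g⁻¹⁻¹)⁻¹)) * g⁻¹ := by group
        _ = 1 := by rw [h4]; group
    obtain ⟨q₁, hq₁, r₁, hr₁, e₁⟩ := hdec _ (hgS a (hQS ha))
    obtain ⟨q₂, hq₂, r₂, hr₂, e₂⟩ := hdec _ (hgS b (hQS hb))
    have h3 : Commute r₁ r₂ := by
      rw [show r₁ = q₁⁻¹ * (g * a * g⁻¹) by rw [← e₁]; group]
      exact Commute.mul_left (Commute.inv_left (hcomm q₁ hq₁ r₂ hr₂)) (h2 a ha r₂ hr₂)
    have h4 : g * z * g⁻¹ = q₁ * q₂ * (q₂ * q₁)⁻¹ := by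
      have c1 : Commute q₁ r₂ := hcomm q₁ hq₁ r₂ hr₂
      have c2 : Commute q₂ r₁ := hcomm q₂ hq₂ r₁ hr₁
      calc g * z * g⁻¹ = (g * a * g⁻¹) * (g * b * g⁻¹) * ((g * b * g⁻¹) * (g * a * g⁻¹))⁻¹ := by
            rw [conj_mul, conj_mul, hab]; group
        _ = (q₁ * q₂ * (r₁ * r₂)) * (q₂ * q₁ * (r₂ * r₁))⁻¹ := by
            rw [← e₁, ← e₂, c2.symm.mul_mul_mul_comm, c1.symm.mul_mul_mul_comm]
        _ = _ := by rw [h3.eq]; group
    rcases huniq (g * z * g⁻¹) (h4 ▸ mul_mem (mul_mem hq₁ hq₂) (inv_mem (mul_mem hq₂ hq₁)))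
      (by rw [conj_mul, hzz]; group) with h | h
    · exact hz1 (by simpa using h)
    · exact hne h
  have hzS := hcen z (hQS hz) hzz
  set V : Subgroup G := H4.omegaComm ((S : Subgroup G) ⊓ Subgroup.centralizer (S : Set G))
    (fun v hv w hw => hw.2 v hv.1) 2 with hV
  have hNV : Subgroup.normalizer (S : Set G) ≤ Subgroup.normalizer (V : Set G) := by
    refine Subgroup.le_normalizer_iff.mpr fun g hg v hv => ?_
    have h1 := (Subgroup.mem_normalizer_iff.mp hg v).1 hv.1.1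
    have h2 : (g * v * g⁻¹) ^ 2 = 1 := by rw [conj_pow, hv.2]; group
    exact ⟨⟨h1, hcen _ h1 (by rw [← pow_two, h2])⟩, h2⟩
  have hzV : z ∈ V := ⟨⟨hQS hz, hzS⟩, by rw [pow_two, hzz]⟩
  obtain ⟨l, hl, -, hfix⟩ := H3.exists_orbit_prod (V := V) (fun v hv w hw => hw.1.2 v hv.1.1) hNV hzV
  have hwV : z * l.prod ∈ V := mul_mem hzV (list_prod_mem fun x hx => by
    obtain ⟨-, g, hg, rfl⟩ := hl x hx
    exact (Subgroup.mem_normalizer_iff.mp (hNV hg) z).1 hzV)
  have hw1 : z * l.prod ≠ 1 := fun h => hz1 (hbot z hz (by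
    rw [eq_inv_of_mul_eq_one_left h]
    refine inv_mem (list_prod_mem fun x hx => ?_)
    obtain ⟨hne, g, hg, rfl⟩ := hl x hx
    exact hmain g hg hne))
  have hw2 := orderOf_eq_prime hwV.2 hw1
  have hi := H3.isolated_of_normalizer S (L.PElt_of_mem S.isPGroup' hwV.1.1) hwV.1.2
    (fun g hg => hcen _ hg (by rw [conj_mul, ← pow_two, hwV.2]; group)) hfix
  rw [H3.comm_of_isolated hw2 hi a b] at hab
  exact hz1 (by simpa using hab.symm)

end Cfsg.Agent.S3269
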