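import Cfsg.Statements.S3276
import Cfsg.Agent.H9.Loc1

set_option autoImplicit false
open Cfsg

namespace Cfsg.Agent.S3276

open Subgroup

/-- Let x and y be commuting, non-conjugate involutions of a finite group G, and suppose that for every involution u commuting with x, each conjugate of y that commutes with u also commutes with y. Then the normal closure of y is a proper, normal, elementary abelian 2-subgroup of G; and if y is the only involution of that normal closure commuting with x, it has order at most 4. -/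
theorem result {G : Type*} [Group G] [Finite G] (x y : G) (hx : orderOf x = 2) (hy : orderOf y = 2)
    (hxy : Commute x y) (hnc : ¬ IsConj x y)
    (hstar : ∀ u : G, orderOf u = 2 → Commute u x → ∀ g : G, Commute (g * y * g⁻¹) u → Commute (g * y * g⁻¹) y) :
    Subgroup.normalClosure ({y} : Set G) ≠ ⊤ ∧ Cfsg.IsElementaryAbelian 2 (Subgroup.normalClosure ({y} : Set G)) ∧
      ((∀ u ∈ Subgroup.normalClosure ({y} : Set G), orderOf u = 2 → Commute u x → u = y) →
        Nat.card ↥(Subgroup.normalClosure ({y} : Set G)) ≤ 4) := by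
  have hx2 := H9.mul_self_of_orderOf_two hx
  have hy2 := H9.mul_self_of_orderOf_two hy
  have h1 : ∀ g : G, Commute (g * y * g⁻¹) y := by
    intro g
    obtain ⟨z, -, oz, hz1, hz2⟩ := H9.exists_invol_comm (b := g * y * g⁻¹) hx2
      (by rw [conj_mul, hy2]; simp)
      (fun h => hnc (h.trans (isConj_iff.2 ⟨g, rfl⟩).symm))
    exact hstar z oz hz1 g hz2.symm
  have h0 : ∀ a ∈ Group.conjugatesOfSet ({y} : Set G), ∃ g, g * y * g⁻¹ = a := by
    intro a ha
    obtain ⟨b, hb, ha⟩ := Group.mem_conjugatesOfSet_iff.1 ha
    rw [Set.mem_singleton_iff.1 hb] at ha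
    exact isConj_iff.1 ha
  have h2 : ∀ a ∈ Group.conjugatesOfSet ({y} : Set G), ∀ b ∈ Group.conjugatesOfSet ({y} : Set G),
      a * b = b * a := by
    intro a ha b hb
    obtain ⟨g, rfl⟩ := h0 a ha
    obtain ⟨h, rfl⟩ := h0 b hb
    have := (h1 (h⁻¹ * g)).eq
    calc g * y * g⁻¹ * (h * y * h⁻¹) = h * (h⁻¹ * g * y * (h⁻¹ * g)⁻¹ * y) * h⁻¹ := by group
      _ = h * y * h⁻¹ * (g * y * g⁻¹) := by rw [this]; group
  have hc : ∀ a ∈ normalClosure ({y} : Set G), ∀ b ∈ normalClosure ({y} : Set G),
      a * b = b * a := by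
    have : normalClosure ({y} : Set G) ≤ centralizer (normalClosure ({y} : Set G) : Set G) := by
      rw [normalClosure, closure_le, centralizer_closure]
      exact fun a ha => mem_centralizer_iff.2 fun b hb => h2 b hb a ha
    exact fun a ha b hb => mem_centralizer_iff.1 (this hb) a ha
  have hsq : ∀ a ∈ normalClosure ({y} : Set G), a ^ 2 = 1 := by
    intro a ha
    induction ha using closure_induction with
    | mem a ha =>
      obtain ⟨g, rfl⟩ := h0 a ha
      rw [sq, conj_mul, hy2]; simp
    | one => simp
    | mul a b ha hb iha ihb => rw [(show Commute a b from hc a ha b hb).mul_pow, iha, ihb, one_mul]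
    | inv a _ iha => rw [inv_pow, iha, inv_one]
  refine ⟨fun e => ?_, ⟨H5.isMulCommutative_of_forall hc, hsq⟩, fun hu => ?_⟩
  · have hn : (zpowers y).Normal := ⟨fun a ha g => by
      rw [hc g (e ▸ mem_top g) a (e ▸ mem_top a), mul_inv_cancel_right]; exact ha⟩
    have : x ∈ zpowers y :=
      normalClosure_le_normal (N := zpowers y) (by simp) (e ▸ mem_top x)
    rcases (H9.mem_zpowers_two hy).1 this with h | h
    · exact H9.ne_one_of_orderOf hx (by norm_num) h
    · exact hnc (h ▸ IsConj.refl _)
  · set N := normalClosure ({y} : Set G) with hN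
    have hx' := H9.inv_eq_of_orderOf_two hx
    have hC : ∀ a ∈ N, x * a * x⁻¹ = a → a ∈ zpowers y := by
      intro a ha e
      rw [H9.mem_zpowers_two hy]
      by_cases h : a = 1
      · exact Or.inl h
      · exact Or.inr (hu a ha (H9.orderOf_two_of (hsq a ha) h) (mul_inv_eq_iff_eq_mul.1 e).symm)
    have hm : ∀ a : N, x * a * x⁻¹ ∈ N := fun a => normalClosure_normal.conj_mem _ a.2 x
    let f : N →* G :=
      { toFun := fun a => a * (x * a * x⁻¹)
        map_one' := by simp
        map_mul' := fun a b => by
          rw [coe_mul, ← conj_mul, mul_assoc (a : G), ← mul_assoc (b : G), hc _ b.2 _ (hm a)]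
          simp only [mul_assoc] }
    have hr : f.range ≤ zpowers y := by
      rintro _ ⟨a, rfl⟩
      apply hC _ (mul_mem a.2 (hm a))
      change x * (a * (x * a * x⁻¹)) * x⁻¹ = a * (x * a * x⁻¹)
      rw [← conj_mul, hc _ a.2 _ (hm a), ← mul_assoc x, ← mul_assoc x, hx2, one_mul, hx', mul_assoc (a : G),
        hx2, mul_one]
    have hk : f.ker.map N.subtype ≤ zpowers y := by
      rintro _ ⟨a, ha, rfl⟩
      apply hC _ a.2
      have e : (a : G) * (x * a * x⁻¹) = 1 := ha
      have e2 := hsq a a.2
      rw [sq] at e2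
      exact mul_left_cancel (e.trans e2.symm)
    have c1 := card_le_of_le hr
    have c2 := card_le_of_le hk
    rw [Nat.card_zpowers, hy] at c1 c2
    rw [card_subtype] at c2
    rw [← f.ker.index_mul_card, index_ker]
    nlinarith

end Cfsg.Agent.S3276
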