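import Cfsg.Statements.S3279
import Cfsg.Agent.H3.ZCor

set_option autoImplicit false
open Cfsg

namespace Cfsg.Agent.S3279

/-- Let G be a finite simple group and x an involution of G whose centralizer contains at most three involutions. Then C_G(x) contains a Sylow 2-subgroup of G, and all involutions of G are conjugate. -/
theorem result {G : Type*} [Group G] [Finite G] [IsSimpleGroup G] (x : G) (hx : orderOf x = 2)
    (h3 : Nat.card {u : ↥(Subgroup.centralizer ({x} : Set G)) // orderOf u = 2} ≤ 3) :
    (∃ S : Sylow 2 G, (S : Subgroup G) ≤ Subgroup.centralizer ({x} : Set G)) ∧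
      ∀ u v : G, orderOf u = 2 → orderOf v = 2 → IsConj u v := by
  classical
  have hxx := L.mul_self_of_orderOf hx
  have key : ∀ u : G, orderOf u = 2 → IsConj x u := by
    by_cases hi : IsIsolated x
    · intro u hu
      have h1 : u ∈ Subgroup.zpowers x := H3.zpowers_eq_top_of_isolated hx hi ▸ Subgroup.mem_top u
      have h2 := (mem_zpowers_iff_mem_range_orderOf.mp h1)
      rw [hx] at h2
      simp only [Finset.mem_image, Finset.mem_range] at h2
      obtain ⟨k, hk, rfl⟩ := h2
      interval_cases k
      · simp at hu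
      · rw [pow_one]
    simp only [IsIsolated, not_forall] at hi
    obtain ⟨g, hc, hne⟩ := hi
    set y := g * x * g⁻¹ with hy
    have hy2 : orderOf y = 2 := by rw [hy, ← MulAut.conj_apply, MulEquiv.orderOf_eq, hx]
    have hyy := L.mul_self_of_orderOf hy2
    have hx1 : x ≠ 1 := by rintro rfl; simp at hx
    have hy1 : y ≠ 1 := by intro h; rw [h] at hy2; simp at hy2
    have hxy1 : x * y ≠ 1 := fun h => hne (by
      rw [← inv_eq_of_mul_eq_one_right h, inv_eq_of_mul_eq_one_right hxx])
    have hxy2 : orderOf (x * y) = 2 :=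
      orderOf_eq_prime (by rw [hc.mul_pow, pow_two, pow_two, hxx, hyy, one_mul]) hxy1
    have three : ∀ a b c : G, a ≠ b → a ≠ c → b ≠ c → orderOf a = 2 → orderOf b = 2 → orderOf c = 2 →
        Commute a x → Commute b x → Commute c x → ∀ w : G, orderOf w = 2 → Commute w x →
        w = a ∨ w = b ∨ w = c := by
      intro a b c hab hac hbc ha hb hc ha' hb' hc' w hw hw'
      by_contra hcon
      push Not at hcon
      classical
      let f : {u : ↥(Subgroup.centralizer ({x} : Set G)) // orderOf u = 2} → G := fun u => u.1.1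
      have hsub : (({w, a, b, c} : Finset G) : Set G) ⊆ Set.range f := by
        have aux : ∀ v : G, orderOf v = 2 → Commute v x → v ∈ Set.range f := fun v hv hv' =>
          ⟨⟨⟨v, Subgroup.mem_centralizer_singleton_iff.mpr hv'⟩,
            (Subgroup.orderOf_coe _).symm.trans hv⟩, rfl⟩
        intro v hv
        simp only [Finset.coe_insert, Finset.coe_singleton, Set.mem_insert_iff,
          Set.mem_singleton_iff] at hv
        rcases hv with rfl | rfl | rfl | rfl <;> exact aux _ ‹_› ‹_›
      have h4 := Set.ncard_le_ncard hsub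
      rw [Set.ncard_coe_finset, Finset.card_insert_of_notMem (by simp [hcon]),
        Finset.card_insert_of_notMem (by simp [hab, hac]), Finset.card_pair hbc] at h4
      have h5 : (Set.range f).ncard ≤ 3 := by
        rw [← Set.image_univ]
        exact (Set.ncard_image_le).trans (by rwa [Set.ncard_univ])
      omega
    have hx_xy : x ≠ x * y := fun h => hy1 (by simpa using h.symm)
    have hy_xy : y ≠ x * y := fun h => hx1 (by simpa using h.symm)
    have invx : ∀ w : G, orderOf w = 2 → Commute w x → w = x ∨ w = y ∨ w = x * y :=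
      three x y (x * y) (Ne.symm hne) hx_xy hy_xy hx hy2 hxy2 (Commute.refl x) hc.symm
        ((Commute.refl x).mul_left hc.symm)
    have invy : ∀ w : G, orderOf w = 2 → Commute w y → w = x ∨ w = y ∨ w = x * y := by
      intro w hw hwy
      have ho : ∀ v : G, orderOf v = 2 → orderOf (g⁻¹ * v * g⁻¹⁻¹) = 2 := fun v hv => by
        rw [← MulAut.conj_apply, MulEquiv.orderOf_eq, hv]
      have hcm : ∀ v : G, Commute v y → Commute (g⁻¹ * v * g⁻¹⁻¹) x := fun v hv => by
        have := hv.conj g⁻¹
        rwa [show g⁻¹ * y * g⁻¹⁻¹ = x by rw [hy]; group] at this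
      have hinj : ∀ u v : G, g⁻¹ * u * g⁻¹⁻¹ = g⁻¹ * v * g⁻¹⁻¹ ↔ u = v := fun u v => by simp
      have := three _ _ _ (mt (hinj _ _).1 (Ne.symm hne)) (mt (hinj _ _).1 hx_xy)
        (mt (hinj _ _).1 hy_xy) (ho _ hx) (ho _ hy2) (ho _ hxy2) (hcm _ hc) (hcm _ (Commute.refl y))
        (hcm _ (hc.mul_left (Commute.refl y))) _ (ho _ hw) (hcm _ hwy)
      simpa only [hinj] using this
    intro t ht
    by_contra hnc
    have hall : ∀ s : G, IsConj t s → Commute s (x * y) := by
      intro s hs
      have hs2 : orderOf s = 2 := by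
        obtain ⟨c, rfl⟩ := isConj_iff.mp hs
        rw [← MulAut.conj_apply, MulEquiv.orderOf_eq, ht]
      have hss := L.mul_self_of_orderOf hs2
      have h1 : ¬ L.Reg 2 (x * s) := fun h => by
        obtain ⟨k, hk⟩ := L.exists_conj_of_Reg hxx hss h
        exact hnc ((isConj_iff.mpr ⟨_, hk⟩).symm.trans hs.symm)
      obtain ⟨w, hw, hw2⟩ := L.exists_involution_mem_zpowers h1
      obtain ⟨hwx, hws⟩ := L.commute_of_mem_zpowers hxx hss hw (L.mul_self_of_orderOf hw2)
      have aux : s = x ∨ s = y ∨ s = x * y → Commute s (x * y) := by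
        rintro (rfl | rfl | rfl)
        · exact (Commute.refl _).mul_right hc
        · exact hc.symm.mul_right (Commute.refl _)
        · exact Commute.refl _
      rcases invx w hw2 hwx with rfl | rfl | rfl
      · exact aux (invx s hs2 hws.symm)
      · exact aux (invy s hs2 hws.symm)
      · exact hws.symm
    have h2 : Subgroup.normalClosure ({t} : Set G) ≤ Subgroup.centralizer {x * y} := by
      refine (Subgroup.closure_le _).mpr fun s hs => ?_
      obtain ⟨a, ha, h⟩ := Group.mem_conjugatesOfSet_iff.mp hs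
      rw [Set.mem_singleton_iff.mp ha] at h
      exact Subgroup.mem_centralizer_singleton_iff.mpr (hall s h)
    have h3' : Subgroup.normalClosure ({t} : Set G) = ⊤ := by
      refine (IsSimpleGroup.eq_bot_or_eq_top_of_normal _ inferInstance).resolve_left fun e => ?_
      have : t ∈ Subgroup.normalClosure ({t} : Set G) := Subgroup.subset_normalClosure rfl
      rw [e, Subgroup.mem_bot] at this
      rw [this] at ht
      simp at ht
    have h4 : IsIsolated (x * y) := fun c _ => by
      have := Subgroup.mem_centralizer_singleton_iff.mp (h2 (h3' ▸ Subgroup.mem_top c))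
      rw [this]; group
    exact hne (by rw [hy, H3.comm_of_isolated hxy2 h4 g x]; group)
  refine ⟨?_, fun u v hu hv => (key u hu).symm.trans (key v hv)⟩
  obtain ⟨S, hS⟩ := (L.PElt_of_orderOf (p := 2) (k := 1) hx).isPGroup_zpowers.exists_le_sylow
  have : Nontrivial S := ⟨⟨⟨x, hS (Subgroup.mem_zpowers x)⟩, 1, fun h => by
    have : x = 1 := congrArg Subtype.val h
    rw [this] at hx; simp at hx⟩⟩
  have := S.isPGroup'.center_nontrivial
  obtain ⟨⟨z, hz⟩, hz1⟩ := exists_ne (1 : Subgroup.center S)
  obtain ⟨k, hk⟩ := H3.exists_involution_pow (L.PElt_of_mem S.isPGroup' z.2)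
    (fun h => hz1 (Subtype.ext (Subtype.ext h)))
  obtain ⟨c, hc⟩ := isConj_iff.mp (key _ hk).symm
  refine ⟨c • S, fun s hs => ?_⟩
  obtain ⟨s', hs', rfl⟩ := (Subgroup.mem_smul_pointwise_iff_exists _ _ _).mp hs
  rw [Subgroup.mem_centralizer_singleton_iff, ← hc]
  have h1 : Commute s' (z : G) := congrArg Subtype.val (Subgroup.mem_center_iff.mp hz ⟨s', hs'⟩)
  exact ((h1.zpow_right k).conj c).eq

end Cfsg.Agent.S3279
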