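import Cfsg.Statements.S3283
import Cfsg.Agent.X9.Asm
import Cfsg.Agent.H4.Layer

set_option autoImplicit false
open Cfsg

namespace Cfsg.Agent.S3283

/-- Let G be a finite group with an involution z whose centralizer M has Q = O₂(M) extraspecial of order 2⁹ with C_M(Q) ≤ Q, and M/Q isomorphic to S₃ × A₆ or to S₃ × S₆. Then G is not simple. -/
theorem result {G : Type*} [Group G] [Finite G] (z : G) (hz : orderOf z = 2)
    (hQ : Cfsg.IsExtraspecial 2 ↥(Cfsg.pCore 2 ↥(Subgroup.centralizer ({z} : Set G)))) (hQ9 : Nat.card ↥(Cfsg.pCore 2 ↥(Subgroup.centralizer ({z} : Set G))) = 2 ^ 9)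
    (hCQ : Subgroup.centralizer ((Cfsg.pCore 2 ↥(Subgroup.centralizer ({z} : Set G))) : Set ↥(Subgroup.centralizer ({z} : Set G))) ≤ Cfsg.pCore 2 ↥(Subgroup.centralizer ({z} : Set G)))
    (hMQ : Nonempty (↥(Subgroup.centralizer ({z} : Set G)) ⧸ Cfsg.pCore 2 ↥(Subgroup.centralizer ({z} : Set G)) ≃* (Equiv.Perm (Fin 3) × ↥(alternatingGroup (Fin 6)))) ∨
      Nonempty (↥(Subgroup.centralizer ({z} : Set G)) ⧸ Cfsg.pCore 2 ↥(Subgroup.centralizer ({z} : Set G)) ≃* (Equiv.Perm (Fin 3) × Equiv.Perm (Fin 6)))) :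
    ¬ IsSimpleGroup G := by
  intro hs
  rcases hMQ with ⟨⟨e⟩⟩ | ⟨⟨e⟩⟩
  · refine X9.not_simple hz hQ hQ9 hCQ
      (((MonoidHom.id _).prodMap (alternatingGroup (Fin 6)).subtype).comp e.toMonoidHom) ?_ ?_
    · exact (Function.Injective.prodMap Function.injective_id Subtype.val_injective).comp
        e.injective
    · intro γ h
      obtain ⟨x, hx⟩ := e.surjective (γ.1, ⟨γ.2, h.2⟩)
      exact ⟨x, congrArg ((MonoidHom.id _).prodMap (alternatingGroup (Fin 6)).subtype) hx⟩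
  · exact X9.not_simple hz hQ hQ9 hCQ e.toMonoidHom e.injective fun γ _ => e.surjective γ

end Cfsg.Agent.S3283
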