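import Cfsg.Statements.S3301
import Cfsg.Agent.H8.Smith2

set_option autoImplicit false
open Cfsg
open scoped commutatorElement

namespace Cfsg.Agent.S3301

/-- Let G be a finite group with no nontrivial 2-group quotient (O^2(G) = G), z an involution of G with H = C_G(z), and suppose E = O_2(H) is extraspecial with C_G(E) ≤ E. Then the Sylow 2-subgroups of H/[H, H] are elementary abelian: every element of 2-power order of the abelianization of H has order at most 2. -/
theorem result {G : Type*} [Group G] [Finite G] (hres : Cfsg.pResidual 2 G = ⊤) (z : G) (hz : orderOf z = 2)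
    (E : Subgroup G) (hE : E = (Cfsg.pCore 2 ↥(Subgroup.centralizer ({z} : Set G))).map (Subgroup.centralizer ({z} : Set G)).subtype)
    (hext : Cfsg.IsExtraspecial 2 ↥E) (hcent : Subgroup.centralizer (E : Set G) ≤ E) :
    ∀ q : Abelianization ↥(Subgroup.centralizer ({z} : Set G)), (∃ k : ℕ, orderOf q = 2 ^ k) → q ^ 2 = 1 := by
  intro q ⟨k, hk⟩
  by_contra hq
  have hz1 : z ≠ 1 := by rintro rfl; simp at hz
  have hEH : E ≤ Subgroup.centralizer {z} := hE ▸ Subgroup.map_subtype_le _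
  have hc : ∀ q ∈ E, q * z = z * q := fun q hq => Subgroup.mem_centralizer_singleton_iff.mp (hEH hq)
  have h := H7.es_of_isExtraspecial hext hz1 (hcent hc) hc
  obtain ⟨χ, hχ⟩ := CommGroup.exists_apply_ne_one_of_hasEnoughRootsOfUnity
    (Abelianization (H9.Cen z)) ℂ hq
  let φ : H9.Cen z →* ℂˣ := χ.comp Abelianization.of
  obtain ⟨m, hm⟩ : 4 ∣ Monoid.exponent φ.range := by
    obtain ⟨a, rfl⟩ : ∃ a, Abelianization.of a = q := Quot.exists_rep q
    have h1 : orderOf (φ a) ∣ 2 ^ k := hk ▸ orderOf_map_dvd χ _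
    obtain ⟨j, -, hj⟩ := (Nat.dvd_prime_pow Nat.prime_two).1 h1
    have h2 : 2 ≤ j := by
      by_contra hc
      apply hχ
      rw [map_pow, ← orderOf_dvd_iff_pow_eq_one]
      exact hj ▸ pow_dvd_pow 2 (show j ≤ 1 by omega)
    refine (pow_dvd_pow 2 h2).trans (hj ▸ ?_)
    rw [← Subgroup.orderOf_mk (H := φ.range) (φ a) ⟨a, rfl⟩]
    exact Monoid.order_dvd_exponent _
  have hfin : Finite φ.range := Finite.of_surjective _ φ.rangeRestrict_surjective
  have hm0 : 0 < m := Nat.pos_of_ne_zero fun c => Monoid.exponent_ne_zero_of_finite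
    (G := φ.range) (by rw [hm, c])
  let ψ : H9.Cen z →* ℂˣ := (powMonoidHom (2 * m)).comp φ
  have hψ : ∀ a, ψ a = 1 ∨ ψ a = -1 := fun a => by
    have h1 := congrArg Subtype.val (Monoid.pow_exponent_eq_one (⟨φ a, a, rfl⟩ : φ.range))
    have h2 : ψ a ^ 2 = 1 := by
      show (φ a ^ (2 * m)) ^ 2 = 1
      rw [← pow_mul, show 2 * m * 2 = 4 * m by ring, ← hm]; exact h1
    have h3 : ((ψ a : ℂˣ) : ℂ) ^ 2 = 1 := by rw [← Units.val_pow_eq_pow_val, h2, Units.val_one]
    exact (sq_eq_one_iff.1 h3).imp (fun e => Units.ext e) fun e => Units.ext e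
  obtain ⟨a, ha⟩ : ∃ a, ψ a ≠ 1 := by
    by_contra hc
    push Not at hc
    have := Monoid.exponent_min' (G := φ.range) (2 * m) (by omega) (by
      rintro ⟨_, a, rfl⟩; exact Subtype.ext (hc a))
    omega
  have n1 : (-1 : ℂˣ) ≠ 1 := fun c => by
    have := congrArg Units.val c
    norm_num at this
  refine H8.es_no_four (H7.hom_eq_one_of_pResidual hres) h (hE ▸ H4.le_normalizer_map_subtype _)
    hcent (M := ψ.ker.map (H9.Cen z).subtype) (K := φ.ker.map (H9.Cen z).subtype) ?_ ?_ ?_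
  · rw [Subgroup.relIndex, Subgroup.subgroupOf, Subgroup.comap_map_eq_self_of_injective
      (Subgroup.subtype_injective _), Subgroup.index_eq_two_iff]
    refine ⟨a, fun b => ?_⟩
    simp only [MonoidHom.mem_ker, map_mul, (hψ a).resolve_left ha]
    rcases hψ b with e | e <;> rw [e] <;> simp [n1]
  · intro a ha b hb
    refine ⟨⁅(⟨a, ha⟩ : H9.Cen z), (⟨b, hb⟩ : H9.Cen z)⁆, ?_, rfl⟩
    rw [SetLike.mem_coe, MonoidHom.mem_ker, map_commutatorElement,
      commutatorElement_eq_one_iff_mul_comm, mul_comm]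
  · rintro x hx h1 ⟨y, h2, h3⟩
    refine h1 ⟨⟨x, hx⟩, ?_, rfl⟩
    have : y = (⟨x, hx⟩ : H9.Cen z) ^ 2 := Subtype.ext (h3.trans (sq x).symm)
    rw [this, SetLike.mem_coe, MonoidHom.mem_ker, map_pow] at h2
    show φ ⟨x, hx⟩ ^ (2 * m) = 1
    rw [pow_mul, h2, one_pow]

end Cfsg.Agent.S3301
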