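import Cfsg.Statements.S3303
import Cfsg.Agent.H9.Loc1

set_option autoImplicit false
open Cfsg

namespace Cfsg.Agent.S3303

open Subgroup

/-- Let G be a finite solvable group in which the intersection of any two distinct Sylow 2-subgroups is cyclic. Then G/O(G) has a normal Sylow 2-subgroup, where O(G) is the largest normal subgroup of odd order. -/
theorem result {G : Type*} [Group G] [Finite G] (hs : Group.IsSolvable G)
    (hC : ∀ S T : Sylow 2 G, S ≠ T → IsCyclic ↥((S : Subgroup G) ⊓ (T : Subgroup G))) :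
    ∃ P : Sylow 2 (G ⧸ Cfsg.oddCore G), (P : Subgroup (G ⧸ Cfsg.oddCore G)).Normal := by
  have : Fact (Nat.Prime 2) := ⟨Nat.prime_two⟩
  apply H9.exists_normal_sylow_of_subsingleton
  intro S T
  by_contra hST
  obtain ⟨S', T', h1, R, h2, h3⟩ :=
    H9.exists_sylow_pair_lift (QuotientGroup.mk'_surjective (oddCore G)) S T hST
  have h4 := H9.isCyclic_map (QuotientGroup.mk' (oddCore G)) (H9.isCyclic_of_le h2 (hC S' T' h1))
  rw [h3] at h4
  exact hST (H9.sylow_eq_of_isPGroup (H9.isPGroup_of_isCyclic_pCore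
    (H5.isPConstrained_iff.1 (H5.isPConstrained_of_isSolvable hs))
    (H9.isCyclic_of_le (le_inf (H4.pCore_le_sylow S) (H4.pCore_le_sylow T)) h4)) S T)

end Cfsg.Agent.S3303
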