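import Cfsg.Statements.S3304
import Cfsg.Agent.H9.GL23

set_option autoImplicit false
open Cfsg

namespace Cfsg.Agent.S3304

open Subgroup

theorem main {Q : Type*} [Group Q] [Finite Q] (hchar : centralizer (pCore 2 Q : Set Q) ≤ pCore 2 Q)
    (hY : H9.Q8Like (pCore 2 Q)) (S T : Sylow 2 Q) (hST : S ≠ T) :
    Nonempty (Q ≃* GL (Fin 2) (ZMod 3)) ∨ (Nat.card Q = 48 ∧ Nat.card (center Q) = 2 ∧
      Nonempty (Q ⧸ center Q ≃* Equiv.Perm (Fin 4)) ∧
      ∀ P : Sylow 2 Q, Nonempty (↥(P : Subgroup Q) ≃* QuaternionGroup 4)) := by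
  have : Fact (Nat.Prime 2) := ⟨Nat.prime_two⟩
  have : Fact (Nat.Prime 3) := ⟨Nat.prime_three⟩
  have hYp := H4.isPGroup_pCore 2 Q
  have hYn : (pCore 2 Q).Normal := inferInstance
  set Y := pCore 2 Q with hYdef
  have cj : ∀ y ∈ Y, ∀ g, g * y * g⁻¹ ∈ Y := fun y hy g => hYn.conj_mem y hy g
  have cj2 : ∀ y g : Q, y ^ 2 ≠ 1 → (g * y * g⁻¹) ^ 2 ≠ 1 := fun y g h => by
    rwa [conj_pow, Ne, conj_eq_one_iff]
  have o4 : ∀ y ∈ Y, y ^ 2 ≠ 1 → orderOf y = 4 := fun y hy h =>
    orderOf_eq_prime_pow (p := 2) (n := 1) h (hY.pow4 y hy)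
  have hN : ∀ y ∈ Y, y ^ 2 ≠ 1 → ∀ g : Q, Odd (orderOf g) →
      (g * y * g⁻¹ = y ∨ g * y * g⁻¹ = y⁻¹) → g = 1 := by
    intro y hy h g og hg
    have h1 : g ∈ H9.Cen y := H9.mem_Cen_of_odd (k := 2) (hY.pow4 y hy) (H9.mem_Nor.2 (by
      rcases hg with e | e <;> rw [e]
      exacts [mem_zpowers y, inv_mem (mem_zpowers y)])) og
    have h2 := H9.le_centralizer_of_two (Q₀ := zpowers y) (W := zpowers g) hYp
      (by rw [inf_eq_left.2 (zpowers_le.2 hy), Nat.card_zpowers, o4 y hy h, hY.card])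
      (by rwa [Nat.card_zpowers]) le_normalizer_of_normal
      (by rw [← H9.Cen_eq_centralizer_zpowers]
          exact inf_le_left.trans (zpowers_le.2 (H9.mem_Cen_comm.1 h1)))
    exact H9.eq_one_of_odd_of_mem hYp (hchar (le_centralizer_iff.1 h2 (mem_zpowers g))) og
  have gen : ∀ x ∈ Y, ∀ y ∈ Y, x ^ 2 ≠ 1 → y ^ 2 ≠ 1 → y ≠ x → y ≠ x⁻¹ →
      Y ≤ zpowers x ⊔ zpowers y := by
    intro x hx y hy a1 a2 a3 a4 w hw
    have mx : x ∈ zpowers x ⊔ zpowers y := mem_sup_left (mem_zpowers x)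
    have my : y ∈ zpowers x ⊔ zpowers y := mem_sup_right (mem_zpowers y)
    by_cases h : w ^ 2 = 1
    · rcases hY.inv x hx w hw a1 h with rfl | rfl
      exacts [one_mem _, pow_mem mx 2]
    by_contra hc
    rcases (hY.rel x hx y hy a1 a2 a3 a4).2.2.2.2.2.2 w hw h (fun e => hc (e ▸ mx))
      (fun e => hc (e ▸ inv_mem mx)) (fun e => hc (e ▸ my)) (fun e => hc (e ▸ inv_mem my))
      with rfl | rfl
    exacts [hc (mul_mem mx my), hc (inv_mem (mul_mem mx my))]
  obtain ⟨x, hx, x2⟩ := hY.ex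
  obtain ⟨y, hy, y2, yx, yx'⟩ := hY.ex2 x hx x2
  obtain ⟨r1, r2, r3, r4, r5, r6, r7⟩ := hY.rel x hx y hy x2 y2 yx yx'
  have oz : orderOf (x ^ 2) = 2 := H9.orderOf_sq_of_four (o4 x hx x2)
  have hC : H9.Cen x ⊓ H9.Cen y ≤ zpowers (x ^ 2) := by
    intro g hg
    have h1 : g ∈ Y := hchar (le_centralizer_iff.1 ((gen x hx y hy x2 y2 yx yx').trans (sup_le
      (zpowers_le.2 (H9.mem_Cen_comm.1 hg.1)) (zpowers_le.2 (H9.mem_Cen_comm.1 hg.2))) |>.trans
      (H9.Cen_eq_centralizer_zpowers g).le) (mem_zpowers g))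
    exact (H9.mem_zpowers_two oz).2 (hY.inv x hx g h1 x2
      (r6 g h1 (H9.mem_Cen.1 hg.1).symm (H9.mem_Cen.1 hg.2).symm))
  have hle : Nat.card Q ≤ 48 := by
    have c1 : Nat.card {g // IsConj x g} ≤ 6 := hY.six ▸ H9.card_subtype_le_of_imp fun g hg => by
      obtain ⟨c, rfl⟩ := isConj_iff.1 hg
      exact ⟨cj x hx c, cj2 x c x2⟩
    have c2 := H9.card_class_mul x
    have c3 := card_le_of_le hC
    rw [Nat.card_zpowers, oz] at c3
    have c4 := H7.card_inf_mul_relIndex (H9.Cen y) (H9.Cen x)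
    have c5 : (H9.Cen y).relIndex (H9.Cen x) ≤ 4 := by
      rw [← hY.four x hx x2]
      refine H9.relIndex_Cen_le _ _ _ fun g hg => ⟨cj y hy g, fun e => ?_⟩
      have h1 : y ∈ H9.Cen x := by
        have := mul_mem (mul_mem (inv_mem hg) (H9.mem_Cen.2 e)) hg
        simpa [mul_assoc] using this
      rw [← H9.mem_Cen.1 h1, mul_inv_cancel_right] at r1
      exact x2 (by rw [sq, mul_eq_one_iff_eq_inv]; exact r1)
    rw [inf_comm] at c4
    rw [← c2, ← c4]
    calc _ ≤ 6 * (2 * 4) := Nat.mul_le_mul c1 (Nat.mul_le_mul c3 c5)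
      _ = 48 := rfl
  have hYP : ∀ P : Sylow 2 Q, Y < P := fun P => lt_of_le_of_ne (H4.pCore_le_sylow P) fun e => by
    have hn : (P : Subgroup Q).Normal := e ▸ hYn
    have := Sylow.unique_of_normal P hn
    exact hST (Subsingleton.elim _ _)
  have hQ : Nat.card Q = 48 := by
    have c1 := H7.card_mul_le_of_lt S.isPGroup' (hYP S)
    have c2 := (S : Subgroup Q).index_mul_card
    have c3 := S.not_dvd_index
    have c4 : (S : Subgroup Q).index ≠ 1 := fun e => by
      have := hYP S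
      rw [index_eq_one] at e
      exact hST (H9.sylow_eq_of_isPGroup ((e ▸ S.isPGroup').of_equiv topEquiv) S T)
    rw [hY.card] at c1
    have c5 : 3 ≤ (S : Subgroup Q).index := by omega
    nlinarith
  have hP : ∀ P : Sylow 2 Q, Nat.card (P : Subgroup Q) = 2 ^ 4 := fun P =>
    H9.card_sylow_eq P (m := 3) hQ (by norm_num)
  by_cases ht : ∃ t, orderOf t = 2 ∧ t ∉ Y
  · left
    obtain ⟨t, ot, htY⟩ := ht
    have tt := H9.mul_self_of_orderOf_two ot
    have tc : ∀ a, t * (t * a * t⁻¹) * t⁻¹ = a := fun a => by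
      rw [H9.inv_eq_of_orderOf_two ot, ← mul_assoc, ← mul_assoc, tt, one_mul, mul_assoc, tt, mul_one]
    obtain ⟨u, pu, ou, hu⟩ := H9.exists_inverted_of_not_mem_pCore tt htY
    have u3 : orderOf u = 3 := by
      have h1 : orderOf u ∣ 2 ^ 4 * 3 := (orderOf_dvd_natCard u).trans hQ.dvd
      exact (Nat.prime_dvd_prime_iff_eq pu Nat.prime_three).1
        ((ou.coprime_two_right.pow_right 4).dvd_of_dvd_mul_left h1)
    have u1 := H9.ne_one_of_orderOf u3 (by norm_num)
    have hu3 := H9.pow_eq_one_of_orderOf u3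
    have uu : u * u = u⁻¹ := by rw [eq_inv_iff_mul_eq_one, ← hu3, pow_succ, pow_two]
    have eu : ∀ b, u⁻¹ * b * u⁻¹⁻¹ = u * (u * b * u⁻¹) * u⁻¹ := fun b => by
      calc u⁻¹ * b * u⁻¹⁻¹ = (u * u) * b * (u * u)⁻¹ := by rw [uu]
        _ = _ := by group
    have ou' : Odd (orderOf u⁻¹) := by rwa [orderOf_inv]
    obtain ⟨a, ha, a2, a3, a4⟩ : ∃ a ∈ Y, a ^ 2 ≠ 1 ∧ t * a * t⁻¹ ≠ a ∧ t * a * t⁻¹ ≠ a⁻¹ := by
      by_contra hcon
      push Not at hcon
      have k := fun a ha a2 => or_iff_not_imp_left.2 (hcon a ha a2)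
      have k1 := k _ (cj x hx u) (cj2 x u x2)
      rw [← conj_mul, ← conj_mul, ← conj_inv, hu] at k1
      apply u1 (hN x hx x2 u ou _)
      rw [eu, conj_inv (a := x)] at k1
      simp only [mul_left_inj, mul_right_inj] at k1
      rcases k x hx x2 with h | h <;> rw [h] at k1
      · exact k1
      · rw [← conj_inv] at k1
        exact k1.symm.imp (fun h => inv_injective h) (fun h => inv_eq_iff_eq_inv.1 h)
    obtain ⟨s1, -, s3, s4, -⟩ := hY.rel a ha _ (cj a ha t) a2 (cj2 a t a2) a3 a4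
    have key : ∀ i ∈ Y, i ^ 2 ≠ 1 → t * i * t⁻¹ = i⁻¹ →
        u * (u * i * u⁻¹) * u⁻¹ = i * (u * i * u⁻¹) → Nonempty (Q ≃* GL (Fin 2) (ZMod 3)) := by
      intro i hi i2 h1 h2
      have j1 : u * i * u⁻¹ ≠ i := fun e => u1 (hN i hi i2 u ou (Or.inl e))
      have j2 : u * i * u⁻¹ ≠ i⁻¹ := fun e => u1 (hN i hi i2 u ou (Or.inr e))
      obtain ⟨b1, b2, -⟩ := hY.rel i hi _ (cj i hi u) i2 (cj2 i u i2) j1 j2
      refine H9.iso_GL23 (hY.pow4 i hi) b1 b2 rfl h2 hu3 h1 hu (H9.pow_eq_one_of_orderOf ot) hQ ?_ ?_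
      · set K := zpowers i ⊔ zpowers (u * i * u⁻¹) ⊔ zpowers u ⊔ zpowers t
        have d1 : Y ⊔ zpowers t ≤ K := sup_le ((gen i hi _ (cj i hi u) i2 (cj2 i u i2) j1 j2).trans
          (le_sup_left.trans le_sup_left)) le_sup_right
        have d2 := card_dvd_of_le d1
        rw [H7.card_sup_zpowers (p := 2) (by rw [normalizer_eq_top]; trivial) htY
          (by rw [H9.pow_eq_one_of_orderOf ot]; exact one_mem _), hY.card] at d2
        have d3 : 3 ∣ Nat.card K :=
          u3 ▸ H9.orderOf_dvd_card_of_mem (mem_sup_left (mem_sup_right (mem_zpowers u)))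
        apply eq_top_of_le_card
        rw [hQ]
        exact Nat.le_of_dvd Nat.card_pos
          (Nat.Coprime.mul_dvd_of_dvd_of_dvd (by norm_num : Nat.Coprime 16 3) d2 d3)
      · intro N hNn hN0
        have h3 : N ⊓ Y ≠ ⊥ := fun e => by
          have : N ≤ Y := le_trans (commutator_eq_bot_iff_le_centralizer.1
            (eq_bot_iff.2 (e ▸ commutator_le_inf N Y))) hchar
          exact hN0 (by rw [← e, inf_eq_left.2 this])
        obtain ⟨w, hw, ow, -⟩ := H9.exists_central (hYp.to_le (inf_le_right : N ⊓ Y ≤ Y)) h3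
        rcases hY.inv i hi w hw.2 i2 (H9.pow_eq_one_of_orderOf ow) with h | h
        · exact absurd h (H9.ne_one_of_orderOf ow (by norm_num))
        · exact h ▸ hw.1
    have hi := mul_mem ha (cj a ha t)
    have h1 : t * (a * (t * a * t⁻¹)) * t⁻¹ = (a * (t * a * t⁻¹))⁻¹ := by rw [← conj_mul, tc, s4]
    generalize a * (t * a * t⁻¹) = i at hi h1 s3
    have j1 : u * i * u⁻¹ ≠ i := fun e => u1 (hN i hi s3 u ou (Or.inl e))
    have j2 : u * i * u⁻¹ ≠ i⁻¹ := fun e => u1 (hN i hi s3 u ou (Or.inr e))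
    have e : u * (u * i * u⁻¹) * u⁻¹ = u⁻¹ * i * u⁻¹⁻¹ := (eu i).symm
    obtain ⟨-, -, -, -, b5, -, b7⟩ := hY.rel i hi _ (cj i hi u) s3 (cj2 i u s3) j1 j2
    rcases b7 _ (cj _ (cj i hi u) u) (cj2 _ u (cj2 i u s3))
      (fun h => inv_ne_one.2 u1 (hN i hi s3 _ ou' (Or.inl (e ▸ h))))
      (fun h => inv_ne_one.2 u1 (hN i hi s3 _ ou' (Or.inr (e ▸ h))))
      (fun h => u1 (hN _ (cj i hi u) (cj2 i u s3) u ou (Or.inl h)))
      (fun h => u1 (hN _ (cj i hi u) (cj2 i u s3) u ou (Or.inr h))) with h | h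
    · exact key i hi s3 h1 h
    · refine key i⁻¹ (inv_mem hi) (by rwa [inv_pow, inv_ne_one]) (by rw [← conj_inv, h1]) ?_
      rw [← conj_inv, ← conj_inv, h, inv_inv, b5]
  right
  push Not at ht
  have hz : ∀ t, orderOf t = 2 → t = x ^ 2 := fun t ot =>
    (hY.inv x hx t (ht t ot) x2 (H9.pow_eq_one_of_orderOf ot)).resolve_left
      (H9.ne_one_of_orderOf ot (by norm_num))
  have hZ : center Q = zpowers (x ^ 2) := by
    refine le_antisymm (le_trans (fun g hg => ?_) hC) (zpowers_le.2 (mem_center_iff.2 fun g => ?_))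
    · exact ⟨H9.mem_Cen.2 (mem_center_iff.1 hg x), H9.mem_Cen.2 (mem_center_iff.1 hg y)⟩
    · exact mul_inv_eq_iff_eq_mul.1 (hz _ ((H9.orderOf_conj _ g).trans oz))
  have hZc : Nat.card (center Q) = 2 := by rw [hZ, Nat.card_zpowers, oz]
  refine ⟨hQ, hZc, H9.iso_S4 ?_ fun g hg => ?_, fun P => ?_⟩
  · have := card_eq_card_quotient_mul_card_subgroup (center Q)
    rw [hQ, hZc] at this
    omega
  · induction g using QuotientGroup.induction_on with | H g => ?_
    have h1 : g ^ 6 ∈ center Q := by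
      rw [← QuotientGroup.eq_one_iff, QuotientGroup.mk_pow, ← hg, pow_orderOf_eq_one]
    have h2 : ∀ n, g ^ n ∈ center Q → 6 ∣ n := fun n h => by
      rw [← QuotientGroup.eq_one_iff, QuotientGroup.mk_pow, ← orderOf_dvd_iff_pow_eq_one, hg] at h
      exact h
    have h12 : g ^ 12 = 1 := by
      rw [show 12 = 6 * 2 from rfl, pow_mul]; exact H9.pow_eq_one_of_mem hZc h1
    have o3 : orderOf (g ^ 4) = 3 := orderOf_eq_prime (by rw [← pow_mul, h12])
      fun e => absurd (h2 4 (e ▸ one_mem _)) (by norm_num)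
    have h3 : (g ^ 3) ^ 2 ≠ 1 := fun e => by
      have : g ^ 3 ≠ 1 := fun e => absurd (h2 3 (e ▸ one_mem _)) (by norm_num)
      exact absurd (h2 3 (by
        rw [hz _ (H9.orderOf_two_of e this), hZ]; exact mem_zpowers _)) (by norm_num)
    have h4 : g ^ 3 ∈ Y := by
      by_contra hn
      have hK := H7.card_sup_zpowers (p := 2) (N := Y) (by rw [normalizer_eq_top]; trivial) hn
        (by rw [← pow_mul]; exact zpowers_le.2 (pow_mem hx 2) (hZ ▸ h1))
      obtain ⟨P, hP⟩ := H9.exists_sylow_eq (p := 2) (k := 4) (m := 3) _ hQ (by norm_num)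
        (hK.trans (by rw [hY.card]; rfl))
      have h5 : g ^ 4 ∈ normalizer ((Y ⊔ zpowers (g ^ 3) : Subgroup Q) : Set Q) :=
        zpowers_le.1 (H4.le_normalizer_sup le_normalizer_of_normal (zpowers_le.2
          (H9.Cen_le_Nor _ (H9.mem_Cen.2 (by group)))))
      have d1 := card_dvd_of_le (le_normalizer (H := Y ⊔ zpowers (g ^ 3)))
      have d2 := H9.orderOf_dvd_card_of_mem h5
      rw [hK, hY.card] at d1
      rw [o3] at d2
      have h6 : normalizer ((Y ⊔ zpowers (g ^ 3) : Subgroup Q) : Set Q) = ⊤ := by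
        apply eq_top_of_le_card
        rw [hQ]
        exact Nat.le_of_dvd Nat.card_pos
          (Nat.Coprime.mul_dvd_of_dvd_of_dvd (by norm_num : Nat.Coprime 16 3) d1 d2)
      have := Sylow.unique_of_normal P (hP ▸ normalizer_eq_top_iff.1 h6)
      exact hST (Subsingleton.elim _ _)
    exact H9.ne_one_of_orderOf o3 (by norm_num)
      (hN _ h4 h3 _ (by rw [o3]; decide) (Or.inl (by group)))
  · rcases H7.isCyclic_or_quaternion P.isPGroup' (H7.rank_le_one_of_unique_involution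
      fun a b ha hb => Subtype.ext ((hz _ ((Subgroup.orderOf_coe a).trans ha)).trans
        (hz _ ((Subgroup.orderOf_coe b).trans hb)).symm)) with h | ⟨n, ⟨e⟩⟩
    · exfalso
      rw [← H5.comm_of_isMulCommutative h.isMulCommutative ((hYP P).le hx) ((hYP P).le hy),
        mul_inv_cancel_right] at r1
      exact x2 (by rw [sq, mul_eq_one_iff_eq_inv]; exact r1)
    · have h1 := Nat.card_congr e.toEquiv
      rw [hP, Nat.card_eq_fintype_card, QuaternionGroup.card, show 4 = 2 ^ 2 from rfl, ← pow_add]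
        at h1
      have : n = 1 := by have := Nat.pow_right_injective (le_refl 2) h1; omega
      subst this
      exact ⟨e⟩


/-- Let G be a finite solvable group in which the intersection of any two distinct Sylow 2-subgroups has 2-rank at most 1 (contains no Klein four-group). Write Q = G/O(G), O(G) the largest normal subgroup of odd order. Then Q has a normal Sylow 2-subgroup; or Q is isomorphic to GL(2,3); or Q has order 48, centre of order 2 with central quotient isomorphic to the symmetric group of degree 4, and generalized quaternion Sylow 2-subgroups of order 16 (the binary octahedral group). The last two are the two representation groups of the symmetric group of degree 4. -/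
theorem result {G : Type*} [Group G] [Finite G] (hs : Group.IsSolvable G)
    (hI : ∀ S T : Sylow 2 G, S ≠ T → Cfsg.PRankLE 2 1 ↥((S : Subgroup G) ⊓ (T : Subgroup G))) :
    (∃ P : Sylow 2 (G ⧸ Cfsg.oddCore G), (P : Subgroup (G ⧸ Cfsg.oddCore G)).Normal) ∨
    Nonempty ((G ⧸ Cfsg.oddCore G) ≃* GL (Fin 2) (ZMod 3)) ∨
    (Nat.card (G ⧸ Cfsg.oddCore G) = 48 ∧ Nat.card ↥(Subgroup.center (G ⧸ Cfsg.oddCore G)) = 2 ∧
      Nonempty ((G ⧸ Cfsg.oddCore G) ⧸ Subgroup.center (G ⧸ Cfsg.oddCore G) ≃* Equiv.Perm (Fin 4)) ∧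
      ∀ P : Sylow 2 (G ⧸ Cfsg.oddCore G), Nonempty (↥(P : Subgroup (G ⧸ Cfsg.oddCore G)) ≃* QuaternionGroup 4)) := by
  have : Fact (Nat.Prime 2) := ⟨Nat.prime_two⟩
  by_cases h : ∀ S T : Sylow 2 (G ⧸ oddCore G), S = T
  · exact Or.inl (H9.exists_normal_sylow_of_subsingleton h)
  right
  push Not at h
  obtain ⟨S, T, hST⟩ := h
  obtain ⟨S', T', h1, R, h2, h3⟩ :=
    H9.exists_sylow_pair_lift (QuotientGroup.mk'_surjective (oddCore G)) S T hST
  obtain ⟨e⟩ := H9.nonempty_equiv_map (QuotientGroup.mk' (oddCore G)) (T := R) (by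
    rw [QuotientGroup.ker_mk']
    exact H4.inf_eq_bot_of_pGroup_coprime (S'.isPGroup'.to_le (h2.trans inf_le_left))
      (H4.coprime_card_pPrimeCore 2 G))
  have hchar := H5.isPConstrained_iff.1 (H5.isPConstrained_of_isSolvable (p := 2) hs)
  have hY := H4.isPGroup_pCore 2 (G ⧸ oddCore G)
  have h4 : PRankLE 2 1 (pCore 2 (G ⧸ oddCore G)) :=
    H9.prankLE_of_injective (((inclusion h2).comp e.symm.toMonoidHom).comp
      (inclusion (h3 ▸ le_inf (H4.pCore_le_sylow S) (H4.pCore_le_sylow T))))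
      (((inclusion_injective h2).comp e.symm.injective).comp (inclusion_injective _)) (hI S' T' h1)
  rcases H7.isCyclic_or_quaternion hY h4 with h5 | ⟨n, ⟨e⟩⟩
  · exact absurd (H9.sylow_eq_of_isPGroup (H9.isPGroup_of_isCyclic_pCore hchar h5) S T) hST
  rcases n with _ | n
  · exact main hchar (H9.q8Like e) S T hST
  · obtain ⟨a, ha, oa, hc, hb⟩ := H9.quat_data e
    refine absurd (H9.sylow_eq_of_isPGroup (H9.isPGroup_of_forall_odd fun g hg =>
      H9.eq_one_of_odd_of_mem hY (hchar ?_) hg) S T) hST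
    refine H9.mem_centralizer_of_quat hY le_rfl ha (oa ▸ hc) (fun b h1 h2 => ?_) ha ?_
      (by rw [normalizer_eq_top]; trivial) hg
    · rw [show 4 = 2 * 2 from rfl, pow_mul, (hb b h1 h2).2, ← pow_mul, mul_comm, ← oa,
        pow_orderOf_eq_one]
    · rw [Ne, ← orderOf_dvd_iff_pow_eq_one, oa]
      intro h
      have h1 := Nat.le_of_dvd (by norm_num) h
      have h2 : 0 < 2 ^ n := by positivity
      rw [pow_succ, pow_succ] at h1
      omega

end Cfsg.Agent.S3304
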