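import Cfsg.Statements.S3309
import Cfsg.Agent.H9.Loc2

set_option autoImplicit false
open Cfsg

namespace Cfsg.Agent.S3309

open Subgroup

abbrev K := Multiplicative (ZMod 2) × DihedralGroup 4

def z : K := (Multiplicative.ofAdd 1, 1)
def c : K := (1, .r 2)
def s : K := (1, .sr 0)
def t : K := (1, .sr 1)
def r : K := (1, .r 1)

def par : DihedralGroup 4 → Bool
  | .r i => i = 0 || i = 2
  | .sr i => i = 0 || i = 2

def rot : DihedralGroup 4 → Bool
  | .r _ => true
  | .sr _ => false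

def mkS (f : K → Bool) (h1 : f 1 = true) (h2 : ∀ a b, f a = true → f b = true → f (a * b) = true)
    (h3 : ∀ a, f a = true → f a⁻¹ = true) : Subgroup K where
  carrier := {a | f a = true}
  one_mem' := h1
  mul_mem' := fun ha hb => h2 _ _ ha hb
  inv_mem' := fun ha => h3 _ ha

theorem card_mkS (f : K → Bool) (h1 h2 h3) (h : (Finset.univ.filter fun a => f a = true).card = 8) :
    Nat.card (mkS f h1 h2 h3) = 8 := by
  rw [← h, ← Fintype.card_subtype, ← Nat.card_eq_fintype_card]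
  rfl

theorem fin {R : K → K → Prop} (hs : ∀ a b, R a b → R b a) (ht : ∀ a b d, R a b → R b d → R a d)
    (hc : ∀ a g, R a (g * a * g⁻¹)) (h2 : ∀ a b, R a b → a ^ 2 = 1 → a ≠ 1 → b ^ 2 = 1 ∧ b ≠ 1)
    (hT : ∀ M : Subgroup K, Nat.card M = 8 → ∀ a, a ^ 2 = 1 → ∃ b ∈ M, R a b)
    (hC : ∀ a b, R a b → (∀ g, g * b = b * g) → ∃ ψ : K → K, ψ a = b ∧
      ∀ x, x * a = a * x → R x (ψ x) ∧ ∀ y, y * a = a * y → ψ (x * y) = ψ x * ψ y ∧
        (ψ x = ψ y → x = y))
    (hz : ¬ R z (z * c)) : False := by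
  have hcz : ∀ b, (∀ g, g * b = b * g) → R c b → b = c := by
    intro b hb h
    obtain ⟨ψ, e1, e2⟩ := hC _ _ h hb
    have e3 := ((e2 r (by decide)).2 r (by decide)).1
    rw [show r * r = c by decide, e1] at e3
    have := (h2 _ _ h (by decide) (by decide)).2
    rw [e3] at this ⊢
    revert this
    generalize ψ r = x
    revert x
    decide
  have h1 : ¬ R z c := fun h => absurd (hcz z (by decide) (hs _ _ h)) (by decide)
  have h3 : ¬ R (z * c) c := fun h => absurd (hcz _ (by decide) (hs _ _ h)) (by decide)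
  have rc : ∀ u x, x = s ∨ x = t ∨ x = s * z ∨ x = t * z → R u (x * c) → R u x := by
    intro u x hx h
    refine ht _ _ _ h ?_
    have := hc (x * c) r
    rwa [show r * (x * c) * r⁻¹ = x by rcases hx with rfl | rfl | rfl | rfl <;> decide] at this
  have rc' : ∀ u x, x = s ∨ x = t ∨ x = s * z ∨ x = t * z → R u x → R u (x * c) := by
    intro u x hx h
    refine ht _ _ _ h ?_
    have := hc x r
    rwa [show r * x * r⁻¹ = x * c by rcases hx with rfl | rfl | rfl | rfl <;> decide] at this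
  have key : ∀ (M : Subgroup K) (x y : K), Nat.card M = 8 →
      x = s ∨ x = t ∨ x = s * z ∨ x = t * z → y = s ∨ y = t ∨ y = s * z ∨ y = t * z →
      (∀ b ∈ M, b ^ 2 = 1 → b ≠ 1 → b = c ∨ b = x ∨ b = x * c ∨ b = y ∨ b = y * c) →
      (R z x ∧ R (z * c) y) ∨ (R z y ∧ R (z * c) x) := by
    intro M x y hM hx hy h
    have k : ∀ u, u ^ 2 = 1 → u ≠ 1 → ¬ R u c → R u x ∨ R u y := by
      intro u u2 u1 hu
      obtain ⟨b, hb, hub⟩ := hT M hM u u2
      obtain ⟨b2, b1⟩ := h2 _ _ hub u2 u1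
      rcases h b hb b2 b1 with rfl | rfl | rfl | rfl | rfl
      · exact absurd hub hu
      · exact Or.inl hub
      · exact Or.inl (rc _ _ hx hub)
      · exact Or.inr hub
      · exact Or.inr (rc _ _ hy hub)
    rcases k z (by decide) (by decide) h1 with a | a <;>
      rcases k (z * c) (by decide) (by decide) h3 with b | b
    · exact absurd (ht _ _ _ a (hs _ _ b)) hz
    · exact Or.inl ⟨a, b⟩
    · exact Or.inr ⟨a, b⟩
    · exact absurd (ht _ _ _ a (hs _ _ b)) hz
  have k1 := key (mkS (fun a => a.1 = 1) (by decide) (by decide) (by decide)) s t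
    (card_mkS _ _ _ _ (by decide)) (by simp) (by simp)
    (show ∀ b : K, decide (b.1 = 1) = true → _ by decide)
  have k2 := key (mkS (fun a => decide (a.1 = 1) == rot a.2) (by decide) (by decide) (by decide))
    (s * z) (t * z) (card_mkS _ _ _ _ (by decide)) (by simp) (by simp)
    (show ∀ b : K, (decide (b.1 = 1) == rot b.2) = true → _ by decide)
  have k3 := key (mkS (fun a => decide (a.1 = 1) == par a.2) (by decide) (by decide) (by decide))
    s (t * z) (card_mkS _ _ _ _ (by decide)) (by simp) (by simp)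
    (show ∀ b : K, (decide (b.1 = 1) == par b.2) = true → _ by decide)
  have last : ∀ u v : K, (u = z ∧ v = z * c) ∨ (u = z * c ∧ v = z) → R u s → R u (s * z) →
      R v t → R v (t * z) → False := by
    intro u v huv a1 a2 a3 a4
    have b0 : ¬ R u v := by
      rcases huv with ⟨rfl, rfl⟩ | ⟨rfl, rfl⟩
      · exact hz
      · exact fun h => hz (hs _ _ h)
    have b1 : ¬ R u c := by rcases huv with ⟨rfl, rfl⟩ | ⟨rfl, rfl⟩ <;> assumption
    have b2 : ¬ R v c := by rcases huv with ⟨rfl, rfl⟩ | ⟨rfl, rfl⟩ <;> assumption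
    have a5 := rc' _ _ (by simp) a1
    have a6 := rc' _ _ (by simp) a2
    have a7 := rc' _ _ (by simp) a3
    have a8 := rc' _ _ (by simp) a4
    have en : ∀ b : K, b ^ 2 = 1 → b ≠ 1 → b = c ∨ b = u ∨ b = v ∨ b = s ∨ b = s * c ∨ b = s * z ∨
        b = s * z * c ∨ b = t ∨ b = t * c ∨ b = t * z ∨ b = t * z * c := by
      rcases huv with ⟨rfl, rfl⟩ | ⟨rfl, rfl⟩ <;> decide
    obtain ⟨ψ, e1, e2⟩ := hC _ _ (hs _ _ a1) (by rcases huv with ⟨rfl, rfl⟩ | ⟨rfl, rfl⟩ <;> decide)
    have us : u * s = s * u := by rcases huv with ⟨rfl, rfl⟩ | ⟨rfl, rfl⟩ <;> decide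
    have vs : v * s = s * v := by rcases huv with ⟨rfl, rfl⟩ | ⟨rfl, rfl⟩ <;> decide
    have uc : u * c = v := by rcases huv with ⟨rfl, rfl⟩ | ⟨rfl, rfl⟩ <;> decide
    have f1 : ψ c = c := by
      have g1 := hs _ _ (e2 c (by decide)).1
      obtain ⟨g2, g3⟩ := h2 _ _ (hs _ _ g1) (by decide) (by decide)
      rcases en _ g2 g3 with h | h | h | h | h | h | h | h | h | h | h
      · exact h
      all_goals rw [h] at g1
      · exact absurd g1 b1
      · exact absurd g1 b2
      all_goals first | exact absurd (ht _ _ _ (by assumption) g1) b1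
                      | exact absurd (ht _ _ _ (by assumption) g1) b2
    have g1 := (e2 u us).1
    have g4 := (e2 v vs).1
    rw [← uc, ((e2 u us).2 c (by decide)).1, f1, uc] at g4
    obtain ⟨g2, g3⟩ := h2 _ _ g1 (by rcases huv with ⟨rfl, rfl⟩ | ⟨rfl, rfl⟩ <;> decide)
      (by rcases huv with ⟨rfl, rfl⟩ | ⟨rfl, rfl⟩ <;> decide)
    have cc : ∀ x : K, x * c * c = x := by decide
    rcases en _ g2 g3 with h | h | h | h | h | h | h | h | h | h | h
    · exact b1 (h ▸ g1)
    · have := ((e2 u us).2 s rfl).2 (h.trans e1.symm)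
      revert this
      rcases huv with ⟨rfl, rfl⟩ | ⟨rfl, rfl⟩ <;> decide
    · exact b0 (h ▸ g1)
    · rw [h] at g4; exact b0 (ht _ _ _ a5 (hs _ _ g4))
    · rw [h, cc] at g4; exact b0 (ht _ _ _ a1 (hs _ _ g4))
    · rw [h] at g4; exact b0 (ht _ _ _ a6 (hs _ _ g4))
    · rw [h, cc] at g4; exact b0 (ht _ _ _ a2 (hs _ _ g4))
    all_goals rw [h] at g1; exact b0 (ht _ _ _ g1 (hs _ _ (by assumption)))
  have nb : ∀ x, R z x → R (z * c) x → False := fun x a b => hz (ht _ _ _ a (hs _ _ b))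
  rcases k1 with ⟨a1, a2⟩ | ⟨a1, a2⟩ <;> rcases k2 with ⟨a3, a4⟩ | ⟨a3, a4⟩ <;>
    rcases k3 with ⟨a5, a6⟩ | ⟨a5, a6⟩
  all_goals first
    | exact nb _ a1 a6
    | exact nb _ a5 a2
    | exact nb _ a3 a6
    | exact nb _ a5 a4
    | exact last _ _ (Or.inl ⟨rfl, rfl⟩) a1 a3 a2 a4
    | exact last _ _ (Or.inr ⟨rfl, rfl⟩) a2 a4 a1 a3

theorem d1 : ∀ g : K, g * (z * c) = z * c * g := by decide
theorem d2 : ∀ g : K, g * z = z * g := by decide
theorem d3 : c ≠ 1 := by decide
theorem d4 : ∀ x : K, x * x ≠ 1 → x * x = c := by decide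
theorem d5 : z ≠ z * c := by decide
theorem d6 : r * r = c := by decide
theorem d7 : z * c * c = z := by decide


/-- A finite group whose Sylow 2-subgroups are isomorphic to the direct product of a group of order 2 and the dihedral group of order 8 is not a non-abelian simple group. -/
theorem result {G : Type*} [Group G] [Finite G] (S : Sylow 2 G) (hS : Nonempty (↥(S : Subgroup G) ≃* Multiplicative (ZMod 2) × DihedralGroup 4))
    [IsSimpleGroup G] (hG : ¬ IsMulCommutative G) : False := by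
  have : Fact (Nat.Prime 2) := ⟨Nat.prime_two⟩
  have hperf : Group.IsPerfect G := H9.perfect_of_simple fun h => by
    have : Fact (Nat.card G).Prime := ⟨h⟩
    exact hG (isCyclic_of_prime_card rfl).isMulCommutative
  obtain ⟨e⟩ := hS
  let ι : K →* G := (S : Subgroup G).subtype.comp e.symm.toMonoidHom
  have hι : Function.Injective ι := Subtype.val_injective.comp e.symm.injective
  have hm : ∀ a, ι a ∈ (S : Subgroup G) := fun a => (e.symm a).2
  have hsurj : ∀ g ∈ (S : Subgroup G), ∃ a, ι a = g := fun g hg => ⟨e ⟨g, hg⟩, by simp [ι]⟩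
  have hcard : Nat.card (S : Subgroup G) = 16 := by
    rw [Nat.card_congr e.toEquiv, Nat.card_prod, DihedralGroup.nat_card]; simp
  have hC : ∀ a b, IsConj (ι a) (ι b) → (∀ g, g * b = b * g) → ∃ g : G, g * ι a * g⁻¹ = ι b ∧
      ∀ x, x * a = a * x → g * ι x * g⁻¹ ∈ (S : Subgroup G) := by
    intro a b h hb
    obtain ⟨g, hg⟩ := isConj_iff.1 h
    have h1 : (S : Subgroup G) ≤ H9.Cen (ι b) := fun x hx => by
      obtain ⟨x, rfl⟩ := hsurj x hx
      rw [H9.mem_Cen, ← map_mul, ← map_mul, hb]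
    obtain ⟨k, hk, hk'⟩ := ((H5.isSylowOf_top S).of_le h1 le_top).exists_conj_le
      (Q := H4.conjS g ((S : Subgroup G) ⊓ H9.Cen (ι a))) ((S.isPGroup'.to_le inf_le_left).map _)
      (by rw [← hg, H9.Cen_conj]; exact H4.conjS_mono g inf_le_right)
    refine ⟨k * g, ?_, fun x hx => ?_⟩
    · rw [← H9.mem_Cen'.1 hk, ← hg]; group
    · have := hk' (H4.conj_mem_conjS (H4.conj_mem_conjS (x := ι x)
        ⟨hm x, H9.mem_Cen.2 (by rw [← map_mul, ← map_mul, hx])⟩))
      convert this using 1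
      group
  refine fin (R := fun a b => IsConj (ι a) (ι b)) (fun a b h => h.symm)
    (fun a b d h1 h2 => h1.trans h2) (fun a g => isConj_iff.2 ⟨ι g, by simp⟩) ?_ ?_ ?_ ?_
  · intro a b h a2 a1
    have h1 := H9.orderOf_of_isConj h
    rw [orderOf_injective ι hι, orderOf_injective ι hι, H9.orderOf_two_of a2 a1] at h1
    exact ⟨H9.pow_eq_one_of_orderOf h1, H9.ne_one_of_orderOf h1 (by norm_num)⟩
  · intro M hM a a2
    have h1 : M.map ι ≤ S := by
      rintro _ ⟨x, -, rfl⟩
      exact hm x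
    obtain ⟨g, b, hb, hg⟩ := H9.thompson_transfer (M.map ι) (by
      have h2 := H9.index_subgroupOf_eq h1 (k := 2) (by rw [card_map_of_injective hι, hM, hcard])
      have h3 := S.not_dvd_index
      rw [← relIndex_mul_index h1, relIndex, h2]
      omega) (ι a) (by rw [← map_pow, a2, map_one])
    exact ⟨b, hb, isConj_iff.2 ⟨g⁻¹, by rw [hg, inv_inv]⟩⟩
  · intro a b h hb
    obtain ⟨g, h1, h2⟩ := hC a b h hb
    have : ∀ x, ∃ y, x * a = a * x → ι y = g * ι x * g⁻¹ := fun x => by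
      by_cases hx : x * a = a * x
      · obtain ⟨y, hy⟩ := hsurj _ (h2 x hx)
        exact ⟨y, fun _ => hy⟩
      · exact ⟨1, fun h => absurd h hx⟩
    choose ψ hψ using this
    refine ⟨ψ, hι ((hψ a rfl).trans h1), fun x hx => ⟨isConj_iff.2 ⟨g, (hψ x hx).symm⟩,
      fun y hy => ⟨hι ?_, fun e => hι ?_⟩⟩⟩
    · rw [map_mul, hψ x hx, hψ y hy, hψ _ (by rw [mul_assoc, hy, ← mul_assoc, hx, mul_assoc]),
        map_mul, conj_mul]
    · have := hψ x hx
      rw [e, hψ y hy] at this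
      exact (mul_left_cancel (mul_right_cancel this)).symm
  · intro h
    obtain ⟨g, h1, h2⟩ := hC _ _ h d1
    have hg : g ∈ normalizer ((S : Subgroup G) : Set G) :=
      H9.mem_normalizer_of_conj_mem fun x hx => by
        obtain ⟨x, rfl⟩ := hsurj x hx
        exact h2 x (d2 x)
    have h3 : g * ι c * g⁻¹ = ι c := by
      obtain ⟨y, hy⟩ := hsurj _ (h2 r (d2 r))
      have e1 : g * ι c * g⁻¹ = ι (y * y) := by
        rw [map_mul, hy, conj_mul, ← map_mul, d6]
      have e2 : y * y ≠ 1 := fun e => by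
        rw [e, map_one, conj_eq_one_iff, map_eq_one_iff ι hι] at e1
        exact d3 e1
      rw [e1, d4 y e2]
    have h4 : g ^ 2 ∈ H9.Cen (ι z) := by
      rw [H9.mem_Cen', sq]
      calc g * g * ι z * (g * g)⁻¹ = g * (g * ι z * g⁻¹) * g⁻¹ := by group
        _ = _ := by rw [h1, map_mul, ← conj_mul, h1, h3, ← map_mul, d7]
    obtain ⟨a, ha, b, hb, e1, ⟨k, hk⟩, ob⟩ := H4.exists_pPart 2 g
    have h5 : a ∈ H9.Cen (ι z) := by
      obtain ⟨x, rfl⟩ := hsurj a (H9.mem_sylow_of_mem_normalizer S hk (zpowers_le.2 hg ha))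
      rw [H9.mem_Cen, ← map_mul, ← map_mul, d2]
    have h6 : b ∈ H9.Cen (ι z) := by
      refine H4.mem_of_pow_mem_of_coprime (m := 2) ?_ ob
      rw [e1, (show Commute a b from H9.comm_of_mem_zpowers ha hb).mul_pow] at h4
      exact (mul_mem_cancel_left (pow_mem h5 2)).1 h4
    rw [H9.mem_Cen'.1 (e1 ▸ mul_mem h5 h6)] at h1
    exact d5 (hι h1)

end Cfsg.Agent.S3309
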