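import Cfsg.Statements.S3313
import Cfsg.Agent.H8.ES32
import Cfsg.Agent.H5.Basic

set_option autoImplicit false
open Cfsg

namespace Cfsg.Agent.S3313

open Subgroup H8 H9 H7

theorem cnt_t {G : Type*} [Group G] [Finite G] {z t : G} (hz : orderOf z = 2) (ht : orderOf t = 2)
    (hzt : ¬ IsConj z t) {V B : Subgroup G} (hVB : Cfsg.IsInternalDirectProduct V B (Cen t))
    (hV2 : ∀ v ∈ V, v ^ 2 = 1) (htV : t ∈ V) (hB : A5Like B)
    (hBz : ∀ x ∈ B, orderOf x = 2 → IsConj x z)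
    (hCt : ∀ x ∈ Cen t, orderOf x = 2 → x ∉ B → IsConj x t) : thA z t t = 195 := by
  obtain ⟨v1, v2, v3, v4, v5⟩ := hVB
  have t2 := sq_of_orderOf ht
  have t1 : t ≠ 1 := ne_one_of_orderOf ht (by norm_num)
  have bot : ∀ a ∈ V, a ∈ B → a = 1 := fun a h1 h2 => mem_bot.1 (v4 ▸ (⟨h1, h2⟩ : a ∈ V ⊓ B))
  have hn : V ≤ normalizer (B : Set G) := fun v hv => mem_normalizer_of_conj_mem fun b hb => by
    rwa [v3 v hv b hb, mul_inv_cancel_right]
  have := card_eq_mul_of_fibers (fun p : G × G => (IsConj z p.1 ∧ IsConj t p.2) ∧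
    t ∈ zpowers (p.1 * p.2)) (fun x => x ∈ B ∧ x ≠ 1 ∧ x * x = 1) Prod.fst (fun p hp => ?_) 13
    fun x hx => ?_
  · rw [thA, this, hB.inv]
  · have o1 := (orderOf_of_isConj hp.1.1).trans hz
    have o2 := (orderOf_of_isConj hp.1.2).trans ht
    have c := comm_of_mem_zpowers_mul (sq_of_orderOf o1) (sq_of_orderOf o2) t2 hp.2
    refine ⟨?_, ne_one_of_orderOf o1 (by norm_num), sq_of_orderOf o1⟩
    by_contra hc
    exact hzt (hp.1.1.trans (hCt _ (mem_Cen.2 c.1.symm) o1 hc))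
  · rw [← hB.odd x hx.1 hx.2.2 hx.2.1]
    have ox := H8.orderOf_two_of hx.2.2 hx.2.1
    have tx := v3 t htV x hx.1
    symm
    refine Nat.card_congr (Equiv.ofBijective (fun b => ⟨(x, t * b.1), ⟨⟨(hBz x hx.1 ox).symm, ?_⟩,
      ?_⟩, rfl⟩) ⟨fun a b e => ?_, fun ⟨⟨x', y⟩, ⟨⟨p1, p2⟩, p3⟩, p4⟩ => ?_⟩)
    · have nb : t * b.1 ∉ B := fun c => t1 (bot t htV ((mul_mem_cancel_right b.2.1).1 c))
      refine (hCt _ (mul_mem (self_mem_Cen t) (v2 b.2.1)) (H8.orderOf_two_of ?_ fun c => nb ?_)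
        nb).symm
      · rw [sq_mul_comm (v3 t htV _ b.2.1), t2, b.2.2.1, mul_one]
      · rw [c]; exact one_mem _
    · have e : x * (t * b.1) = t * (x * b.1) := by rw [← mul_assoc, ← tx, mul_assoc]
      have c : Commute t (x * b.1) := v3 t htV _ (mul_mem hx.1 b.2.1)
      show t ∈ zpowers (x * (t * b.1))
      rw [e]
      rcases b.2.2.2 with c' | c'
      · refine ⟨(3 : ℕ), ?_⟩
        simp only [zpow_natCast]
        rw [c.mul_pow, c', mul_one, pow_succ, sq, t2, one_mul]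
      · refine ⟨(5 : ℕ), ?_⟩
        simp only [zpow_natCast]
        rw [c.mul_pow, c', mul_one, pow_succ, show 4 = 2 * 2 by rfl, pow_mul, sq t, t2, one_pow,
          one_mul]
    · exact Subtype.ext (mul_left_cancel (Prod.mk.inj (Subtype.mk.inj e)).2)
    · obtain rfl : x' = x := p4
      have o2 : orderOf y = 2 := (orderOf_of_isConj p2).trans ht
      have c := comm_of_mem_zpowers_mul hx.2.2 (sq_of_orderOf o2) t2 p3
      have : y ∈ V ⊔ B := v5 ▸ mem_Cen.2 c.2.symm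
      obtain ⟨v, hv, b, hb, rfl⟩ := (H5.mem_sup_right_iff hn).1 this
      have b2 : b * b = 1 := by
        have := sq_of_orderOf o2
        rwa [sq_mul_comm (v3 v hv b hb), ← sq v, hV2 v hv, one_mul] at this
      have e : x' * (v * b) = v * (x' * b) := by rw [← mul_assoc, ← v3 v hv _ hx.1, mul_assoc]
      have cm : Commute v (x' * b) := v3 v hv _ (mul_mem hx.1 hb)
      obtain ⟨n, hn'⟩ := (Submonoid.mem_powers_iff _ _).1 (mem_powers_iff_mem_zpowers.2 p3)
      simp only at hn'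
      rw [e, cm.mul_pow] at hn'
      have h1 : (x' * b) ^ n = 1 := bot _ (by
        rw [eq_inv_mul_of_mul_eq hn']; exact mul_mem (inv_mem (pow_mem hv n)) htV)
        (pow_mem (mul_mem hx.1 hb) n)
      rw [h1, mul_one] at hn'
      obtain ⟨m, hm⟩ : Odd n := by
        rw [← Nat.not_even_iff_odd]
        rintro ⟨m, rfl⟩
        rw [← two_mul, pow_mul, hV2 v hv, one_pow] at hn'
        exact t1 hn'.symm
      rw [hm, pow_succ, pow_mul, hV2 v hv, one_pow, one_mul] at hn'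
      subst hn'
      refine ⟨⟨b, hb, b2, ?_⟩, rfl⟩
      rcases hB.ord _ (mul_mem hx.1 hb) with c | c
      · rw [hm, pow_succ, pow_mul, c, one_pow, one_mul] at h1
        left; rw [h1, one_pow]
      · exact c

theorem cnt_z {G : Type*} [Group G] [Finite G] {z t : G} (hz : orderOf z = 2) (ht : orderOf t = 2)
    (hzt : ¬ IsConj z t) {Q K : Subgroup G} (h : ES Q z) (hQ : Nat.card Q = 32)
    (hN : Cen z ≤ normalizer (Q : Set G)) (hC : Cen z ⊓ centralizer (Q : Set G) ≤ Q)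
    (hK : A5Like K) (hKC : K ⊔ Q = Cen z) (hKQ : K ⊓ Q = ⊥)
    (hQz : ∀ x ∈ Q, orderOf x = 2 → IsConj x z)
    (hCz : ∀ x ∈ Cen z, orderOf x = 2 → x ∉ Q → IsConj x t) : thA z t z = 960 := by
  have KC : K ≤ Cen z := hKC ▸ le_sup_left
  have QC : Q ≤ Cen z := hKC ▸ le_sup_right
  have bot : ∀ a ∈ K, a ∈ Q → a = 1 := fun a h1 h2 => mem_bot.1 (hKQ ▸ (⟨h1, h2⟩ : a ∈ K ⊓ Q))
  have cN : ∀ g ∈ Cen z, ∀ q ∈ Q, g * q * g⁻¹ ∈ Q := fun g hg q hq =>
    (mem_normalizer_iff.1 (hN hg) q).1 hq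
  have main : ∀ k, k ∈ K ∧ k ≠ 1 ∧ k * k = 1 →
      Nat.card {y // y * k⁻¹ ∈ Q ∧ y * y = 1} = 8 ∧ ∀ y, y * k⁻¹ ∈ Q → y * y = 1 →
      Nat.card {x // (x ∈ Q ∧ x * x = 1 ∧ x ≠ 1) ∧ z ∈ zpowers (x * y)} = 8 := fun k hk => by
    obtain ⟨g, g1, g2, g3, g4⟩ := hK.five k hk.1 hk.2.2 hk.2.1
    refine es_main h hQ g3 (cN g (KC g1)) (mem_Cen.1 (KC g1)).symm ?_ hk.2.2 (cN k (KC hk.1))
      (mem_Cen.1 (KC hk.1)).symm g2 fun c => hk.2.1 (bot k hk.1 c)
    by_contra hc
    push Not at hc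
    exact g4 (bot g g1 (hC ⟨KC g1, fun q hq => (hc q hq).symm⟩))
  have dec : ∀ y, y ∈ Cen z ∧ y ∉ Q ∧ y * y = 1 → ∃ k, (k ∈ K ∧ k ≠ 1 ∧ k * k = 1) ∧
      y * k⁻¹ ∈ Q := fun y hy => by
    have : y ∈ Q ⊔ K := by rw [sup_comm, hKC]; exact hy.1
    obtain ⟨q, hq, k, hk, rfl⟩ := (H5.mem_sup_left_iff (KC.trans hN)).1 this
    refine ⟨k, ⟨hk, fun c => hy.2.1 (by rwa [c, mul_one]), bot _ (mul_mem hk hk) ?_⟩, by simpa⟩
    have : k * k = (k * q * k⁻¹)⁻¹ * q⁻¹ * (q * k * (q * k)) := by group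
    rw [this, hy.2.2, mul_one]
    exact mul_mem (inv_mem (cN k (KC hk) q hq)) (inv_mem hq)
  have c1 := card_mul_eq_card_mul (fun y => y ∈ Cen z ∧ y ∉ Q ∧ y * y = 1)
    (fun k => k ∈ K ∧ k ≠ 1 ∧ k * k = 1) (fun y k => y * k⁻¹ ∈ Q) 1 8 (fun y hy => by
      obtain ⟨k, k1, k2⟩ := dec y hy
      rw [← card_subtype_eq_one k]
      refine card_subtype_congr fun l => ⟨fun c => ?_, fun c => c ▸ ⟨k1, k2⟩⟩
      have := bot (l * k⁻¹) (mul_mem c.1.1 (inv_mem k1.1)) (by
        have := mul_mem (inv_mem c.2) k2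
        rwa [show (y * l⁻¹)⁻¹ * (y * k⁻¹) = l * k⁻¹ by group] at this)
      exact mul_inv_eq_one.1 this) fun k hk => by
      rw [← (main k hk).1]
      refine card_subtype_congr fun y => ⟨fun c => ⟨c.2, c.1.2.2⟩, fun c => ⟨⟨?_, fun d => ?_,
        c.2⟩, c.1⟩⟩
      · exact (mul_mem_cancel_right (inv_mem (KC hk.1))).1 (QC c.1)
      · exact hk.2.1 (bot k hk.1 (inv_mem_iff.1 ((mul_mem_cancel_left d).1 c.1)))
  rw [hK.inv, mul_one] at c1
  have := card_eq_mul_of_fibers (fun p : G × G => (IsConj z p.1 ∧ IsConj t p.2) ∧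
    z ∈ zpowers (p.1 * p.2)) (fun y => y ∈ Cen z ∧ y ∉ Q ∧ y * y = 1) Prod.snd (fun p hp => ?_) 8
    fun y hy => ?_
  · rw [thA, this, c1]
  · have o1 := (orderOf_of_isConj hp.1.1).trans hz
    have o2 := (orderOf_of_isConj hp.1.2).trans ht
    have c := comm_of_mem_zpowers_mul (sq_of_orderOf o1) (sq_of_orderOf o2) h.sq_z hp.2
    exact ⟨mem_Cen.2 c.2.symm, fun d => hzt ((hQz _ d o2).symm.trans hp.1.2.symm),
      sq_of_orderOf o2⟩
  · obtain ⟨k, k1, k2⟩ := dec y hy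
    rw [← (main k k1).2 y k2 hy.2.2]
    have oy : orderOf y = 2 := H8.orderOf_two_of hy.2.2 fun c => hy.2.1 (by rw [c]; exact one_mem _)
    symm
    refine Nat.card_congr (Equiv.ofBijective (fun x => ⟨(x.1, y), ⟨⟨(hQz _ x.2.1.1
      (H8.orderOf_two_of x.2.1.2.1 x.2.1.2.2)).symm, (hCz y hy.1 oy hy.2.1).symm⟩, x.2.2⟩, rfl⟩)
      ⟨fun a b e => ?_, fun ⟨⟨x, y'⟩, ⟨⟨p1, p2⟩, p3⟩, p4⟩ => ?_⟩)
    · exact Subtype.ext (Prod.mk.inj (Subtype.mk.inj e)).1
    · obtain rfl : y' = y := p4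
      have o1 : orderOf x = 2 := (orderOf_of_isConj p1).trans hz
      have c := comm_of_mem_zpowers_mul (sq_of_orderOf o1) hy.2.2 h.sq_z p3
      refine ⟨⟨x, ⟨?_, sq_of_orderOf o1, ne_one_of_orderOf o1 (by norm_num)⟩, p3⟩, rfl⟩
      by_contra hc
      exact hzt (p1.trans (hCz x (mem_Cen.2 c.1.symm) o1 hc))


/-- The order of a simple group with the involution pattern of the Hall–Janko group. Let G be a non-abelian finite simple group with exactly two conjugacy classes of involutions, represented by z and t, such that: F*(C_G(z)) is an extraspecial 2-group; Q = O₂(C_G(z)) has order 32 and C_G(z) is the semidirect product of Q by a subgroup isomorphic to A₅; every involution of Q is conjugate to z and every other involution of C_G(z) is conjugate to t; C_G(t) is an internal direct product V × B with V a four-group containing t and B ≅ A₅; every involution of B is conjugate to z and every other involution of C_G(t) is conjugate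 to t. Then |G| = 604800. -/
theorem result {G : Type*} [Group G] [Finite G]
    [IsSimpleGroup G] (hna : ¬ IsMulCommutative G) (z t : G) (hz : orderOf z = 2) (ht : orderOf t = 2)
    (hzt : ¬ IsConj z t) (hcl : ∀ x : G, orderOf x = 2 → IsConj x z ∨ IsConj x t)
    (hex : Cfsg.IsExtraspecial 2 ↥(Cfsg.generalizedFittingSubgroup ↥(Subgroup.centralizer ({z} : Set G))))
    (hQ : Nat.card ↥(Cfsg.pCore 2 ↥(Subgroup.centralizer ({z} : Set G))) = 32)
    (K : Subgroup G) (hK : Nonempty (↥K ≃* alternatingGroup (Fin 5)))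
    (hKC : K ⊔ (Cfsg.pCore 2 ↥(Subgroup.centralizer ({z} : Set G))).map (Subgroup.centralizer ({z} : Set G)).subtype = Subgroup.centralizer ({z} : Set G))
    (hKQ : K ⊓ (Cfsg.pCore 2 ↥(Subgroup.centralizer ({z} : Set G))).map (Subgroup.centralizer ({z} : Set G)).subtype = ⊥)
    (hQz : ∀ x ∈ (Cfsg.pCore 2 ↥(Subgroup.centralizer ({z} : Set G))).map (Subgroup.centralizer ({z} : Set G)).subtype, orderOf x = 2 → IsConj x z)
    (hCz : ∀ x ∈ Subgroup.centralizer ({z} : Set G), orderOf x = 2 →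
      x ∉ (Cfsg.pCore 2 ↥(Subgroup.centralizer ({z} : Set G))).map (Subgroup.centralizer ({z} : Set G)).subtype → IsConj x t)
    (V B : Subgroup G) (hVB : Cfsg.IsInternalDirectProduct V B (Subgroup.centralizer ({t} : Set G)))
    (hV : Nat.card ↥V = 4) (hV2 : ∀ v ∈ V, v ^ 2 = 1) (htV : t ∈ V) (hB : Nonempty (↥B ≃* alternatingGroup (Fin 5)))
    (hBz : ∀ x ∈ B, orderOf x = 2 → IsConj x z)
    (hCt : ∀ x ∈ Subgroup.centralizer ({t} : Set G), orderOf x = 2 → x ∉ B → IsConj x t) :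
    Nat.card G = 604800 := by
  obtain ⟨eK⟩ := hK
  obtain ⟨eB⟩ := hB
  have aK := a5Like eK
  have aB := a5Like eB
  have e : generalizedFittingSubgroup (Cen z) = pCore 2 (Cen z) :=
    le_antisymm (H4.le_pCore inferInstance hex.1.1) ((H4.pCore_le_fitting 2).trans le_sup_right)
  have h0 : ES (generalizedFittingSubgroup (Cen z)) ⟨z, self_mem_Cen z⟩ :=
    es_of_isExtraspecial hex (fun c => ne_one_of_orderOf hz (by norm_num) (congrArg Subtype.val c))
      (mem_gfit_centralizer z) fun q _ => Subtype.ext (mem_Cen.1 q.2).symm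
  have h1 : ES (H4.pCoreIn 2 (Cen z)) z := by
    have := h0.map (Cen z).subtype_injective
    rwa [e] at this
  have hQ' : Nat.card (H4.pCoreIn 2 (Cen z)) = 32 := by
    rw [card_map_of_injective (subtype_injective _), hQ]
  have hC : Cen z ⊓ centralizer (H4.pCoreIn 2 (Cen z) : Set G) ≤ H4.pCoreIn 2 (Cen z) := by
    have := H4.inf_centralizer_gfitIn_le (Cen z)
    rwa [H4.gfitIn, e] at this
  have c1 := cnt_t hz ht hzt hVB hV2 htV aB hBz hCt
  have c2 := cnt_z hz ht hzt h1 hQ' (H4.le_normalizer_pCoreIn 2 _) hC aK hKC hKQ hQz hCz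
  have c3 : Nat.card (Cen z) = 1920 := by
    have := H5.card_sup_mul_card_inf (show K ≤ normalizer (H4.pCoreIn 2 (Cen z) : Set G) from
      (le_sup_left.trans hKC.le : K ≤ Cen z).trans (H4.le_normalizer_pCoreIn 2 _))
    rw [sup_comm, inf_comm, hKC, hKQ, hQ', aK.card, card_bot, mul_one] at this
    exact this
  have c4 : Nat.card (Cen t) = 240 := by
    have hn : V ≤ normalizer (B : Set G) := fun v hv => mem_normalizer_of_conj_mem fun b hb => by
      rwa [hVB.2.2.1 v hv b hb, mul_inv_cancel_right]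
    have := H5.card_sup_mul_card_inf hn
    rw [sup_comm, inf_comm, hVB.2.2.2.2, hVB.2.2.2.1, hV, aB.card, card_bot, mul_one] at this
    exact this
  rw [thompson_order hz ht hzt hcl, c1, c2, c3, c4]

end Cfsg.Agent.S3313
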