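import Cfsg.Statements.S3324
import Cfsg.Agent.H9.Sp4e
import Cfsg.Agent.H9.Tools3

set_option autoImplicit false
open Cfsg

namespace Cfsg.Agent.S3324

open Subgroup

/-- Let p be an odd prime and q = pⁿ with q ≡ 3 (mod 4), and let C₀ be the centralizer in PSp(4, q) of an element x of order p lying in the centre of a Sylow p-subgroup. Let G be a finite group with an element α of order p such that C_G(α) ≅ C₀, such that C_G(z) = C_G(α) for every nontrivial z in the centre of C_G(α), and in which not all elements of order p that are central in some Sylow p-subgroup are conjugate. Let P be a Sylow p-subgroup of G contained in C_G(α) (P has order q⁴) and M an elementary abelian subgroup of P of order q³. If N_G(M) does not have a normal Sylow p-subgroup, then M has a complement J in N_G(M) with J isomorphic to PGL(2, q) × C, C cyclic of order (q − 1)/2. -/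
theorem result
    {G : Type*} [Group G] [Finite G] {F : Type*} [Field F] [Fintype F] (p n : ℕ) [Fact p.Prime] (hp : p ≠ 2)
    (hn : 1 ≤ n) (hq4 : p ^ n % 4 = 3) (hF : Fintype.card F = p ^ n)
    (x : Cfsg.PSp 2 F) (hx : orderOf x = p) (Px : Sylow p (Cfsg.PSp 2 F)) (hxP : x ∈ (Px : Subgroup (Cfsg.PSp 2 F)))
    (hxc : ∀ y ∈ (Px : Subgroup (Cfsg.PSp 2 F)), y * x = x * y)
    (α : G) (hα : orderOf α = p)
    (e : ↥(Subgroup.centralizer ({α} : Set G)) ≃* ↥(Subgroup.centralizer ({x} : Set (Cfsg.PSp 2 F))))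
    (hb : ∀ z ∈ Subgroup.centralizer ({α} : Set G), z ≠ 1 → (∀ c ∈ Subgroup.centralizer ({α} : Set G), c * z = z * c) →
      Subgroup.centralizer ({z} : Set G) = Subgroup.centralizer ({α} : Set G))
    (hc : ∃ (u v : G) (Pu Pv : Sylow p G), orderOf u = p ∧ orderOf v = p ∧
      u ∈ (Pu : Subgroup G) ∧ (∀ y ∈ (Pu : Subgroup G), y * u = u * y) ∧
      v ∈ (Pv : Subgroup G) ∧ (∀ y ∈ (Pv : Subgroup G), y * v = v * y) ∧ ∀ g : G, g * u * g⁻¹ ≠ v)
    (P : Sylow p G) (hP : (P : Subgroup G) ≤ Subgroup.centralizer ({α} : Set G))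
    (M : Subgroup G) (hMP : M ≤ P) (hMc : IsMulCommutative ↥M) (hMe : ∀ m ∈ M, m ^ p = 1) (hMcard : Nat.card ↥M = p ^ (3 * n))
    (hnc : ∃ Q R : Sylow p ↥(Subgroup.normalizer (M : Set G)), Q ≠ R) :
    ∃ J : Subgroup G, J ≤ Subgroup.normalizer (M : Set G) ∧ M ⊔ J = Subgroup.normalizer (M : Set G) ∧ M ⊓ J = ⊥ ∧
      Nonempty (↥J ≃* (Matrix.ProjGenLinGroup (Fin 2) F × Multiplicative (ZMod ((p ^ n - 1) / 2)))) := by
  classical
  have hp' : p.Prime := Fact.out
  have hF' : Nat.card F = p ^ n := by rw [Nat.card_eq_fintype_card, hF]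
  obtain ⟨k, hk⟩ : ∃ k, p ^ n = 4 * k + 3 := ⟨p ^ n / 4, by omega⟩
  have hch : ringChar F ≠ 2 := fun h => by
    have := FiniteField.even_card_of_char_two h
    omega
  have h2 : (2 : F) ≠ 0 := Ring.two_ne_zero hch
  have hx1 : x ≠ 1 := H9.ne_one_of_orderOf hx hp'.one_lt.ne'
  obtain ⟨e0⟩ := H9.exists_hc hF' hn h2 hx1 Px hxP hxc
  let ι₁ : H9.HC F →* G := (centralizer ({α} : Set G)).subtype.comp (e0.trans e.symm).toMonoidHom
  have hι₁ : Function.Injective ι₁ := Subtype.val_injective.comp (e0.trans e.symm).injective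
  have hr₁ : ∀ g, g ∈ centralizer ({α} : Set G) → ∃ a, ι₁ a = g := fun g hg => by
    obtain ⟨a, ha⟩ := (e0.trans e.symm).surjective ⟨g, hg⟩
    exact ⟨a, congrArg Subtype.val ha⟩
  obtain ⟨k0, hk0⟩ := H9.HC.exists_conj_le_U (p := p) (hF' ▸ dvd_pow_self p (by omega))
    (P.isPGroup'.comap_of_injective ι₁ hι₁)
  let ι : H9.HC F →* G := ι₁.comp (MulAut.conj k0).toMonoidHom
  have hι : Function.Injective ι := hι₁.comp (MulAut.conj k0).injective
  have hι' : ∀ r, ι (k0⁻¹ * r * k0) = ι₁ r := fun r => by simp [ι, mul_assoc]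
  have hr : ι.range = centralizer ({α} : Set G) := by
    apply le_antisymm
    · rintro _ ⟨a, rfl⟩
      exact ((e0.trans e.symm) (k0 * a * k0⁻¹)).2
    · intro g hg
      obtain ⟨a, rfl⟩ := hr₁ g hg
      exact ⟨_, hι' a⟩
  have hPU : (P : Subgroup G) = (H9.HC.U F).map ι := by
    refine (P.is_maximal' ((H9.HC.isPGroup_U hF').map ι) fun y hy => ?_).symm
    obtain ⟨a, rfl⟩ := hr₁ y (hP hy)
    exact ⟨_, hk0 a hy, hι' a⟩
  have hz1 : ∀ z : F, ι (H9.HC.zz z) = 1 ↔ z = 0 := fun z => by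
    rw [← map_one ι, hι.eq_iff]
    exact ⟨fun h => congrArg H9.HC.z h, fun h => by ext <;> simp [H9.HC.zz, h]⟩
  have hcen : ∀ (u : G) (Pu : Sylow p G), orderOf u = p → u ∈ (Pu : Subgroup G) →
      (∀ y ∈ (Pu : Subgroup G), y * u = u * y) →
      ∃ (g : G) (z : F), z ≠ 0 ∧ g * u * g⁻¹ = ι (H9.HC.zz z) := by
    intro u Pu ou hu hcu
    obtain ⟨g, hg⟩ := MulAction.exists_smul_eq G Pu P
    have hm : ∀ y, y ∈ (P : Subgroup G) ↔ g⁻¹ * y * g ∈ (Pu : Subgroup G) := fun y => by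
      rw [← hg, Sylow.coe_subgroup_smul, Subgroup.mem_pointwise_smul_iff_inv_smul_mem]
      simp
    have h1 : g * u * g⁻¹ ∈ (P : Subgroup G) := (hm _).2 (by simpa [mul_assoc] using hu)
    rw [hPU] at h1
    obtain ⟨a, ha, e1⟩ := h1
    have e2 := H9.HC.eq_zz h2 ha (fun y hy => hι (by
      have := hcu _ ((hm _).1 (hPU ▸ mem_map_of_mem ι hy))
      rw [map_mul, map_mul, e1]
      calc ι y * (g * u * g⁻¹) = g * (g⁻¹ * ι y * g * u) * g⁻¹ := by group
        _ = _ := by rw [this]; group))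
    refine ⟨g, a.z, fun h => ?_, by rw [← e2, e1]⟩
    rw [e2, (hz1 _).2 h] at e1
    have := H9.orderOf_conj u g
    rw [← e1, ou, orderOf_one] at this
    exact hp'.one_lt.ne this
  have hM : M = (H9.HC.M0 F).map ι := by
    have hle : M ≤ ι.range := hMP.trans (hr ▸ hP)
    rw [← H9.HC.eq_M0 h2 (A := M.comap ι) (fun a ha => by
        have := hMP ha
        rw [hPU] at this
        exact (mem_map_iff_mem hι).1 this)
      (fun a ha b hb => hι (by
        rw [map_mul, map_mul]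
        exact congrArg Subtype.val (hMc.1.comm ⟨_, ha⟩ ⟨_, hb⟩)))
      (by
        rw [Nat.card_congr (equivMapOfInjective _ _ hι).toEquiv, map_comap_eq_self hle, hMcard,
          hF', ← pow_mul, mul_comm]), map_comap_eq_self hle]
  rw [show (p ^ n - 1) / 2 = 2 * k + 1 by omega]
  refine H9.sp4_main hn hF' (hF'.trans hk) ι hι (fun z hz => ?_) P hPU ?_ M hM hnc
  · rw [hr]
    refine hb _ (hr ▸ ⟨_, rfl⟩) (fun h => hz ((hz1 z).1 h)) fun c hc => ?_
    rw [← hr] at hc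
    obtain ⟨a, rfl⟩ := hc
    rw [← map_mul, ← map_mul, H9.HC.zz_comm]
  · obtain ⟨u, v, Pu, Pv, ou, ov, hu, hcu, hv, hcv, huv⟩ := hc
    obtain ⟨g₁, z₁, n1, e1⟩ := hcen u Pu ou hu hcu
    obtain ⟨g₂, z₂, n2, e2⟩ := hcen v Pv ov hv hcv
    refine ⟨z₁, z₂, n1, n2, fun g h => huv (g₂⁻¹ * g * g₁) ?_⟩
    rw [← e1, ← e2] at h
    calc g₂⁻¹ * g * g₁ * u * (g₂⁻¹ * g * g₁)⁻¹ = g₂⁻¹ * (g * (g₁ * u * g₁⁻¹) * g⁻¹) * g₂ := by group
      _ = v := by rw [h]; group

end Cfsg.Agent.S3324
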